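import Cfsg.Agent.Lib.Helper43.PO.Coset

set_option autoImplicit false
set_option linter.unusedSectionVars false

/-!
Centraliser of a field automorphism in the image of the similarity group: generic part.
-/

namespace Cfsg.Agent.Lib.Helper43.PO

open Matrix QuadraticMap Cfsg.Agent.Lib.Helper13.OOut Cfsg.Agent.Lib.Helper43.PA
  Cfsg.Agent.Lib.Helper44

universe u v

variable {F : Type u} [Field F] {ι : Type} [Fintype ι] [DecidableEq ι]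
variable {F₀ : Type v} [Field F₀] {i₀ : F₀ →+* F}

section base

variable {Q : QuadraticForm F (ι → F)} {Q₀ : QuadraticForm F₀ (ι → F₀)} (hr : IsRat i₀ Q Q₀)

include hr

lemma map_mem_simil {g₀ : GL ι F₀} (h : g₀ ∈ Cfsg.Geo.quadSimilarityGroup ⇑Q₀) :
    Matrix.GeneralLinearGroup.map i₀ g₀ ∈ Cfsg.Geo.quadSimilarityGroup ⇑Q := by
  obtain ⟨c, hc⟩ := h
  refine ⟨Units.map i₀.toMonoidHom c, ?_⟩
  have e : Q.comp (Matrix.mulVecLin (Matrix.GeneralLinearGroup.map i₀ g₀).1) =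
      ((Units.map i₀.toMonoidHom c : Fˣ) : F) • Q := by
    apply quad_ext_rat i₀
    intro w
    show Q ((g₀.1.map i₀) *ᵥ up i₀ w) = i₀ c * Q (up i₀ w)
    rw [← up_mulVec, hr, hc, hr, map_mul]
  intro v
  exact congrArg (fun q : QuadraticForm F (ι → F) => q v) e

lemma mem_simil_of_map (hex₀ : ∃ w, Q₀ w ≠ 0) {g₀ : GL ι F₀}
    (h : Matrix.GeneralLinearGroup.map i₀ g₀ ∈ Cfsg.Geo.quadSimilarityGroup ⇑Q) :
    g₀ ∈ Cfsg.Geo.quadSimilarityGroup ⇑Q₀ := by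
  obtain ⟨c, hc⟩ := h
  obtain ⟨w₀, hw₀⟩ := hex₀
  have key : ∀ w, i₀ (Q₀ (g₀.1 *ᵥ w)) = c * i₀ (Q₀ w) := by
    intro w
    rw [← hr, ← hr, up_mulVec]
    exact hc _
  have hc0 : (c : F) = i₀ (Q₀ (g₀.1 *ᵥ w₀) / Q₀ w₀) := by
    rw [map_div₀, key, mul_div_assoc, div_self, mul_one]
    exact fun h => hw₀ (i₀.injective (by rw [h, map_zero]))
  have hne : Q₀ (g₀.1 *ᵥ w₀) / Q₀ w₀ ≠ 0 := by
    intro h
    rw [h, map_zero] at hc0
    exact c.ne_zero hc0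
  refine ⟨Units.mk0 _ hne, fun w => ?_⟩
  apply i₀.injective
  rw [key, map_mul, hc0]
  rfl

lemma map_mem_iso {g₀ : GL ι F₀} (h : g₀ ∈ Cfsg.isometryGroup F₀ ⇑Q₀) :
    Matrix.GeneralLinearGroup.map i₀ g₀ ∈ Cfsg.isometryGroup F ⇑Q := by
  rw [mem_isometryGroup] at h ⊢
  have e : Q.comp (Matrix.mulVecLin (Matrix.GeneralLinearGroup.map i₀ g₀).1) = Q := by
    apply quad_ext_rat i₀
    intro w
    show Q ((g₀.1.map i₀) *ᵥ up i₀ w) = Q (up i₀ w)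
    rw [← up_mulVec, hr, h, hr]
  intro v
  exact congrArg (fun q : QuadraticForm F (ι → F) => q v) e

/-- the subfield subgroup of the similarity group. -/
noncomputable def mapSim : ↥(Cfsg.Geo.quadSimilarityGroup ⇑Q₀) →* ↥(Cfsg.Geo.quadSimilarityGroup ⇑Q) where
  toFun g₀ := ⟨Matrix.GeneralLinearGroup.map i₀ g₀.1, map_mem_simil hr g₀.2⟩
  map_one' := Subtype.ext (map_one _)
  map_mul' _ _ := Subtype.ext (map_mul _ _ _)

/-- the subfield subgroup of the isometry group. -/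
noncomputable def mapO : ↥(Cfsg.isometryGroup F₀ ⇑Q₀) →* ↥(Cfsg.isometryGroup F ⇑Q) where
  toFun g₀ := ⟨Matrix.GeneralLinearGroup.map i₀ g₀.1, map_mem_iso hr g₀.2⟩
  map_one' := Subtype.ext (map_one _)
  map_mul' _ _ := Subtype.ext (map_mul _ _ _)

lemma mapSim_val (g₀ : ↥(Cfsg.Geo.quadSimilarityGroup ⇑Q₀)) :
    (mapSim hr g₀).1 = Matrix.GeneralLinearGroup.map i₀ g₀.1 := rfl

lemma mapO_val (g₀ : ↥(Cfsg.isometryGroup F₀ ⇑Q₀)) :
    (mapO hr g₀).1 = Matrix.GeneralLinearGroup.map i₀ g₀.1 := rfl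

end base

lemma map_scalar_iff [Nonempty ι] (g₀ : GL ι F₀) :
    (∃ μ : F, (Matrix.GeneralLinearGroup.map i₀ g₀).1 = μ • (1 : Matrix ι ι F)) ↔
      ∃ μ₀ : F₀, g₀.1 = μ₀ • (1 : Matrix ι ι F₀) := by
  constructor
  · rintro ⟨μ, hμ⟩
    obtain ⟨i₁⟩ := ‹Nonempty ι›
    have h1 : ∀ i j, i₀ (g₀.1 i j) = if i = j then μ else 0 := by
      intro i j
      have := congrFun (congrFun hμ i) j
      rw [Matrix.smul_apply, Matrix.one_apply, smul_eq_mul, mul_ite, mul_one, mul_zero] at this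
      exact this
    refine ⟨g₀.1 i₁ i₁, ?_⟩
    ext i j
    apply i₀.injective
    rw [h1, Matrix.smul_apply, Matrix.one_apply, smul_eq_mul, mul_ite, mul_one, mul_zero]
    by_cases h : i = j
    · rw [if_pos h, if_pos h, h1, if_pos rfl]
    · rw [if_neg h, if_neg h, map_zero]
  · rintro ⟨μ₀, hμ₀⟩
    refine ⟨i₀ μ₀, ?_⟩
    show g₀.1.map i₀ = _
    rw [hμ₀]
    ext i j
    by_cases h : i = j
    · subst h; simp
    · simp [h]

/-! ### commuting with the field automorphism -/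

lemma pr_inv_fld (σ : F ≃+* F) : (pr (1 : GL ι F) σ)⁻¹ = pr 1 σ⁻¹ := by
  rw [inv_eq_iff_mul_eq_one, pr_mul, map_one, mul_one, mul_inv_cancel, pr_one]

lemma pr_fld_conj (g : GL ι F) (σ : F ≃+* F) :
    pr 1 σ * pr g 1 * (pr 1 σ)⁻¹ = pr (fieldGL σ g) 1 := by
  rw [pr_inv_fld, pr_mul, pr_mul, one_mul, mul_one, map_one, mul_one, mul_inv_cancel]

section

variable [Fintype F] (Q : QuadraticForm F (ι → F)) (hQ : (polarBilin Q).Nondegenerate)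
  (hn : 5 ≤ Fintype.card ι) (σ : F ≃+* F) (hinv : Inv Q σ)

include hQ hn

lemma comm_iff (g : ↥(Cfsg.Geo.quadSimilarityGroup ⇑Q)) :
    conjPOmega ⇑Q g * Th ⇑Q (fG ⇑Q σ hinv) = Th ⇑Q (fG ⇑Q σ hinv) * conjPOmega ⇑Q g ↔
      ∃ u : Fˣ, fieldGL σ g.1 = scG u * g.1 := by
  rw [← Th_inlG, MonoidHom.comp_apply, ← map_mul, ← map_mul, eq_comm, ← mul_inv_eq_one, ← map_inv,
    ← map_mul, Th_eq_one_iff Q hQ hn]
  have e : ((fG ⇑Q σ hinv * inlG ⇑Q g * (inlG ⇑Q g * fG ⇑Q σ hinv)⁻¹ : ↥(Gam ⇑Q)) : SG F ι) =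
      pr (fieldGL σ g.1 * g.1⁻¹) 1 := by
    show pr 1 σ * pr g.1 1 * (pr g.1 1 * pr 1 σ)⁻¹ = _
    rw [_root_.mul_inv_rev, ← mul_assoc, pr_fld_conj, pr_inv_one, pr_mul, fieldGL_one', mul_one]
  rw [e, pr_left, pr_right]
  constructor
  · rintro ⟨-, u, hu⟩
    exact ⟨u, by rw [← hu, inv_mul_cancel_right]⟩
  · rintro ⟨u, hu⟩
    exact ⟨rfl, u, by rw [hu, mul_inv_cancel_right]⟩

theorem mem_cent_iff (g : ↥(Cfsg.Geo.quadSimilarityGroup ⇑Q)) :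
    conjPOmega ⇑Q g ∈ Subgroup.centralizer {Th ⇑Q (fG ⇑Q σ hinv)} ↔
      ∃ v : Fˣ, fieldGL σ (scG v * g.1) = scG v * g.1 := by
  have hne : Nonempty ι := by
    rw [← Fintype.card_pos_iff]; omega
  have hfin : Finite (F ≃+* F) := Finite.of_injective (fun e => (e : F → F)) DFunLike.coe_injective
  rw [Subgroup.mem_centralizer_singleton_iff, comm_iff Q hQ hn σ hinv]
  constructor
  · rintro ⟨u, hu⟩
    have h1 := fieldGL_pow_of_scalar σ hu (orderOf σ)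
    rw [pow_orderOf_eq_one, fieldGL_one'] at h1
    have h2 : nU σ u (orderOf σ) = 1 := by
      apply scG_injective (ι := ι)
      rw [map_one]
      exact mul_eq_right.1 h1.symm
    obtain ⟨v, hv⟩ := hilbert90_units σ u _ rfl (orderOf_pos σ) h2
    refine ⟨v, ?_⟩
    rw [map_mul, fieldGL_scG, hu, ← mul_assoc, ← map_mul, hv, mul_comm, inv_mul_cancel_right]
  · rintro ⟨v, hv⟩
    refine ⟨v * (uM σ v)⁻¹, ?_⟩
    rw [map_mul, fieldGL_scG] at hv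
    have h3 : fieldGL σ g.1 = (scG (uM σ v))⁻¹ * (scG v * g.1) := by rw [← hv, inv_mul_cancel_left]
    rw [h3, ← mul_assoc, ← map_inv, ← map_mul, mul_comm]

end

/-! ### the centraliser -/

section

variable [Fintype F] [Fintype F₀] (Q : QuadraticForm F (ι → F)) (hQ : (polarBilin Q).Nondegenerate)
  (hn : 5 ≤ Fintype.card ι) (σ : F ≃+* F) (hinv : Inv Q σ)
  (hι : ∀ x, σ x = x ↔ ∃ y, i₀ y = x) {Q₀ : QuadraticForm F₀ (ι → F₀)} (hr : IsRat i₀ Q Q₀)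
  (S : Subgroup ↥(Cfsg.Geo.quadSimilarityGroup ⇑Q)) (S₀ : Subgroup ↥(Cfsg.Geo.quadSimilarityGroup ⇑Q₀))
  (hS : ∀ v, scalSimil Q v ∈ S) (hS₀ : ∀ g₀, g₀ ∈ S₀ ↔ mapSim hr g₀ ∈ S)

include hQ hn hι hS hS₀

theorem mem_cent_iff_exists (d : MulAut (Cfsg.POmega F ⇑Q)) :
    d ∈ S.map (conjPOmega ⇑Q) ⊓ Subgroup.centralizer {Th ⇑Q (fG ⇑Q σ hinv)} ↔
      ∃ g₀ ∈ S₀, conjPOmega ⇑Q (mapSim hr g₀) = d := by
  have hQ₀ := hr.nondeg hQ
  have hex₀ := exists_ne_zero Q₀ hQ₀ hn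
  constructor
  · rintro ⟨⟨g, hg, rfl⟩, hc⟩
    obtain ⟨v, hv⟩ := (mem_cent_iff Q hQ hn σ hinv g).1 hc
    obtain ⟨g₀, hg₀⟩ := (exists_mapG_eq i₀ σ hι _).1 hv
    have hmem : scG v * g.1 ∈ Cfsg.Geo.quadSimilarityGroup ⇑Q := mul_mem (scG_mem Q v) g.2
    have hg₀' : g₀ ∈ Cfsg.Geo.quadSimilarityGroup ⇑Q₀ := by
      apply mem_simil_of_map hr hex₀
      rw [hg₀]; exact hmem
    have e : mapSim hr ⟨g₀, hg₀'⟩ = scalSimil Q v * g := by
      apply Subtype.ext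
      rw [mapSim_val, Subgroup.coe_mul, scalSimil_val]
      exact hg₀
    refine ⟨⟨g₀, hg₀'⟩, ?_, ?_⟩
    · rw [hS₀, e]
      exact mul_mem (hS v) hg
    · rw [e, map_mul]
      have : conjPOmega ⇑Q (scalSimil Q v) = 1 :=
        (mem_ker_conjPOmega_iff' Q hQ hn _).2 ⟨v, scalSimil_coe Q v⟩
      rw [this, one_mul]
  · rintro ⟨g₀, hg₀, rfl⟩
    refine ⟨⟨_, (hS₀ g₀).1 hg₀, rfl⟩, ?_⟩
    apply (mem_cent_iff Q hQ hn σ hinv _).2
    refine ⟨1, ?_⟩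
    rw [map_one, one_mul]
    exact (exists_mapG_eq i₀ σ hι _).2 ⟨g₀.1, rfl⟩

theorem cent_equiv :
    Nonempty (↥(S.map (conjPOmega ⇑Q) ⊓ Subgroup.centralizer {Th ⇑Q (fG ⇑Q σ hinv)}) ≃*
      ↥(S₀.map (conjPOmega ⇑Q₀))) := by
  have hne : Nonempty ι := by
    rw [← Fintype.card_pos_iff]; omega
  have hQ₀ := hr.nondeg hQ
  let ψ : ↥S₀ →* MulAut (Cfsg.POmega F ⇑Q) := (conjPOmega ⇑Q).comp ((mapSim hr).comp S₀.subtype)
  let ψ₀ : ↥S₀ →* MulAut (Cfsg.POmega F₀ ⇑Q₀) := (conjPOmega ⇑Q₀).comp S₀.subtype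
  have hrange : ψ.range = S.map (conjPOmega ⇑Q) ⊓
      Subgroup.centralizer {Th ⇑Q (fG ⇑Q σ hinv)} := by
    ext d
    rw [mem_cent_iff_exists Q hQ hn σ hinv hι hr S S₀ hS hS₀]
    constructor
    · rintro ⟨g₀, rfl⟩
      exact ⟨g₀.1, g₀.2, rfl⟩
    · rintro ⟨g₀, hg₀, rfl⟩
      exact ⟨⟨g₀, hg₀⟩, rfl⟩
  have hrange₀ : ψ₀.range = S₀.map (conjPOmega ⇑Q₀) := by
    rw [MonoidHom.range_comp, Subgroup.range_subtype]
  have hker : ψ.ker = ψ₀.ker := by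
    ext g₀
    rw [MonoidHom.mem_ker, MonoidHom.mem_ker]
    show conjPOmega ⇑Q (mapSim hr g₀.1) = 1 ↔ conjPOmega ⇑Q₀ g₀.1 = 1
    rw [← MonoidHom.mem_ker, ← MonoidHom.mem_ker, mem_ker_conjPOmega_iff' Q hQ hn,
      mem_ker_conjPOmega_iff' Q₀ hQ₀ hn]
    exact map_scalar_iff g₀.1.1
  exact ⟨(((MulEquiv.subgroupCongr hrange).symm.trans
    (QuotientGroup.quotientKerEquivRange ψ).symm).trans
    (QuotientGroup.quotientMulEquivOfEq hker)).trans ((QuotientGroup.quotientKerEquivRange ψ₀).trans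
    (MulEquiv.subgroupCongr hrange₀))⟩

end

end Cfsg.Agent.Lib.Helper43.PO
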