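import Cfsg.Agent.Lib.Helper43.PO.Desc
import Cfsg.Agent.Lib.Helper43.PA.Coset

set_option autoImplicit false
set_option linter.unusedSectionVars false

/-!
The coset of a field automorphism in `Aut(PΩ)`: generic part.
-/

namespace Cfsg.Agent.Lib.Helper43.PO

open Matrix QuadraticMap Cfsg.Agent.Lib.Helper13.OOut Cfsg.Agent.Lib.Helper43.PA
  Cfsg.Agent.Lib.Helper44

universe u

variable {F : Type u} [Field F] {ι : Type} [Fintype ι] [DecidableEq ι]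

lemma pr_conj' (h g : GL ι F) (σ : F ≃+* F) :
    pr h 1 * pr g σ * (pr h 1)⁻¹ = pr (h * g * (fieldGL σ h)⁻¹) σ := by
  rw [pr_inv_one, pr_mul, pr_mul, fieldGL_one', one_mul, mul_one, map_inv]

lemma inlG_val (Q : (ι → F) → F) (g : ↥(Cfsg.Geo.quadSimilarityGroup Q)) :
    (inlG Q g : SG F ι) = pr g.1 1 := rfl

lemma scalSimil_val (Q : QuadraticForm F (ι → F)) (v : Fˣ) :
    (scalSimil Q v : GL ι F) = scG v := by
  apply Units.ext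
  rw [scalSimil_coe, scG_coe']

lemma scG_mem (Q : QuadraticForm F (ι → F)) (v : Fˣ) :
    (scG v : GL ι F) ∈ Cfsg.Geo.quadSimilarityGroup ⇑Q := by
  rw [← scalSimil_val Q]
  exact (scalSimil Q v).2

lemma pr_mem_of_simil {Q : (ι → F) → F} {g h : GL ι F} {σ : F ≃+* F}
    (hh : h ∈ Cfsg.Geo.quadSimilarityGroup Q) (hg : pr g σ ∈ Gam Q) : pr (h * g) σ ∈ Gam Q := by
  have e : pr (h * g) σ = pr h 1 * pr g σ := by rw [pr_mul, fieldGL_one', one_mul]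
  rw [e]
  exact (Gam Q).mul_mem (inlG Q ⟨h, hh⟩).2 hg

/-- the field automorphism as a semisimilarity. -/
def fG (Q : (ι → F) → F) (σ : F ≃+* F) (h : Inv Q σ) : ↥(Gam Q) :=
  ⟨pr 1 σ, ⟨1, fun v => by simpa using h v⟩⟩

lemma fG_val (Q : (ι → F) → F) (σ : F ≃+* F) (h : Inv Q σ) : (fG Q σ h : SG F ι) = pr 1 σ := rfl

lemma isFieldAut_iff (Q : (ι → F) → F) (σ : F ≃+* F) (h : Inv Q σ)
    (φ : Cfsg.POmega F Q ≃* Cfsg.POmega F Q) :
    Cfsg.IsFieldAutPOmegaOf Q σ φ ↔ φ = Th Q (fG Q σ h) := by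
  rw [← isInduced_iff' Q (fG Q σ h) φ]
  unfold Cfsg.IsFieldAutPOmegaOf Cfsg.IsInducedBySemilinearPOmega
  simp only [fG_val, pr_left, pr_right, inv_one, Units.val_one, one_mul, mul_one]

lemma inlG_mul_fG (Q : (ι → F) → F) (σ : F ≃+* F) (h : Inv Q σ)
    (g : ↥(Cfsg.Geo.quadSimilarityGroup Q)) :
    ((inlG Q g * fG Q σ h : ↥(Gam Q)) : SG F ι) = pr g.1 σ := by
  rw [Subgroup.coe_mul, inlG_val, fG_val, pr_mul, map_one, mul_one, one_mul]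

section

variable [Fintype F] (Q : QuadraticForm F (ι → F)) (hQ : (polarBilin Q).Nondegenerate)
  (hn : 5 ≤ Fintype.card ι)

include hQ hn

lemma Th_eq_one_iff (y : ↥(Gam ⇑Q)) :
    Th ⇑Q y = 1 ↔ (y : SG F ι).right = 1 ∧ ∃ u : Fˣ, (y : SG F ι).left = scG u := by
  have hne : Nonempty ι := by
    rw [← Fintype.card_pos_iff]; omega
  rw [← MonoidHom.mem_ker, mem_ker_Th_iff Q hQ hn]
  constructor
  · rintro ⟨h1, μ, hμ⟩
    exact ⟨h1, exists_scG_of_smul hμ⟩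
  · rintro ⟨h1, u, hu⟩
    exact ⟨h1, u, by rw [hu, scG_coe']⟩

lemma Th_scG_mul (v : Fˣ) (g : GL ι F) (σ : F ≃+* F) (hy : pr g σ ∈ Gam ⇑Q) :
    Th ⇑Q ⟨pr (scG v * g) σ, pr_mem_of_simil (scG_mem Q v) hy⟩ = Th ⇑Q ⟨pr g σ, hy⟩ := by
  have e : (⟨pr (scG v * g) σ, pr_mem_of_simil (scG_mem Q v) hy⟩ : ↥(Gam ⇑Q)) =
      inlG ⇑Q ⟨scG v, scG_mem Q v⟩ * ⟨pr g σ, hy⟩ := by
    apply Subtype.ext
    show _ = pr (scG v) 1 * pr g σ
    rw [pr_mul, fieldGL_one', one_mul]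
  rw [e, map_mul, (Th_eq_one_iff Q hQ hn _).2 ⟨rfl, v, rfl⟩, one_mul]

omit hQ hn in
lemma nrmG_one (σ : F ≃+* F) (k : ℕ) : nrmG σ (1 : GL ι F) k = 1 := by
  induction k with
  | zero => rfl
  | succ k ih => rw [nrmG_succ, ih]; simp

lemma orderOf_Th_fG (σ : F ≃+* F) (h : Inv Q σ) : orderOf (Th ⇑Q (fG ⇑Q σ h)) = orderOf σ := by
  rw [orderOf_eq_orderOf_iff]
  intro k
  rw [← map_pow, Th_eq_one_iff Q hQ hn, Subgroup.coe_pow, fG_val, pr_pow, pr_left, pr_right,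
    nrmG_one]
  constructor
  · intro h; exact h.1
  · intro h; exact ⟨h, 1, by simp⟩

/-- normalisation of the norm. -/
theorem exists_norm_one (g : GL ι F) (σ : F ≃+* F) (hy : pr g σ ∈ Gam ⇑Q)
    (h : (Th ⇑Q ⟨pr g σ, hy⟩) ^ (orderOf σ) = 1) :
    ∃ v : Fˣ, nrmG σ (scG v * g) (orderOf σ) = 1 := by
  have hne : Nonempty ι := by
    rw [← Fintype.card_pos_iff]; omega
  have hfin : Finite (F ≃+* F) := Finite.of_injective (fun e => (e : F → F)) DFunLike.coe_injective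
  have hσ : σ ^ (orderOf σ) = 1 := pow_orderOf_eq_one σ
  rw [← map_pow, Th_eq_one_iff Q hQ hn, Subgroup.coe_pow, pr_pow, pr_left] at h
  obtain ⟨-, u, hu⟩ := h
  have h2 : uM σ u = u := by
    apply scG_injective (ι := ι)
    rw [← fieldGL_scG]
    have e1 := nrmG_succ σ g (orderOf σ)
    rw [nrmG_succ', hσ, fieldGL_one', hu, scG_comm] at e1
    exact (mul_left_cancel e1).symm
  obtain ⟨v, hv⟩ := exists_nU_eq σ _ rfl (orderOf_pos σ) u⁻¹ (by rw [map_inv, h2])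
  refine ⟨v, ?_⟩
  rw [nrmG_scG_mul, hv, hu, ← map_mul, inv_mul_cancel, map_one]

omit hQ hn in
/-- conjugacy from similarity of the rational forms. -/
theorem Th_conj_of_simRat {σ : F ≃+* F} {g g' : GL ι F} (hy : pr g σ ∈ Gam ⇑Q)
    (hy' : pr g' σ ∈ Gam ⇑Q) {Q₁ Q₂ : QuadraticForm F (ι → F)} (h1 : RatForm Q σ g Q₁)
    (h2 : RatForm Q σ g' Q₂) (hs : SimRat σ Q₁ Q₂) :
    ∃ h : ↥(Cfsg.Geo.quadSimilarityGroup ⇑Q), g = h.1 * g' * (fieldGL σ h.1)⁻¹ ∧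
      Th ⇑Q ⟨pr g σ, hy⟩ =
      conjPOmega ⇑Q h * Th ⇑Q ⟨pr g' σ, hy'⟩ * (conjPOmega ⇑Q h)⁻¹ := by
  obtain ⟨h, hh, e⟩ := conj_of_ratForm h1 h2 hs
  refine ⟨⟨h, hh⟩, e, ?_⟩
  rw [← Th_inlG, MonoidHom.comp_apply, ← map_inv, ← map_mul, ← map_mul]
  congr 1
  apply Subtype.ext
  show pr g σ = pr h 1 * pr g' σ * (pr h 1)⁻¹
  rw [pr_conj', ← e]

end

end Cfsg.Agent.Lib.Helper43.PO
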