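import Cfsg.Agent.Lib.Helper43.PO.SS2
import Cfsg.Agent.Lib.Helper43.PO.Class2

set_option autoImplicit false
set_option linter.unusedSectionVars false

/-!
Normality of the image of `SS`, and the generic coset theorem relative to a subgroup of index two
of the similarity group.
-/

namespace Cfsg.Agent.Lib.Helper43.PO

open Matrix QuadraticMap Module Cfsg.Agent.Lib.Helper13.OOut Cfsg.Agent.Lib.Helper43.PA
  Cfsg.Agent.Lib.Helper44

universe u v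

variable {F : Type u} [Field F] {ι : Type} [Fintype ι] [DecidableEq ι]

section

variable [Fintype F] (Q : QuadraticForm F (ι → F)) (hQ : (polarBilin Q).Nondegenerate)
  (hn : 5 ≤ Fintype.card ι)

theorem SS_map_eq_inn (h2 : (2 : F) = 0) (hex : ∃ v, Q v ≠ 0) (n : ℕ) :
    (SS Q hex n).map (conjPOmega ⇑Q) = Cfsg.Inn (Cfsg.POmega F ⇑Q) := by
  rw [SS_two h2, map_sup_ker_eq, inn_eq']

include hQ hn

theorem normal_SS_map (n : ℕ) (htop : Cfsg.gammaPOmega F ⇑Q = ⊤) :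
    ((SS Q (exists_ne_zero Q hQ hn) n).map (conjPOmega ⇑Q)).Normal := by
  by_cases h2 : (2 : F) = 0
  · rw [SS_map_eq_inn Q h2]
    infer_instance
  have hs := Th_surjective Q hQ hn htop
  constructor
  rintro _ ⟨s, hsS, rfl⟩ y
  obtain ⟨Y, rfl⟩ := hs y
  have hk : Y * inlG ⇑Q s * Y⁻¹ ∈ (lam ⇑Q).ker := by
    have h1 : inlG ⇑Q s ∈ (lam ⇑Q).ker := by
      rw [ker_lam]; exact ⟨s, rfl⟩
    exact (inferInstance : ((lam ⇑Q).ker).Normal).conj_mem _ h1 Y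
  rw [ker_lam] at hk
  obtain ⟨s', hs'⟩ := hk
  refine ⟨s', ?_, ?_⟩
  · have e : inlG ⇑Q s' * Y = Y * inlG ⇑Q s := by rw [hs', inv_mul_cancel_right]
    have eL : s'.1 * (Y : SG F ι).left = (Y : SG F ι).left * fieldGL (Y : SG F ι).right s.1 := by
      have := congrArg (fun z : ↥(Gam ⇑Q) => (z : SG F ι).left) e
      simpa [inlG_val, pr, SemidirectProduct.mul_left] using this
    obtain ⟨c, hc⟩ := mem_Gam.1 Y.2
    obtain ⟨v, hv⟩ := exists_ne_zero Q hQ hn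
    have hm : (multF Q s' : F) = (Y : SG F ι).right (multF Q s : F) := by
      have h1 : s'.1.1 *ᵥ act (Y : SG F ι) v = act (Y : SG F ι) (s.1.1 *ᵥ v) := by
        rw [act_def, act_def, mulVec_mulVec, ← Units.val_mul, eL, Units.val_mul, ← mulVec_mulVec,
          map_mulVec', fieldGL_coe]
      have h3 := multF_spec Q s' (act (Y : SG F ι) v)
      rw [h1, hc, hc, multF_spec, map_mul] at h3
      have hne : (c : F) * (Y : SG F ι).right (Q v) ≠ 0 :=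
        mul_ne_zero c.ne_zero (by simpa using hv)
      apply mul_right_cancel₀ hne
      rw [← h3]; ring
    have hd : s'.1.1.det = (Y : SG F ι).right (s.1.1.det) := by
      have h1 := congrArg (fun z : GL ι F => z.1.det) eL
      simp only [Units.val_mul, Matrix.det_mul, fieldGL_coe] at h1
      have h3 : (s.1.1.map ⇑(Y : SG F ι).right).det = (Y : SG F ι).right (s.1.1.det) := by
        have := ((Y : SG F ι).right : F →+* F).map_det s.1.1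
        exact this.symm
      rw [h3, mul_comm] at h1
      have hne : ((Y : SG F ι).left).1.det ≠ 0 := by
        have := (Matrix.GeneralLinearGroup.det (Y : SG F ι).left).ne_zero
        simpa using this
      exact mul_left_cancel₀ hne h1
    rw [SetLike.mem_coe, mem_SS_odd h2] at hsS ⊢
    rw [hd, hm, hsS, map_pow]
  · rw [← Th_inlG, MonoidHom.comp_apply, MonoidHom.comp_apply, hs', map_mul, map_mul, map_inv]

/-- the generic coset theorem. -/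
theorem coset_generic (σ : F ≃+* F) (S : Subgroup ↥(Cfsg.Geo.quadSimilarityGroup ⇑Q))
    (hscal : ∀ v, scalSimil Q v ∈ S)
    (htwo : ∀ h t, h ∉ S → t ∉ S → h * t ∈ S)
    (t₀ t : ↥(Cfsg.Geo.quadSimilarityGroup ⇑Q)) (hy₀ : pr t₀.1 σ ∈ Gam ⇑Q)
    (hN : nrmG σ t₀.1 (orderOf σ) = 1)
    (htS : t ∉ S) (htσ : fieldGL σ t.1 = t.1) (hcomm : t.1 * t₀.1 = t₀.1 * t.1)
    (hcl : ∀ g ∈ S, ∀ Q₁ Q₂, RatForm Q σ (g.1 * t₀.1) Q₁ → RatForm Q σ t₀.1 Q₂ → SimRat σ Q₁ Q₂)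
    (g : ↥(Cfsg.Geo.quadSimilarityGroup ⇑Q)) (hg : g ∈ S)
    (h : (conjPOmega ⇑Q g * Th ⇑Q ⟨pr t₀.1 σ, hy₀⟩) ^ (orderOf σ) = 1) :
    ∃ k ∈ S, conjPOmega ⇑Q g * Th ⇑Q ⟨pr t₀.1 σ, hy₀⟩ =
      conjPOmega ⇑Q k * Th ⇑Q ⟨pr t₀.1 σ, hy₀⟩ * (conjPOmega ⇑Q k)⁻¹ := by
  have hex := exists_ne_zero Q hQ hn
  have hy : pr (g.1 * t₀.1) σ ∈ Gam ⇑Q := pr_mem_of_simil g.2 hy₀
  have e : conjPOmega ⇑Q g * Th ⇑Q ⟨pr t₀.1 σ, hy₀⟩ = Th ⇑Q ⟨pr (g.1 * t₀.1) σ, hy⟩ := by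
    rw [← Th_inlG, MonoidHom.comp_apply, ← map_mul]
    congr 1
  rw [e] at h ⊢
  obtain ⟨v, hv⟩ := exists_norm_one Q hQ hn _ σ hy h
  have hy2 := pr_mem_of_simil (scG_mem Q v) hy
  obtain ⟨Q₁, hQ₁⟩ := exists_ratForm Q hex σ _ hy2 hv
  obtain ⟨Q₂, hQ₂⟩ := exists_ratForm Q hex σ _ hy₀ hN
  have hs : SimRat σ Q₁ Q₂ := by
    apply hcl (scalSimil Q v * g) (mul_mem (hscal v) hg) Q₁ Q₂ _ hQ₂
    rw [Subgroup.coe_mul, scalSimil_val, mul_assoc]
    exact hQ₁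
  obtain ⟨k, -, hk⟩ := Th_conj_of_simRat Q hy2 hy₀ hQ₁ hQ₂ hs
  rw [Th_scG_mul Q hQ hn v _ σ hy] at hk
  by_cases hkS : k ∈ S
  · exact ⟨k, hkS, hk⟩
  · refine ⟨k * t, htwo k t hkS htS, ?_⟩
    have ht : conjPOmega ⇑Q t * Th ⇑Q ⟨pr t₀.1 σ, hy₀⟩ * (conjPOmega ⇑Q t)⁻¹ =
        Th ⇑Q ⟨pr t₀.1 σ, hy₀⟩ := by
      rw [← Th_inlG, MonoidHom.comp_apply, ← map_inv, ← map_mul, ← map_mul]
      congr 1
      apply Subtype.ext
      show pr t.1 1 * pr t₀.1 σ * (pr t.1 1)⁻¹ = pr t₀.1 σ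
      rw [pr_conj', htσ, hcomm, mul_inv_cancel_right]
    rw [hk, map_mul, _root_.mul_inv_rev]
    conv_lhs => rw [← ht]
    group

end

end Cfsg.Agent.Lib.Helper43.PO
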