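import Cfsg.Agent.Lib.Helper43.PO.MinusCent

set_option autoImplicit false
set_option linter.unusedSectionVars false

/-!
Graph-field involutions of the plus type groups: transport to a field automorphism of the group
of a twisted form.
-/

namespace Cfsg.Agent.Lib.Helper43.PO

open Matrix QuadraticMap Module Cfsg.Agent.Lib.Helper13.OOut Cfsg.Agent.Lib.Helper43.PA
  Cfsg.Agent.Lib.Helper44 Cfsg.Agent.Lib.Helper5

universe u v

variable {F : Type u} [Field F] {ι κ : Type} [Fintype ι] [DecidableEq ι] [Fintype κ] [DecidableEq κ]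

namespace Tr

variable {Q : QuadraticForm F (ι → F)} {Q' : QuadraticForm F (κ → F)} (T : Tr Q Q')

include T in
lemma nondeg (hQ : (polarBilin Q).Nondegenerate) : (polarBilin Q').Nondegenerate := by
  apply nondeg_of_sep
  intro x hx
  have hp : ∀ x y, polar Q (T.M *ᵥ x) (T.M *ᵥ y) = T.l * polar Q' x y := by
    intro x y
    unfold QuadraticMap.polar
    rw [← mulVec_add, T.spec, T.spec, T.spec]
    ring
  have h1 : T.M *ᵥ x = 0 := by
    apply hQ.1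
    intro y
    rw [polarBilin_apply_apply, ← T.M_N_mulVec y, hp, hx, mul_zero]
  have := congrArg (fun z => T.N *ᵥ z) h1
  simpa [mulVec_mulVec, T.NM] using this

theorem Lam_field (σ : F ≃+* F) (hinv' : Inv Q' σ) (t : GL ι F) (hy : pr t σ ∈ Gam ⇑Q)
    (h1 : t.1 * T.M.map σ = T.M) :
    T.Lam (Th ⇑Q' (fG ⇑Q' σ hinv')) = Th ⇑Q ⟨pr t σ, hy⟩ := by
  apply (isInduced_iff' ⇑Q ⟨pr t σ, hy⟩ _).1
  intro s s₁ hs
  obtain ⟨s', rfl⟩ := (commutatorEquiv T.O).surjective s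
  obtain ⟨s₁', rfl⟩ := (commutatorEquiv T.O).surjective s₁
  rw [← Psi_mk, ← Psi_mk, Lam_apply]
  congr 1
  have hf := (isFieldAut_iff ⇑Q' σ hinv' _).2 rfl
  apply hf s' s₁'
  have hs' : T.M * s₁'.1.1.1 * T.N = t.1 * (T.M * s'.1.1.1 * T.N).map σ * (t⁻¹ : GL ι F).1 := hs
  have h2 : T.N.map σ * (t⁻¹ : GL ι F).1 * T.M = 1 := by
    conv_lhs => rw [← h1]
    rw [Matrix.mul_assoc, ← Matrix.mul_assoc (t⁻¹ : GL ι F).1, ← Units.val_mul, inv_mul_cancel,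
      Units.val_one, Matrix.one_mul, ← Matrix.map_mul, T.NM]
    simp
  have h3 := congrArg (fun X => T.N * X * T.M) hs'
  rw [T.conj_conj, Matrix.map_mul, Matrix.map_mul] at h3
  rw [h3]
  calc T.N * (t.1 * (T.M.map σ * s'.1.1.1.map σ * T.N.map σ) * (t⁻¹ : GL ι F).1) * T.M
      = T.N * (t.1 * T.M.map σ) * s'.1.1.1.map σ * (T.N.map σ * (t⁻¹ : GL ι F).1 * T.M) := by
        simp only [Matrix.mul_assoc]
    _ = s'.1.1.1.map σ := by rw [h1, h2, T.NM, Matrix.one_mul, Matrix.mul_one]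

end Tr

variable {F₀ : Type v} [Field F₀] {i₀ : F₀ →+* F}

theorem exists_twist [Fintype F] [Fintype F₀] (n : ℕ) (hn : 2 ≤ n) (σ : F ≃+* F)
    (h2σ : orderOf σ = 2) (hι : ∀ x, σ x = x ↔ ∃ y, i₀ y = x) (v : Fin (n + 1) ⊕ Fin (n + 1) → F)
    (hv : plusQF (n + 1) F v ≠ 0) (hvσ : ∀ i, σ (v i) = v i) :
    ∃ (ζ₀ : F₀) (_ : ∀ z : F₀, z ^ 2 + z + ζ₀ ≠ 0)
      (T : Tr (plusQF (n + 1) F) (minusQF n F (i₀ 1) (i₀ ζ₀))),
      (reflElt (plusQF (n + 1) F) v).1.1 * T.M.map σ = T.M := by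
  have hQ := plusQF_nondeg (n + 1) F
  have hn5 := plus_hn n hn
  set t := ofO (plusQF (n + 1) F) (reflElt (plusQF (n + 1) F) v) with ht
  have htS := refl_not_mem_SS (n := n + 1) (plusQF (n + 1) F) hQ hn5 v hv
  have htσ : fieldGL σ t.1 = t.1 := fieldGL_reflElt _ σ (inv_plus _ σ) v hvσ
  have hN : nrmG σ t.1 (orderOf σ) = 1 := by
    rw [nrmG_of_fixed htσ, h2σ, pow_two]
    exact congrArg Subtype.val (reflElt_mul_self (plusQF (n + 1) F) v)
  obtain ⟨Qt, hQt⟩ := exists_ratForm _ (exists_ne_zero _ hQ hn5) σ t.1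
    (pr_mem_of_inv _ σ (inv_plus _ σ) t) hN
  obtain ⟨h₀, ν, hth, hQ1⟩ := hQt.ex
  obtain ⟨Pt, hP⟩ := exists_desc hι Qt hQt.inv
  rcases dich Pt (hP.nondeg (hQt.nondeg hQ)) (plus_card (n + 1)) with e | ⟨ζ₀, hζ, M₀, N₀, h1, h2, h3⟩
  · exfalso
    obtain ⟨k₀, hk⟩ := e.exists_GL
    have hs : SimRat σ Qt (plusQF (n + 1) F) :=
      simRat_of_rat hι hP (isRat_plus i₀ _) k₀ 1 (fun w => by rw [hk]; simp)
    obtain ⟨h, hh, e2⟩ := conj_of_ratForm hQt (ratForm_one (inv_plus _ σ)) hs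
    exact htS (lang_mem_SS _ hQ hn5 (plus_card _) σ (inv_plus _ σ) ⟨h, hh⟩ t (by rw [e2, mul_one]))
  · have hMN : M₀.map i₀ * N₀.map i₀ = 1 := by rw [← Matrix.map_mul, h1]; simp
    have hNM : N₀.map i₀ * M₀.map i₀ = 1 := by rw [← Matrix.map_mul, h2]; simp
    have hsp : ∀ w, Qt ((M₀.map i₀) *ᵥ w) = minusQF n F (i₀ 1) (i₀ ζ₀) w := by
      have e : Qt.comp (Matrix.mulVecLin (M₀.map i₀)) = minusQF n F (i₀ 1) (i₀ ζ₀) := by
        apply quad_ext_rat i₀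
        intro w
        show Qt ((M₀.map i₀) *ᵥ up i₀ w) = minusQF n F (i₀ 1) (i₀ ζ₀) (up i₀ w)
        rw [← up_mulVec', hP, h3, isRat_minus i₀ n 1 ζ₀]
      intro w
      exact congrArg (fun q : QuadraticForm F _ => q w) e
    refine ⟨ζ₀, hζ, ⟨h₀.1 * M₀.map i₀, N₀.map i₀ * (h₀⁻¹ : GL _ F).1, ?_, ?_, ν⁻¹, ?_⟩, ?_⟩
    · rw [Matrix.mul_assoc, ← Matrix.mul_assoc (M₀.map i₀), hMN, Matrix.one_mul, ← Units.val_mul,
        mul_inv_cancel, Units.val_one]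
    · rw [Matrix.mul_assoc, ← Matrix.mul_assoc (h₀⁻¹ : GL _ F).1, ← Units.val_mul,
        inv_mul_cancel, Units.val_one, Matrix.one_mul, hNM]
    · intro w
      rw [← hsp, hQ1, mulVec_mulVec, ← mul_assoc, ← Units.val_mul, inv_mul_cancel, Units.val_one,
        one_mul]
    · show t.1.1 * (h₀.1 * M₀.map i₀).map σ = h₀.1 * M₀.map i₀
      have e1 : (M₀.map i₀).map σ = M₀.map i₀ := by
        ext i j
        exact (hι _).2 ⟨_, rfl⟩
      have e2 : t.1 * fieldGL σ h₀ = h₀ := by rw [hth, inv_mul_cancel_right]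
      rw [Matrix.map_mul, e1, ← Matrix.mul_assoc, ← fieldGL_coe, ← Units.val_mul, e2]

end Cfsg.Agent.Lib.Helper43.PO
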