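import Cfsg.Agent.Lib.Helper43.PO.PlusRow2
import Cfsg.Agent.Lib.Helper43.PA.FieldAut
import Cfsg.Agent.Lib.Helper43.PA.Split

set_option autoImplicit false
set_option linter.unusedSectionVars false

/-!
Graph-field involutions of the plus type groups: reduction and conjugacy.
-/

namespace Cfsg.Agent.Lib.Helper43.PO

open Matrix QuadraticMap Module Cfsg.Agent.Lib.Helper13.OOut Cfsg.Agent.Lib.Helper43.PA
  Cfsg.Agent.Lib.Helper44

universe u v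

/-- the sign character of a subgroup of index at most two. -/
noncomputable def sgnHom {Γ : Type*} [Group Γ] (S : Subgroup Γ)
    (htwo : ∀ h t, h ∉ S → t ∉ S → h * t ∈ S) : Γ →* ℤˣ where
  toFun g := open Classical in if g ∈ S then 1 else -1
  map_one' := by simp [S.one_mem]
  map_mul' a b := by
    by_cases ha : a ∈ S <;> by_cases hb : b ∈ S
    · simp [ha, hb, S.mul_mem ha hb]
    · have : a * b ∉ S := fun h => hb ((S.mul_mem_cancel_left ha).1 h)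
      simp [ha, hb, this]
    · have : a * b ∉ S := fun h => ha ((S.mul_mem_cancel_right hb).1 h)
      simp [ha, hb, this]
    · simp [ha, hb, htwo a b ha hb]

lemma sgnHom_eq_one_iff {Γ : Type*} [Group Γ] (S : Subgroup Γ)
    (htwo : ∀ h t, h ∉ S → t ∉ S → h * t ∈ S) (g : Γ) : sgnHom S htwo g = 1 ↔ g ∈ S := by
  classical
  change (if g ∈ S then (1 : ℤˣ) else -1) = 1 ↔ _
  by_cases h : g ∈ S
  · simp [h]
  · simp only [h, if_false, iff_false]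
    decide

lemma sgnHom_congr {Γ : Type*} [Group Γ] (S : Subgroup Γ)
    (htwo : ∀ h t, h ∉ S → t ∉ S → h * t ∈ S) {a b : Γ} (h : a ∈ S ↔ b ∈ S) :
    sgnHom S htwo a = sgnHom S htwo b := by
  classical
  change (if a ∈ S then (1 : ℤˣ) else -1) = (if b ∈ S then (1 : ℤˣ) else -1)
  simp only [h]

variable {F : Type u} [Field F]

lemma ringAut_comm [Finite F] (a b : F ≃+* F) : a * b = b * a := by
  have := isCyclic_ringAut (F := F)
  obtain ⟨g, hg⟩ := IsCyclic.exists_generator (α := F ≃+* F)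
  obtain ⟨i, rfl⟩ := Subgroup.mem_zpowers_iff.1 (hg a)
  obtain ⟨j, rfl⟩ := Subgroup.mem_zpowers_iff.1 (hg b)
  rw [← _root_.zpow_add, ← _root_.zpow_add, add_comm]

lemma ringAut_invol_unique [Finite F] {a b : F ≃+* F} (ha : orderOf a = 2) (hb : orderOf b = 2) :
    a = b := by
  classical
  have := isCyclic_ringAut (F := F)
  have hfin : Finite (F ≃+* F) := Finite.of_injective (fun e => (e : F → F)) DFunLike.coe_injective
  have : Fintype (F ≃+* F) := Fintype.ofFinite _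
  by_contra hne
  have h1 := IsCyclic.card_pow_eq_one_le (α := F ≃+* F) (n := 2) (by norm_num)
  have ha1 : a ≠ 1 := by
    intro h; rw [h, orderOf_one] at ha; omega
  have hb1 : b ≠ 1 := by
    intro h; rw [h, orderOf_one] at hb; omega
  have hsub : ({1, a, b} : Finset (F ≃+* F)) ⊆ Finset.univ.filter (fun x => x ^ 2 = 1) := by
    intro x hx
    simp only [Finset.mem_insert, Finset.mem_singleton] at hx
    rw [Finset.mem_filter]
    refine ⟨Finset.mem_univ _, ?_⟩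
    rcases hx with rfl | rfl | rfl
    · simp
    · rw [← ha]; exact pow_orderOf_eq_one _
    · rw [← hb]; exact pow_orderOf_eq_one _
  have h3 : ({1, a, b} : Finset (F ≃+* F)).card = 3 := by
    rw [Finset.card_insert_of_notMem, Finset.card_insert_of_notMem, Finset.card_singleton]
    · simpa using hne
    · simp only [Finset.mem_insert, Finset.mem_singleton, not_or]
      exact ⟨ha1.symm, hb1.symm⟩
  have := Finset.card_le_card hsub
  omega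

section

variable [Fintype F] (n : ℕ)

local notation "Qp" => plusQF (n + 1) F

/-- the algebraic inner-diagonal group. -/
noncomputable def DP (hn : 4 ≤ n) : Subgroup (MulAut (Cfsg.POmega F ⇑Qp)) :=
  (SS Qp (exists_ne_zero Qp (plusQF_nondeg _ F) (plus_hn n (by omega))) (n + 1)).map
    (conjPOmega ⇑Qp)

lemma left_mem_simil_plus {Y : SG F (Fin (n + 1) ⊕ Fin (n + 1))} (hY : Y ∈ Gam ⇑Qp) :
    Y.left ∈ Cfsg.Geo.quadSimilarityGroup ⇑Qp := by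
  obtain ⟨c, hc⟩ := mem_Gam.1 hY
  refine ⟨c, fun u => ?_⟩
  have := hc (fun i => Y.right.symm (u i))
  rw [act_def] at this
  simp only [RingEquiv.apply_symm_apply] at this
  rw [this, ← inv_plus (n + 1) Y.right]
  simp

variable (hn : 4 ≤ n)

include hn

set_option maxHeartbeats 1600000 in
theorem plus_comm_mem (htop : Cfsg.gammaPOmega F ⇑Qp = ⊤) (σ : F ≃+* F)
    (t : ↥(Cfsg.Geo.quadSimilarityGroup ⇑Qp)) (w : MulAut (Cfsg.POmega F ⇑Qp)) :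
    ∃ d ∈ DP n hn, w * Th ⇑Qp ⟨pr t.1 σ, pr_mem_of_inv Qp σ (inv_plus _ σ) t⟩ * w⁻¹ =
      d * Th ⇑Qp ⟨pr t.1 σ, pr_mem_of_inv Qp σ (inv_plus _ σ) t⟩ := by
  have hQ := plusQF_nondeg (n + 1) F
  have hn5 := plus_hn n (by omega : 2 ≤ n)
  obtain ⟨Y, rfl⟩ := Th_surjective Qp hQ hn5 htop w
  obtain ⟨X₀, hX₀⟩ : ∃ X₀ : ↥(Gam ⇑Qp), X₀ = ⟨pr t.1 σ, pr_mem_of_inv Qp σ (inv_plus _ σ) t⟩ :=
    ⟨_, rfl⟩
  rw [← hX₀]
  have hk : Y * X₀ * Y⁻¹ * X₀⁻¹ ∈ (lam ⇑Qp).ker := by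
    rw [MonoidHom.mem_ker, map_mul, map_mul, map_mul, map_inv, map_inv,
      ringAut_comm (lam ⇑Qp Y) (lam ⇑Qp X₀)]
    group
  rw [ker_lam] at hk
  obtain ⟨s, hs⟩ := hk
  refine ⟨conjPOmega ⇑Qp s, ⟨s, ?_, rfl⟩, ?_⟩
  · have e : inlG ⇑Qp s * X₀ * Y = Y * X₀ := by rw [hs]; group
    have eL : s.1 * t.1 * fieldGL σ Y.1.left =
        Y.1.left * fieldGL Y.1.right t.1 := by
      have := congrArg (fun z : ↥(Gam ⇑Qp) => z.1.left) e
      simpa [inlG_val, pr, hX₀, SemidirectProduct.mul_left] using this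
    obtain ⟨g, hg⟩ : ∃ g : ↥(Cfsg.Geo.quadSimilarityGroup ⇑Qp), g.1 = Y.1.left :=
      ⟨⟨_, left_mem_simil_plus n Y.2⟩, rfl⟩
    obtain ⟨g', hg'⟩ : ∃ g' : ↥(Cfsg.Geo.quadSimilarityGroup ⇑Qp), g'.1 = fieldGL σ g.1 :=
      ⟨⟨_, fieldGL_mem_simil Qp hQ hn5 σ (inv_plus _ σ) g⟩, rfl⟩
    obtain ⟨t', ht'⟩ : ∃ t' : ↥(Cfsg.Geo.quadSimilarityGroup ⇑Qp),
        t'.1 = fieldGL Y.1.right t.1 :=
      ⟨⟨_, fieldGL_mem_simil Qp hQ hn5 _ (inv_plus _ _) t⟩, rfl⟩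
    have eG : s * t * g' = g * t' := by
      apply Subtype.ext
      rw [Subgroup.coe_mul, Subgroup.coe_mul, Subgroup.coe_mul, hg', ht', hg]
      exact eL
    have htwo : ∀ h t, h ∉ SS Qp (exists_ne_zero Qp hQ hn5) (n + 1) →
        t ∉ SS Qp (exists_ne_zero Qp hQ hn5) (n + 1) →
        h * t ∈ SS Qp (exists_ne_zero Qp hQ hn5) (n + 1) :=
      fun h t hh ht => mul_mem_SS Qp hQ hn5 (plus_card (n + 1)) hh ht
    have h1 := congrArg (sgnHom _ htwo) eG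
    rw [map_mul, map_mul, map_mul,
      sgnHom_congr _ htwo (fieldGL_mem_SS_iff (n := n + 1) Qp hQ hn5 σ (inv_plus _ σ) g g' hg'),
      sgnHom_congr _ htwo (fieldGL_mem_SS_iff (n := n + 1) Qp hQ hn5 _ (inv_plus _ _) t t' ht')] at h1
    rw [SetLike.mem_coe, ← sgnHom_eq_one_iff _ htwo]
    have h3 : sgnHom _ htwo s * (sgnHom _ htwo t * sgnHom _ htwo g) =
        1 * (sgnHom _ htwo t * sgnHom _ htwo g) := by
      rw [one_mul, ← mul_assoc, h1, mul_comm]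
    exact mul_right_cancel h3
  · have h5 : conjPOmega ⇑Qp s = Th ⇑Qp (inlG ⇑Qp s) :=
      (DFunLike.congr_fun (Th_inlG ⇑Qp) s).symm
    calc Th ⇑Qp Y * Th ⇑Qp X₀ * (Th ⇑Qp Y)⁻¹ = Th ⇑Qp (Y * X₀ * Y⁻¹ * X₀⁻¹) * Th ⇑Qp X₀ := by
          simp only [map_mul, map_inv]
          group
      _ = conjPOmega ⇑Qp s * Th ⇑Qp X₀ := by rw [← hs, h5]

end

/-- reduction of a graph-field involution. -/
theorem gf_reduce [Fintype F] (n : ℕ) (hn : 4 ≤ n)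
    (x : MulAut (Cfsg.POmega F ⇑(plusQF (n + 1) F))) (hx : GFgen ⇑(plusQF (n + 1) F) x)
    (hx2 : orderOf x = 2) :
    ∃ (α : MulAut (Cfsg.POmega F ⇑(plusQF (n + 1) F))) (σ : F ≃+* F)
      (v : Fin (n + 1) ⊕ Fin (n + 1) → F), orderOf σ = 2 ∧ plusQF (n + 1) F v ≠ 0 ∧
      (∀ i, σ (v i) = v i) ∧ α * x * α⁻¹ = Th ⇑(plusQF (n + 1) F)
        ⟨pr (ofO (plusQF (n + 1) F) (reflElt (plusQF (n + 1) F) v)).1 σ,
          pr_mem_of_inv _ σ (inv_plus _ σ) _⟩ := by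
  have hQ := plusQF_nondeg (n + 1) F
  have hn5 := plus_hn n (by omega : 2 ≤ n)
  obtain ⟨α, γ, φ, σ, v, rr, hσ, hv, hvσ, hrr, hγ, hstd, e⟩ := hx
  rw [(isFieldAut_iff _ σ (inv_plus _ σ) φ).1 hstd] at e
  have hrr' : rr = (ofO (plusQF (n + 1) F) (reflElt (plusQF (n + 1) F) v)).1 :=
    Units.ext (hrr.trans (reflElt_coe _ v).symm)
  rw [hrr'] at hγ
  rw [(isInduced_iff _ _ γ).1 hγ, conj_mul_Th_fG] at e
  have htσ : fieldGL σ (ofO (plusQF (n + 1) F) (reflElt (plusQF (n + 1) F) v)).1 =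
      (ofO (plusQF (n + 1) F) (reflElt (plusQF (n + 1) F) v)).1 :=
    fieldGL_reflElt (plusQF (n + 1) F) σ (inv_plus _ σ) v hvσ
  have hx0 : orderOf (Th ⇑(plusQF (n + 1) F) ⟨pr (ofO (plusQF (n + 1) F)
      (reflElt (plusQF (n + 1) F) v)).1 σ, pr_mem_of_inv _ σ (inv_plus _ σ) _⟩) = 2 := by
    rw [← e, orderOf_conj', hx2]
  have h1 := (Th_pow_eq_one_iff _ hQ hn5 σ _ htσ (pr_mem_of_inv _ σ (inv_plus _ σ) _) 2).1
    (hx0 ▸ pow_orderOf_eq_one _)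
  have hord : orderOf σ = 2 := by
    rcases (Nat.dvd_prime Nat.prime_two).1 (orderOf_dvd_of_pow_eq_one h1.1) with h | h
    · exact absurd (orderOf_eq_one_iff.1 h) hσ
    · exact h
  exact ⟨α, σ, v, hord, hv, hvσ, e⟩

set_option maxHeartbeats 1600000 in
/-- all graph-field involutions are conjugate under the inner-diagonal group. -/
theorem gf_conj [Fintype F] (n : ℕ) (hn : 4 ≤ n)
    (htop : Cfsg.gammaPOmega F ⇑(plusQF (n + 1) F) = ⊤)
    (x y : MulAut (Cfsg.POmega F ⇑(plusQF (n + 1) F))) (hx : GFgen ⇑(plusQF (n + 1) F) x)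
    (hx2 : orderOf x = 2) (hy : GFgen ⇑(plusQF (n + 1) F) y) (hy2 : orderOf y = 2) :
    Cfsg.IsConjUnder (DP n hn) x y := by
  have hQ := plusQF_nondeg (n + 1) F
  have hn5 := plus_hn n (by omega : 2 ≤ n)
  have hD : (DP n hn).Normal := normal_SS_map (plusQF (n + 1) F) hQ hn5 (n + 1) htop
  obtain ⟨α, σ, v, hσ, hv, hvσ, ex⟩ := gf_reduce n hn x hx hx2
  obtain ⟨β, σ', v', hσ', hv', hvσ', ey⟩ := gf_reduce n hn y hy hy2
  obtain rfl : σ = σ' := ringAut_invol_unique hσ hσ'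
  have htS := refl_not_mem_SS (n := n + 1) (plusQF (n + 1) F) hQ hn5 v hv
  have htS' := refl_not_mem_SS (n := n + 1) (plusQF (n + 1) F) hQ hn5 v' hv'
  have htt : ofO (plusQF (n + 1) F) (reflElt (plusQF (n + 1) F) v) *
      ofO (plusQF (n + 1) F) (reflElt (plusQF (n + 1) F) v) = 1 := by
    rw [← map_mul, reflElt_mul_self, map_one]
  have hco := plus_coset n (by omega) σ (hσ ▸ Nat.prime_two)
    (ofO (plusQF (n + 1) F) (reflElt (plusQF (n + 1) F) v)) (Or.inr ⟨hσ, v, hv, hvσ, rfl⟩)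
  obtain ⟨t, ht⟩ : ∃ t, t = ofO (plusQF (n + 1) F) (reflElt (plusQF (n + 1) F) v) := ⟨_, rfl⟩
  obtain ⟨t', ht'⟩ : ∃ t, t = ofO (plusQF (n + 1) F) (reflElt (plusQF (n + 1) F) v') := ⟨_, rfl⟩
  rw [← ht] at ex htS htt hco
  rw [← ht'] at ey htS'
  obtain ⟨x₀, hx₀⟩ : ∃ x₀, x₀ = Th ⇑(plusQF (n + 1) F)
    ⟨pr t.1 σ, pr_mem_of_inv _ σ (inv_plus _ σ) t⟩ := ⟨_, rfl⟩
  obtain ⟨y₀, hy₀⟩ : ∃ y₀, y₀ = Th ⇑(plusQF (n + 1) F)
    ⟨pr t'.1 σ, pr_mem_of_inv _ σ (inv_plus _ σ) t'⟩ := ⟨_, rfl⟩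
  -- `y₀ ∈ D x₀`
  have h1 : y₀ = conjPOmega _ (t' * t) * x₀ := by
    have hx₀' : x₀ = conjPOmega _ t * Th _ (fG _ σ (inv_plus _ σ)) := by
      rw [hx₀]; exact (conj_mul_Th_fG _ σ _ t).symm
    have hy₀' : y₀ = conjPOmega _ t' * Th _ (fG _ σ (inv_plus _ σ)) := by
      rw [hy₀]; exact (conj_mul_Th_fG _ σ _ t').symm
    rw [hx₀', hy₀', ← mul_assoc, ← map_mul (conjPOmega ⇑(plusQF (n + 1) F)) (t' * t) t,
      mul_assoc t' t t, htt, mul_one]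
  have hd1 : conjPOmega _ (t' * t) ∈ DP n hn :=
    ⟨_, mul_mem_SS _ hQ hn5 (plus_card (n + 1)) htS' htS, rfl⟩
  obtain ⟨d₂, hd₂, e3⟩ := plus_comm_mem n hn htop σ t (α * β⁻¹)
  rw [← hx₀] at ex e3 hco
  rw [← hy₀] at ey
  rw [← isConjUnder_conj_iff (DP n hn) α x y, ex]
  have e2 : α * y * α⁻¹ = (α * β⁻¹) * y₀ * (α * β⁻¹)⁻¹ := by
    rw [← ey]; group
  have e4 : α * y * α⁻¹ = ((α * β⁻¹) * conjPOmega _ (t' * t) * (α * β⁻¹)⁻¹ * d₂) * x₀ := by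
    rw [e2, h1, mul_assoc _ d₂, ← e3]
    group
  have hd : (α * β⁻¹) * conjPOmega _ (t' * t) * (α * β⁻¹)⁻¹ * d₂ ∈ DP n hn :=
    mul_mem (hD.conj_mem _ hd1 _) hd₂
  obtain ⟨g, hg, hgd⟩ := hd
  rw [e4, ← hgd]
  have hpow : (conjPOmega ⇑(plusQF (n + 1) F) g * x₀) ^ orderOf σ = 1 := by
    rw [hgd, ← e4, hσ, conj_pow, ← hy2, pow_orderOf_eq_one]
    group
  obtain ⟨k, hk, hh⟩ := hco g hg hpow
  exact ⟨_, ⟨k, hk, rfl⟩, hh⟩

end Cfsg.Agent.Lib.Helper43.PO
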