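import Cfsg.Agent.Lib.Helper43.PO.MinusCent

set_option autoImplicit false
set_option linter.unusedSectionVars false

/-!
Squares in a quadratic extension of finite fields, and a spinor norm computation.
-/

namespace Cfsg.Agent.Lib.Helper43.PO

open Matrix QuadraticMap Module Cfsg.Agent.Lib.Helper13.OOut Cfsg.Agent.Lib.Helper43.PA
  Cfsg.Agent.Lib.Helper44

universe u v

variable {F : Type u} [Field F] {F₀ : Type v} [Field F₀] {i₀ : F₀ →+* F}

lemma isSquare_mul_iff [Fintype F] {x y : F} (hx : x ≠ 0) (hy : y ≠ 0) :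
    IsSquare (x * y) ↔ (IsSquare x ↔ IsSquare y) := by
  by_cases h1 : IsSquare x <;> by_cases h2 : IsSquare y
  · exact ⟨fun _ => ⟨fun _ => h2, fun _ => h1⟩, fun _ => h1.mul h2⟩
  · have h3 : ¬ IsSquare (x * y) := by
      intro h
      apply h2
      have := h.div h1
      rwa [mul_div_cancel_left₀ _ hx] at this
    tauto
  · have h3 : ¬ IsSquare (x * y) := by
      intro h
      apply h1
      have := h.div h2
      rwa [mul_div_cancel_right₀ _ hy] at this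
    tauto
  · have h3 := isSquare_mul_of_not h1 h2
    tauto

section norm

variable {σ : F ≃+* F} (hι : ∀ x, σ x = x ↔ ∃ y, i₀ y = x) (h2σ : orderOf σ = 2)

include h2σ in
lemma sig_sig (x : F) : σ (σ x) = x := by
  have h : σ ^ 2 = 1 := by rw [← h2σ]; exact pow_orderOf_eq_one σ
  have := congrArg (fun τ : F ≃+* F => τ x) h
  simpa [pow_two] using this

include hι h2σ

lemma norm_desc (y : F) : ∃ y₀ : F₀, i₀ y₀ = y * σ y := by
  apply (hι _).1
  rw [map_mul, sig_sig h2σ, mul_comm]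

lemma isSquare_norm {y : F} (h : IsSquare y) {y₀ : F₀} (hy₀ : i₀ y₀ = y * σ y) : IsSquare y₀ := by
  obtain ⟨z, rfl⟩ := h
  obtain ⟨z₀, hz₀⟩ := norm_desc hι h2σ z
  refine ⟨z₀, i₀.injective ?_⟩
  rw [hy₀, map_mul i₀, hz₀, map_mul σ]
  ring

theorem isSquare_iff_norm [Fintype F] [Fintype F₀] (h2 : (2 : F) ≠ 0) {y : F} (hy : y ≠ 0)
    {y₀ : F₀} (hy₀ : i₀ y₀ = y * σ y) : IsSquare y ↔ IsSquare y₀ := by
  refine ⟨fun h => isSquare_norm hι h2σ h hy₀, fun h => ?_⟩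
  by_contra hns
  obtain ⟨η, hη⟩ := exists_nonsquare_of_two_ne (F₀ := F₀) (fun h => h2 ((two_iff i₀).1 h))
  have hη0 : η ≠ 0 := by rintro rfl; exact hη ⟨0, by simp⟩
  have hiη : i₀ η ≠ 0 := (map_ne_zero i₀).2 hη0
  obtain ⟨w, hw⟩ := exists_nU_eq σ 2 h2σ (by norm_num) (Units.mk0 _ hiη) (by
    apply Units.ext
    rw [uM_coe]
    exact (hι _).2 ⟨η, rfl⟩)
  have hw' : i₀ η = (w : F) * σ w := by
    have := congrArg Units.val hw
    rw [nU_succ, nU_succ, nU_zero] at this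
    simp only [map_one, mul_one, Units.val_mul, uM_coe, Units.val_mk0] at this
    exact this.symm
  have hwns : ¬ IsSquare (w : F) := fun h' => hη (isSquare_norm hι h2σ h' hw')
  have h3 := isSquare_mul_of_not hns hwns
  have h4 : IsSquare (y₀ * η) := isSquare_norm hι h2σ h3 (by
    rw [map_mul, map_mul, hy₀, hw']; ring)
  have hy₀0 : y₀ ≠ 0 := by
    rintro rfl
    rw [map_zero] at hy₀
    rcases mul_eq_zero.1 hy₀.symm with h' | h'
    · exact hy h'
    · exact hy ((map_eq_zero σ).1 h')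
  exact hη (((isSquare_mul_iff hy₀0 hη0).1 h4).1 h)

end norm

/-! ### the spinor norm computation -/

lemma exists_diag_iso (n : ℕ) (ν : Fˣ) :
    ∃ g₁ : ↥(Cfsg.isometryGroup F ⇑(plusQF n F)),
      ((g₁ : GL (Fin n ⊕ Fin n) F) : Matrix (Fin n ⊕ Fin n) (Fin n ⊕ Fin n) F) =
        Matrix.diagonal (Sum.elim (fun _ => (ν : F)) (fun _ => (ν : F)⁻¹)) := by
  have h0 : (ν : F) ≠ 0 := ν.ne_zero
  refine ⟨⟨⟨Matrix.diagonal (Sum.elim (fun _ => (ν : F)) (fun _ => (ν : F)⁻¹)),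
    Matrix.diagonal (Sum.elim (fun _ => (ν : F)⁻¹) (fun _ => (ν : F))), ?_, ?_⟩, ?_⟩, rfl⟩
  · rw [Matrix.diagonal_mul_diagonal, ← Matrix.diagonal_one]
    congr 1
    funext i
    rcases i with i | i <;> simp [h0]
  · rw [Matrix.diagonal_mul_diagonal, ← Matrix.diagonal_one]
    congr 1
    funext i
    rcases i with i | i <;> simp [h0]
  · rw [mem_isometryGroup]
    intro v
    rw [plusQF_apply, plusQF_apply]
    apply Finset.sum_congr rfl
    intro i _
    simp only [Matrix.mulVec_diagonal, Sum.elim_inl, Sum.elim_inr]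
    field_simp

theorem plus_diag_mem_iff [Fintype F] (m : ℕ) (hm : 1 ≤ m) (h : Fintype.card F ≠ 2 ∨ m ≠ 2)
    (ν : Fˣ) (g₁ : ↥(Cfsg.isometryGroup F ⇑(plusQF m F)))
    (hg₁ : ((g₁ : GL (Fin m ⊕ Fin m) F) : Matrix (Fin m ⊕ Fin m) (Fin m ⊕ Fin m) F) =
        Matrix.diagonal (Sum.elim (fun _ => (ν : F)) (fun _ => (ν : F)⁻¹))) :
    g₁ ∈ Cfsg.Omega F ⇑(plusQF m F) ↔ IsSquare ((ν : F) ^ m) := by
  have h3 := Cfsg.Agent.S2611.result (F := F) (m := m) hm h
    (Matrix.GeneralLinearGroup.scalar (Fin m) ν)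
  rw [← plusQF_coe] at h3
  have h4 : ((Matrix.GeneralLinearGroup.scalar (Fin m) ν : GL (Fin m) F) :
      Matrix (Fin m) (Fin m) F) = Matrix.diagonal (fun _ => (ν : F)) := by
    simp
  have h0 : (ν : F) ≠ 0 := ν.ne_zero
  have hinv : (Matrix.diagonal (fun _ : Fin m => (ν : F)))⁻¹
      = Matrix.diagonal (fun _ : Fin m => (ν : F)⁻¹) := by
    apply Matrix.inv_eq_right_inv
    rw [Matrix.diagonal_mul_diagonal]
    simp [h0]
  have h6 : ((Matrix.GeneralLinearGroup.scalar (Fin m) ν : GL (Fin m) F) :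
      Matrix (Fin m) (Fin m) F).det = (ν : F) ^ m := by
    rw [h4, Matrix.det_diagonal]; simp
  rw [h6, h4, hinv, Matrix.diagonal_transpose, Matrix.fromBlocks_diagonal] at h3
  rw [← h3]
  constructor
  · intro hg
    exact ⟨g₁, hg, hg₁⟩
  · rintro ⟨g, hg, hgm⟩
    have : g = g₁ := isometryGroup_ext (by rw [hgm, hg₁])
    rwa [← this]

lemma bin_identity (a b U₁ U₂ ν κ : F) (hν : ν ≠ 0) (hN : U₁ ^ 2 + a * U₁ * U₂ + b * U₂ ^ 2 = ν ^ 2)
    (hκ : (ν + U₁) ^ 2 + a * (ν + U₁) * U₂ + b * U₂ ^ 2 = κ) (hκ0 : κ ≠ 0) :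
    ν⁻¹ • !![U₁, -(b * U₂); U₂, U₁ + a * U₂] =
      Cfsg.reflectionMatrix ⇑(binQF a b) ![ν + U₁, U₂] *
        Cfsg.reflectionMatrix ⇑(binQF a b) ![1, 0] := by
  rw [← bin_rotation a b (ν + U₁) U₂ κ hκ hκ0]
  obtain ⟨T, hT⟩ : ∃ T, T = 2 * ν + 2 * U₁ + a * U₂ := ⟨_, rfl⟩
  have hκ' : κ = ν * T := by
    rw [← hκ, hT]; linear_combination hN
  have h3 : T ≠ 0 := by
    intro h
    apply hκ0
    rw [hκ', h, mul_zero]
  subst hκ'
  ext i j
  fin_cases i <;> fin_cases j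
  · simp [Matrix.mul_apply, Fin.sum_univ_two]
    field_simp
    rw [hT]
    linear_combination hN
  · simp [Matrix.mul_apply, Fin.sum_univ_two]
    field_simp
    rw [hT]
    ring
  · simp [Matrix.mul_apply, Fin.sum_univ_two]
    field_simp
    rw [hT]
    ring
  · simp [Matrix.mul_apply, Fin.sum_univ_two]
    field_simp
    rw [hT]
    linear_combination hN

end Cfsg.Agent.Lib.Helper43.PO
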