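import Cfsg.Agent.Lib.Helper43.PO.GF3
import Cfsg.Agent.Lib.Helper44.Inndiag

set_option autoImplicit false
set_option linter.unusedSectionVars false

/-!
Class splitting of an involutory field automorphism of an even dimensional orthogonal group
(generic form).
-/

namespace Cfsg.Agent.Lib.Helper43.PO

open Matrix QuadraticMap Module Cfsg.Agent.Lib.Helper13.OOut Cfsg.Agent.Lib.Helper43.PA
  Cfsg.Agent.Lib.Helper44

universe u v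

variable {F : Type u} [Field F] {F₀ : Type v} [Field F₀] {i₀ : F₀ →+* F}
  {ι : Type} [Fintype ι] [DecidableEq ι]

section count

variable [Fintype F] [Fintype F₀] (Q : QuadraticForm F (ι → F)) (hQ : (polarBilin Q).Nondegenerate)
  (hn : 5 ≤ Fintype.card ι) {Q₀ : QuadraticForm F₀ (ι → F₀)} (hr : IsRat i₀ Q Q₀)
  (m : ℕ) (hm : Fintype.card ι = 2 * m) (h2 : (2 : F) ≠ 0)
  (hcard : Fintype.card F = Fintype.card F₀ ^ 2)

include hQ hn h2 hcard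

/-- `SO(F₀)` lies in `Ω(F)`. -/
lemma mapO_mem_Omega_of_two (s₀ : ↥(Cfsg.isometryGroup F₀ ⇑Q₀))
    (hs₀ : s₀ ∈ Cfsg.specialIsometryGroup F₀ ⇑Q₀) : mapO hr s₀ ∈ Cfsg.Omega F ⇑Q := by
  have hQ₀ := hr.nondeg hQ
  have h2₀ : (2 : F₀) ≠ 0 := fun h => h2 ((two_iff i₀).1 h)
  obtain ⟨l, hl, hs⟩ := exists_list_reflectionMatrix Q₀ hQ₀ (Or.inr (by omega)) s₀
  rw [mapO_mem_Omega_iff hr hQ (Or.inr (by omega)) s₀ l hl hs]
  refine ⟨?_, isSquare_of_two hcard _⟩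
  have hd := det_of_prod Q₀ s₀ l hl hs
  rw [mem_specialIsometryGroup.1 hs₀] at hd
  by_contra hne
  rw [Nat.not_even_iff_odd] at hne
  rw [hne.neg_one_pow] at hd
  apply h2₀
  linear_combination hd

include hm

lemma mapSim_mem_of_isSquare (g₀ : ↥(Cfsg.Geo.quadSimilarityGroup ⇑Q₀))
    (hg₀ : g₀ ∈ SS Q₀ (exists_ne_zero Q₀ (hr.nondeg hQ) hn) m)
    (hsq : IsSquare (multF Q₀ g₀ : F₀)) : mapSim hr g₀ ∈ Oms Q ⊔ (conjPOmega ⇑Q).ker := by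
  have hQ₀ := hr.nondeg hQ
  have hex₀ := exists_ne_zero Q₀ hQ₀ hn
  have h2₀ : (2 : F₀) ≠ 0 := fun h => h2 ((two_iff i₀).1 h)
  have h1 : g₀ ∈ (psi1 h2₀ hQ₀ hex₀ m hm).ker :=
    (mem_ker_psi1_iff h2₀ hQ₀ hex₀ m hm g₀).2 ⟨hsq, (mem_SS_odd h2₀ _ _ _ _).1 hg₀⟩
  rw [ker_psi1_eq' h2₀ hQ₀ hn hex₀ m hm] at h1
  obtain ⟨y, hy, z, hz, rfl⟩ := Subgroup.mem_sup_of_normal_right.1 h1
  obtain ⟨s, hs, rfl⟩ := exists_ofO_of_mem_SOs hy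
  rw [map_mul]
  refine mul_mem (Subgroup.mem_sup_left ?_) (Subgroup.mem_sup_right ?_)
  · rw [mapSim_ofO, ofO_mem_Oms]
    exact mapO_mem_Omega_of_two Q hQ hn hr h2 hcard s hs
  · obtain ⟨μ, hμ⟩ := (mem_ker_conjPOmega_iff' Q₀ hQ₀ hn z).1 hz
    rw [mem_ker_conjPOmega_iff' Q hQ hn]
    refine ⟨i₀ μ, ?_⟩
    show (z.1.1).map i₀ = _
    rw [hμ]
    ext i j
    by_cases h : i = j
    · subst h; simp
    · simp [h]

theorem gf_count_generic (σ : F ≃+* F) (hinv : Inv Q σ) (hι : ∀ x, σ x = x ↔ ∃ y, i₀ y = x)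
    (hneg : negOneO Q ∈ Cfsg.Omega F ⇑Q)
    (δ : ↥(Cfsg.Geo.quadSimilarityGroup ⇑Q)) (hδ1 : ¬ IsSquare (multF Q δ : F))
    (hδ2 : δ ∈ SS Q (exists_ne_zero Q hQ hn) m)
    (δ₀ : ↥(Cfsg.Geo.quadSimilarityGroup ⇑Q₀)) (hδ₀1 : ¬ IsSquare (multF Q₀ δ₀ : F₀))
    (hδ₀2 : δ₀ ∈ SS Q₀ (exists_ne_zero Q₀ (hr.nondeg hQ) hn) m) :
    (mapSim hr δ₀ ∈ Oms Q ⊔ (conjPOmega ⇑Q).ker →
      Cfsg.splitClassCount ((SS Q (exists_ne_zero Q hQ hn) m).map (conjPOmega ⇑Q))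
        (Cfsg.Inn (Cfsg.POmega F ⇑Q)) (Th ⇑Q (fG ⇑Q σ hinv)) = 4) ∧
    (mapSim hr δ₀ ∉ Oms Q ⊔ (conjPOmega ⇑Q).ker →
      Cfsg.splitClassCount ((SS Q (exists_ne_zero Q hQ hn) m).map (conjPOmega ⇑Q))
        (Cfsg.Inn (Cfsg.POmega F ⇑Q)) (Th ⇑Q (fG ⇑Q σ hinv)) = 2) := by
  have hex := exists_ne_zero Q hQ hn
  have hQ₀ := hr.nondeg hQ
  have hex₀ := exists_ne_zero Q₀ hQ₀ hn
  have h2₀ : (2 : F₀) ≠ 0 := fun h => h2 ((two_iff i₀).1 h)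
  have hSchi : SS Q hex m = (chi2 h2 hQ hex m hm).ker := by
    ext g
    rw [mem_SS_odd h2, MonoidHom.mem_ker, chi2_eq_one_iff]
  have hMeq := ker_psi1_eq' h2 hQ hn hex m hm
  have hMS : (psi1 h2 hQ hex m hm).ker ≤ SS Q hex m := by
    rw [hSchi]; exact ker_psi1_le_chi2 h2 hQ hex m hm
  have hMSrel : (psi1 h2 hQ hex m hm).ker.relIndex (SS Q hex m) = 2 := by
    rw [hSchi]
    exact relIndex_ker_psi1_chi2 h2 hQ hex m hm δ hδ1 (by rw [← hSchi]; exact hδ2)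
  have hNM : Oms Q ⊔ (conjPOmega ⇑Q).ker ≤ (psi1 h2 hQ hex m hm).ker := by
    rw [hMeq]; exact sup_le_sup_right (Oms_le_SOs Q) _
  have hNMrel : (Oms Q ⊔ (conjPOmega ⇑Q).ker).relIndex (psi1 h2 hQ hex m hm).ker = 2 := by
    rw [hMeq]; exact relIndex_sup_ker h2 Q hQ hn hneg
  obtain ⟨N, hN⟩ : ∃ N, N = Oms Q ⊔ (conjPOmega ⇑Q).ker := ⟨_, rfl⟩
  obtain ⟨M, hM⟩ : ∃ M, M = (psi1 h2 hQ hex m hm).ker := ⟨_, rfl⟩
  obtain ⟨S, hS⟩ : ∃ S, S = SS Q hex m := ⟨_, rfl⟩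
  obtain ⟨R, hR⟩ : ∃ R, R = (SS Q₀ hex₀ m).map (mapSim hr) := ⟨_, rfl⟩
  rw [← hN, ← hM] at hNM hNMrel
  rw [← hM, ← hS] at hMS hMSrel
  have hkN : (conjPOmega ⇑Q).ker ≤ N := by rw [hN]; exact le_sup_right
  have hRM : R ≤ M := by
    rw [hR, hM]
    rintro _ ⟨g₀, hg₀, rfl⟩
    rw [mem_ker_psi1_iff]
    refine ⟨?_, (mem_SS_odd h2 _ _ _ _).1 ((mapSim_mem_SS_iff hr hQ hn m g₀).2 hg₀)⟩
    rw [multF_mapSim hr hex]
    exact isSquare_of_two hcard _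
  have hInn : Cfsg.Inn (Cfsg.POmega F ⇑Q) = N.map (conjPOmega ⇑Q) := by
    rw [hN, map_sup_ker_eq, ← inn_eq']
  have hcent : Subgroup.centralizer {Th ⇑Q (fG ⇑Q σ hinv)} ⊓ S.map (conjPOmega ⇑Q) =
      R.map (conjPOmega ⇑Q) := by
    ext d
    rw [inf_comm, hS, mem_cent_iff_exists Q hQ hn σ hinv hι hr (SS Q hex m) (SS Q₀ hex₀ m)
      (scal_mem_SS Q hQ hn hm) (fun g₀ => (mapSim_mem_SS_iff hr hQ hn m g₀).symm) d, hR]
    constructor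
    · rintro ⟨g₀, hg₀, rfl⟩
      exact ⟨_, ⟨g₀, hg₀, rfl⟩, rfl⟩
    · rintro ⟨_, ⟨g₀, hg₀, rfl⟩, rfl⟩
      exact ⟨g₀, hg₀, rfl⟩
  have hle : Cfsg.Inn (Cfsg.POmega F ⇑Q) ≤ S.map (conjPOmega ⇑Q) := by
    rw [hInn]; exact Subgroup.map_mono (hNM.trans hMS)
  have hcount : Cfsg.splitClassCount (S.map (conjPOmega ⇑Q))
        (Cfsg.Inn (Cfsg.POmega F ⇑Q)) (Th ⇑Q (fG ⇑Q σ hinv)) = (N ⊔ R).relIndex S := by
    rw [splitClassCount_eq_relIndex _ _ hle, hcent, hInn, ← Subgroup.map_sup,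
      Subgroup.relIndex_map_map, sup_eq_left.2 (hkN.trans le_sup_left),
      sup_eq_left.2 (hkN.trans (hNM.trans hMS))]
  have key : mapSim hr δ₀ ∈ N → R ≤ N := by
    intro hδN
    rw [hR]
    rintro _ ⟨g₀, hg₀, rfl⟩
    by_cases hsq : IsSquare (multF Q₀ g₀ : F₀)
    · rw [hN]
      exact mapSim_mem_of_isSquare Q hQ hn hr m hm h2 hcard g₀ hg₀ hsq
    · have e : g₀ = δ₀ * (δ₀⁻¹ * g₀) := by group
      rw [e, map_mul]
      refine mul_mem hδN ?_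
      rw [hN]
      apply mapSim_mem_of_isSquare Q hQ hn hr m hm h2 hcard _ (mul_mem (inv_mem hδ₀2) hg₀)
      have h1 : multHom Q₀ hex₀ (δ₀⁻¹ * g₀) = (multHom Q₀ hex₀ δ₀)⁻¹ * multHom Q₀ hex₀ g₀ := by
        rw [map_mul, map_inv]
      rw [multHom_apply, multHom_apply, multHom_apply] at h1
      rw [h1, Units.val_mul, Units.val_inv_eq_inv_val]
      apply isSquare_mul_of_not _ hsq
      intro h
      apply hδ₀1
      have := h.inv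
      rwa [inv_inv] at this
  rw [← hS, ← hN, hcount]
  constructor
  · intro h
    rw [sup_eq_left.2 (key h), ← Subgroup.relIndex_mul_relIndex N M S hNM hMS, hNMrel, hMSrel]
  · intro h
    have h1 := (relIndex_sup_of_two hRM hNMrel).1 ⟨_, by rw [hR]; exact ⟨δ₀, hδ₀2, rfl⟩, h⟩
    rw [Subgroup.relIndex_eq_one] at h1
    have h3 : N ⊔ R = M := le_antisymm (sup_le hNM hRM) h1
    rw [h3, hMSrel]

end count

end Cfsg.Agent.Lib.Helper43.PO
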