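import Cfsg.Agent.Lib.Helper43.PO.GF4

set_option autoImplicit false
set_option linter.unusedSectionVars false

/-!
The spinor norm of the standard similarity of the minus form over the subfield, seen over the
quadratic extension.
-/

namespace Cfsg.Agent.Lib.Helper43.PO

open Matrix QuadraticMap Module Cfsg.Agent.Lib.Helper13.OOut Cfsg.Agent.Lib.Helper43.PA
  Cfsg.Agent.Lib.Helper44

universe u v

variable {F : Type u} [Field F] {F₀ : Type v} [Field F₀] {i₀ : F₀ →+* F}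

section blocks

variable {ι₁ ι₂ : Type} [Fintype ι₁] [DecidableEq ι₁] [Fintype ι₂] [DecidableEq ι₂]

lemma sumQF_inl (Q₁ : QuadraticForm F (ι₁ → F)) (Q₂ : QuadraticForm F (ι₂ → F)) (v : ι₁ → F) :
    sumQF Q₁ Q₂ (Sum.elim v 0) = Q₁ v := by
  rw [sumQF_apply]
  have e1 : (Sum.elim v (0 : ι₂ → F)) ∘ Sum.inl = v := rfl
  have e2 : (Sum.elim v (0 : ι₂ → F)) ∘ Sum.inr = 0 := rfl
  rw [e1, e2]; simp

lemma sumQF_inr (Q₁ : QuadraticForm F (ι₁ → F)) (Q₂ : QuadraticForm F (ι₂ → F)) (v : ι₂ → F) :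
    sumQF Q₁ Q₂ (Sum.elim 0 v) = Q₂ v := by
  rw [sumQF_apply]
  have e1 : (Sum.elim (0 : ι₁ → F) v) ∘ Sum.inl = 0 := rfl
  have e2 : (Sum.elim (0 : ι₁ → F) v) ∘ Sum.inr = v := rfl
  rw [e1, e2]; simp

lemma blockIso_inl_mem_iff [Fintype F] (Q₁ : QuadraticForm F (ι₁ → F))
    (Q₂ : QuadraticForm F (ι₂ → F)) (h₁ : (polarBilin Q₁).Nondegenerate)
    (h₂ : (polarBilin (sumQF Q₁ Q₂)).Nondegenerate)
    (hc₁ : Fintype.card F ≠ 2 ∨ Fintype.card ι₁ ≠ 4)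
    (hc : Fintype.card F ≠ 2 ∨ Fintype.card (ι₁ ⊕ ι₂) ≠ 4)
    (g₁ : ↥(Cfsg.isometryGroup F ⇑Q₁)) :
    blockIso Q₁ Q₂ (g₁, 1) ∈ Cfsg.Omega F ⇑(sumQF Q₁ Q₂) ↔ g₁ ∈ Cfsg.Omega F ⇑Q₁ := by
  obtain ⟨l, hl, hg⟩ := exists_list_reflectionMatrix Q₁ h₁ hc₁ g₁
  rw [mem_Omega_iff_of_prod Q₁ h₁ hc₁ g₁ l hl hg,
    mem_Omega_iff_of_prod (sumQF Q₁ Q₂) h₂ hc (blockIso Q₁ Q₂ (g₁, 1))
      (l.map (fun v => (Sum.elim v 0 : ι₁ ⊕ ι₂ → F))) ?_ ?_]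
  · rw [List.length_map, List.map_map]
    have e : ((fun v => sumQF Q₁ Q₂ v) ∘ fun v => (Sum.elim v 0 : ι₁ ⊕ ι₂ → F)) =
        fun v => Q₁ v := by
      funext v
      exact sumQF_inl Q₁ Q₂ v
    rw [e]
  · intro v hv
    obtain ⟨w, hw, rfl⟩ := List.mem_map.1 hv
    rw [sumQF_inl]
    exact hl w hw
  · rw [blockIso_coe, prod_reflectionMatrix_sum_inl, ← hg]
    simp

end blocks

theorem sum_spinor [Fintype F] (n : ℕ) (hn : 3 ≤ n) (a b : F)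
    (Q : QuadraticForm F ((Fin n ⊕ Fin n) ⊕ Fin 2 → F))
    (hQeq : Q = sumQF (plusQF n F) (binQF a b))
    (hQ : (polarBilin Q).Nondegenerate) (ν : Fˣ) (U₁ U₂ κ : F)
    (hN : U₁ ^ 2 + a * U₁ * U₂ + b * U₂ ^ 2 = (ν : F) ^ 2)
    (hκ : ((ν : F) + U₁) ^ 2 + a * ((ν : F) + U₁) * U₂ + b * U₂ ^ 2 = κ) (hκ0 : κ ≠ 0)
    (s : ↥(Cfsg.isometryGroup F ⇑Q))
    (hs : ((s : GL ((Fin n ⊕ Fin n) ⊕ Fin 2) F) :
      Matrix ((Fin n ⊕ Fin n) ⊕ Fin 2) ((Fin n ⊕ Fin n) ⊕ Fin 2) F) =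
      Matrix.fromBlocks (Matrix.diagonal (Sum.elim (fun _ => (ν : F)) (fun _ => (ν : F)⁻¹))) 0 0
        ((ν : F)⁻¹ • !![U₁, -(b * U₂); U₂, U₁ + a * U₂])) :
    s ∈ Cfsg.Omega F ⇑Q ↔ (IsSquare ((ν : F) ^ n) ↔ IsSquare κ) := by
  subst hQeq
  obtain ⟨g₁, hg₁⟩ := exists_diag_iso (F := F) n ν
  have hc : Fintype.card F ≠ 2 ∨ Fintype.card ((Fin n ⊕ Fin n) ⊕ Fin 2) ≠ 4 :=
    Or.inr (by simp; omega)
  have hc₁ : Fintype.card F ≠ 2 ∨ Fintype.card (Fin n ⊕ Fin n) ≠ 4 := Or.inr (by simp; omega)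
  obtain ⟨w, hw⟩ : ∃ w : Fin 2 → F, w = ![(ν : F) + U₁, U₂] := ⟨_, rfl⟩
  obtain ⟨e, he⟩ : ∃ e : Fin 2 → F, e = ![1, 0] := ⟨_, rfl⟩
  have hQw : binQF a b w = κ := by rw [binQF_apply, ← hκ, hw]; simp
  have hQe : binQF a b e = 1 := by rw [binQF_apply, he]; simp
  obtain ⟨A, hA⟩ : ∃ A, A = blockIso (plusQF n F) (binQF a b) (g₁, 1) := ⟨_, rfl⟩
  obtain ⟨B, hB⟩ : ∃ B, B = reflElt (sumQF (plusQF n F) (binQF a b)) (Sum.elim 0 w) *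
      reflElt (sumQF (plusQF n F) (binQF a b)) (Sum.elim 0 e) := ⟨_, rfl⟩
  have hsAB : s = A * B := by
    apply isometryGroup_ext
    rw [hs, hA, hB, bin_identity a b U₁ U₂ ν κ ν.ne_zero hN hκ hκ0, ← hw, ← he]
    simp only [Subgroup.coe_mul, Units.val_mul, blockIso_coe, reflElt_coe,
      reflectionMatrix_sum_inr, Matrix.fromBlocks_multiply, hg₁]
    simp
  have hvs : ∀ v ∈ [(Sum.elim 0 w : (Fin n ⊕ Fin n) ⊕ Fin 2 → F), Sum.elim 0 e],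
      sumQF (plusQF n F) (binQF a b) v ≠ 0 := by
    intro v hv
    simp only [List.mem_cons, List.not_mem_nil, or_false] at hv
    rcases hv with rfl | rfl
    · rw [sumQF_inr, hQw]; exact hκ0
    · rw [sumQF_inr, hQe]; exact one_ne_zero
  have hBm : ((B : GL ((Fin n ⊕ Fin n) ⊕ Fin 2) F) :
      Matrix ((Fin n ⊕ Fin n) ⊕ Fin 2) ((Fin n ⊕ Fin n) ⊕ Fin 2) F) =
      ([(Sum.elim 0 w : (Fin n ⊕ Fin n) ⊕ Fin 2 → F), Sum.elim 0 e].map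
        (fun v => Cfsg.reflectionMatrix ⇑(sumQF (plusQF n F) (binQF a b)) v)).prod := by
    rw [hB]
    simp [reflElt_coe]
  have hBSO : B ∈ Cfsg.specialIsometryGroup F ⇑(sumQF (plusQF n F) (binQF a b)) := by
    rw [mem_specialIsometryGroup, det_of_prod _ B _ hvs hBm]
    simp
  have hASO : A ∈ Cfsg.specialIsometryGroup F ⇑(sumQF (plusQF n F) (binQF a b)) := by
    rw [mem_specialIsometryGroup, hA, blockIso_coe, Matrix.det_fromBlocks_zero₂₁, hg₁,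
      Matrix.det_diagonal, Fintype.prod_sum_type]
    simp [← mul_pow]
  rw [hsAB, mul_mem_iff_of_relIndex_two (index_Omega _ hQ hc (by simp)) hASO hBSO, hA,
    blockIso_inl_mem_iff _ _ (plusQF_nondeg n F) hQ hc₁ hc,
    plus_diag_mem_iff n (by omega) (Or.inr (by omega)) ν g₁ hg₁,
    mem_Omega_iff_of_prod _ hQ hc B _ hvs hBm]
  simp [sumQF_inr, hQw, hQe]

section nt

variable [Fintype F] [Fintype F₀] {σ : F ≃+* F} (hι : ∀ x, σ x = x ↔ ∃ y, i₀ y = x)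
  (h2σ : orderOf σ = 2) (h2 : (2 : F) ≠ 0)

include hι h2σ h2

theorem nt_main (a₀ b₀ : F₀) (hab₀ : Aniso a₀ b₀) (μ₀ : F₀) (hμ₀ : ¬ IsSquare μ₀) (u₁ u₂ : F₀)
    (hu : u₁ ^ 2 + a₀ * u₁ * u₂ + b₀ * u₂ ^ 2 = μ₀) (ν : F) (hν : i₀ μ₀ = ν * ν) (κ : F)
    (hκ : (ν + i₀ u₁) ^ 2 + i₀ a₀ * (ν + i₀ u₁) * i₀ u₂ + i₀ b₀ * i₀ u₂ ^ 2 = κ) :
    κ ≠ 0 ∧ (IsSquare κ ↔ ¬ IsSquare ν) ∧ (IsSquare ν ↔ ¬ IsSquare (-1 : F₀)) := by
  have h2₀ : (2 : F₀) ≠ 0 := fun h => h2 ((two_iff i₀).1 h)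
  have hμ0 : μ₀ ≠ 0 := by rintro rfl; exact hμ₀ ⟨0, by simp⟩
  have hν0 : ν ≠ 0 := by
    rintro rfl
    rw [mul_zero] at hν
    exact hμ0 ((map_eq_zero i₀).1 hν)
  have hfix : ∀ y : F₀, σ (i₀ y) = i₀ y := fun y => (hι _).2 ⟨y, rfl⟩
  have hσν : σ ν = -ν := by
    have h1 : σ ν * σ ν = ν * ν := by rw [← map_mul, ← hν, hfix]
    rcases mul_self_eq_mul_self_iff.1 h1 with h | h
    · exfalso
      obtain ⟨y, rfl⟩ := (hι _).1 h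
      exact hμ₀ ⟨y, i₀.injective (by rw [hν, map_mul])⟩
    · exact h
  have hN : i₀ u₁ ^ 2 + i₀ a₀ * i₀ u₁ * i₀ u₂ + i₀ b₀ * i₀ u₂ ^ 2 = ν * ν := by
    rw [← hν, ← hu]; simp
  obtain ⟨y, hy⟩ : ∃ y, y = 2 * ν + (2 * i₀ u₁ + i₀ a₀ * i₀ u₂) := ⟨_, rfl⟩
  have hσy : σ y = -(2 * ν) + (2 * i₀ u₁ + i₀ a₀ * i₀ u₂) := by
    rw [hy]
    simp only [map_add, map_mul, hfix, hσν, map_ofNat]
    ring
  have hnorm : i₀ ((a₀ ^ 2 - 4 * b₀) * u₂ ^ 2) = y * σ y := by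
    rw [hσy, hy]
    simp only [map_mul, map_sub, map_pow, map_ofNat]
    linear_combination (-4 : F) * hN
  have hdisc : ¬ IsSquare (a₀ ^ 2 - 4 * b₀) := by
    rintro ⟨d, hd⟩
    have := hab₀ ((-a₀ + d) / 2) 1 (by
      field_simp
      linear_combination -hd)
    exact one_ne_zero this.2
  have hu₂ : u₂ ≠ 0 := by
    rintro rfl
    exact hμ₀ ⟨u₁, by rw [← hu]; ring⟩
  have hns : ¬ IsSquare ((a₀ ^ 2 - 4 * b₀) * u₂ ^ 2) := by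
    rintro ⟨r, hr⟩
    apply hdisc
    refine ⟨r / u₂, ?_⟩
    field_simp
    linear_combination hr
  have hy0 : y ≠ 0 := by
    rintro rfl
    rw [zero_mul] at hnorm
    apply hns
    rw [(map_eq_zero i₀).1 hnorm]
    exact ⟨0, by simp⟩
  have hyns : ¬ IsSquare y := fun h => hns ((isSquare_iff_norm hι h2σ h2 hy0 hnorm).1 h)
  have hκy : κ = ν * y := by
    rw [← hκ, hy]
    linear_combination hN
  refine ⟨by rw [hκy]; exact mul_ne_zero hν0 hy0, ?_, ?_⟩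
  · rw [hκy, isSquare_mul_iff hν0 hy0]
    tauto
  · have hn2 : i₀ (-1 * μ₀) = ν * σ ν := by
      rw [hσν, map_mul, hν]; simp
    rw [isSquare_iff_norm hι h2σ h2 hν0 hn2, isSquare_mul_iff (by simp) hμ0]
    tauto

end nt

end Cfsg.Agent.Lib.Helper43.PO
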