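import Cfsg.Agent.Lib.Helper43.PO.GF5

set_option autoImplicit false
set_option linter.unusedSectionVars false

/-!
Class splitting of the involutory field automorphism of the group of the twisted form.
-/

namespace Cfsg.Agent.Lib.Helper43.PO

open Matrix QuadraticMap Module Cfsg.Agent.Lib.Helper13.OOut Cfsg.Agent.Lib.Helper43.PA
  Cfsg.Agent.Lib.Helper44

universe u v

variable {F : Type u} [Field F] {F₀ : Type v} [Field F₀] {i₀ : F₀ →+* F}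

theorem mem_N_iff [Fintype F] {ι : Type} [Fintype ι] [DecidableEq ι] (h2 : (2 : F) ≠ 0)
    (Q : QuadraticForm F (ι → F))
    (hQ : (polarBilin Q).Nondegenerate) (hn : 5 ≤ Fintype.card ι)
    (hneg : negOneO Q ∈ Cfsg.Omega F ⇑Q) (g : ↥(Cfsg.Geo.quadSimilarityGroup ⇑Q))
    (s : ↥(Cfsg.isometryGroup F ⇑Q)) (hdet : s ∈ Cfsg.specialIsometryGroup F ⇑Q) (c : Fˣ)
    (hs : ((s : GL ι F) : Matrix ι ι F) = (c : F) • ((g : GL ι F) : Matrix ι ι F)) :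
    g ∈ Oms Q ⊔ (conjPOmega ⇑Q).ker ↔ s ∈ Cfsg.Omega F ⇑Q := by
  have e : ofO Q s = g * scalSimil Q c := by
    apply Subtype.ext; apply Units.ext
    rw [ofO_coe, hs]
    simp only [Subgroup.coe_mul, Units.val_mul, scalSimil_coe]
    simp
  have hz : scalSimil Q c ∈ (conjPOmega ⇑Q).ker := scal_mem_ker Q hQ hn c
  constructor
  · intro h
    rw [← ofO_mem_Oms, ← sup_ker_inf_SOs h2 Q hQ hn hneg]
    refine ⟨?_, ofO_mem_SOs.2 hdet⟩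
    rw [e]
    exact mul_mem h (Subgroup.mem_sup_right hz)
  · intro h
    have e2 : g = ofO Q s * (scalSimil Q c)⁻¹ := by rw [e]; group
    rw [e2]
    exact mul_mem (Subgroup.mem_sup_left (ofO_mem_Oms.2 h)) (Subgroup.mem_sup_right (inv_mem hz))

lemma card_mod_four [Fintype F₀] (h2₀ : (2 : F₀) ≠ 0) :
    IsSquare (-1 : F₀) ↔ Fintype.card F₀ % 4 = 1 := by
  rw [FiniteField.isSquare_neg_one_iff]
  have hodd : Fintype.card F₀ % 2 = 1 := FiniteField.odd_card_of_char_ne_two (by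
    intro h
    have : CharP F₀ 2 := by rw [← h]; exact ringChar.charP F₀
    exact h2₀ (CharTwo.two_eq_zero))
  omega

section

variable [Fintype F] [Fintype F₀] (n : ℕ) (hn : 3 ≤ n) (σ : F ≃+* F)
  (hι : ∀ x, σ x = x ↔ ∃ y, i₀ y = x) (h2σ : orderOf σ = 2) (h2 : (2 : F) ≠ 0)
  (hcard : Fintype.card F = Fintype.card F₀ ^ 2) (a₀ b₀ : F₀) (hab₀ : Aniso a₀ b₀)
  (hQ' : (polarBilin (minusQF n F (i₀ a₀) (i₀ b₀))).Nondegenerate)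
  (hneg : negOneO (minusQF n F (i₀ a₀) (i₀ b₀)) ∈ Cfsg.Omega F ⇑(minusQF n F (i₀ a₀) (i₀ b₀)))

include hn hι h2σ h2 hcard hab₀ hQ' hneg

theorem mapSim_delta_mem_iff (μ₀ : F₀ˣ) (hμ₀ : ¬ IsSquare (μ₀ : F₀))
    (δ₀ : ↥(Cfsg.Geo.quadSimilarityGroup ⇑(minusQF n F₀ a₀ b₀))) (u₁ u₂ : F₀)
    (hu : u₁ ^ 2 + a₀ * u₁ * u₂ + b₀ * u₂ ^ 2 = μ₀)
    (hδmat : ((δ₀ : GL ((Fin n ⊕ Fin n) ⊕ Fin 2) F₀) :
        Matrix ((Fin n ⊕ Fin n) ⊕ Fin 2) ((Fin n ⊕ Fin n) ⊕ Fin 2) F₀)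
        = Matrix.fromBlocks (Matrix.diagonal (Sum.elim (fun _ => (μ₀ : F₀)) (fun _ => 1))) 0 0
          !![u₁, -(b₀ * u₂); u₂, u₁ + a₀ * u₂])
    (hδm : multF (minusQF n F₀ a₀ b₀) δ₀ = μ₀) :
    mapSim (isRat_minus i₀ n a₀ b₀) δ₀ ∈ Oms (minusQF n F (i₀ a₀) (i₀ b₀)) ⊔
      (conjPOmega ⇑(minusQF n F (i₀ a₀) (i₀ b₀))).ker ↔ (Even n ∧ Fintype.card F₀ % 4 = 1) := by
  have hn5 := minus_hn n (by omega : 2 ≤ n)
  have hex := exists_ne_zero _ hQ' hn5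
  have h2₀ : (2 : F₀) ≠ 0 := fun h => h2 ((two_iff i₀).1 h)
  obtain ⟨ν, hν⟩ := isSquare_of_two (i₀ := i₀) hcard (μ₀ : F₀)
  have hν0 : ν ≠ 0 := by
    rintro rfl
    rw [mul_zero] at hν
    exact μ₀.ne_zero ((map_eq_zero i₀).1 hν)
  obtain ⟨κ, hκ⟩ : ∃ κ, (ν + i₀ u₁) ^ 2 + i₀ a₀ * (ν + i₀ u₁) * i₀ u₂ + i₀ b₀ * i₀ u₂ ^ 2 = κ :=
    ⟨_, rfl⟩
  obtain ⟨hκ0, hκsq, hνsq⟩ := nt_main hι h2σ h2 a₀ b₀ hab₀ μ₀ hμ₀ u₁ u₂ hu ν hν κ hκ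
  have hN : i₀ u₁ ^ 2 + i₀ a₀ * i₀ u₁ * i₀ u₂ + i₀ b₀ * i₀ u₂ ^ 2 = ν ^ 2 := by
    rw [pow_two ν, ← hν, ← hu]; simp
  obtain ⟨g, hg⟩ : ∃ g, g = mapSim (isRat_minus i₀ n a₀ b₀) δ₀ := ⟨_, rfl⟩
  have hmult : (multF (minusQF n F (i₀ a₀) (i₀ b₀)) g : F) = ν * ν := by
    rw [hg, multF_mapSim (isRat_minus i₀ n a₀ b₀) hex, hδm, ← hν]
    rfl
  have hgmat : g.1.1 = Matrix.fromBlocks
      (Matrix.diagonal (Sum.elim (fun _ => ν * ν) (fun _ => 1))) 0 0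
          !![i₀ u₁, -(i₀ b₀ * i₀ u₂); i₀ u₂, i₀ u₁ + i₀ a₀ * i₀ u₂] := by
    rw [hg]
    show (δ₀.1.1).map i₀ = _
    rw [hδmat, Matrix.fromBlocks_map, ← hν]
    congr 1
    · ext i j
      by_cases h : i = j
      · subst h
        rcases i with i | i <;> simp
      · simp [h]
    · ext i j; simp
    · ext i j; simp
    · ext i j
      fin_cases i <;> fin_cases j <;> simp
  have hiso : scG (Units.mk0 ν hν0)⁻¹ * g.1 ∈
      Cfsg.isometryGroup F ⇑(minusQF n F (i₀ a₀) (i₀ b₀)) := by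
    rw [mem_isometryGroup]
    intro v
    rw [Units.val_mul, ← mulVec_mulVec, scG_mulVec, QuadraticMap.map_smul, multF_spec, hmult]
    simp only [Units.val_inv_eq_inv_val, Units.val_mk0, smul_eq_mul]
    field_simp
  obtain ⟨s, hs⟩ : ∃ s : ↥(Cfsg.isometryGroup F ⇑(minusQF n F (i₀ a₀) (i₀ b₀))),
      s.1 = scG (Units.mk0 ν hν0)⁻¹ * g.1 := ⟨⟨_, hiso⟩, rfl⟩
  have hsmat : s.1.1 = (((Units.mk0 ν hν0)⁻¹ : Fˣ) : F) • g.1.1 := by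
    rw [hs, Units.val_mul, scG_coe']
    simp
  have hsblock : s.1.1 = Matrix.fromBlocks (Matrix.diagonal (Sum.elim
      (fun _ => ((Units.mk0 ν hν0 : Fˣ) : F)) (fun _ => ((Units.mk0 ν hν0 : Fˣ) : F)⁻¹))) 0 0
        (((Units.mk0 ν hν0 : Fˣ) : F)⁻¹ •
          !![i₀ u₁, -(i₀ b₀ * i₀ u₂); i₀ u₂, i₀ u₁ + i₀ a₀ * i₀ u₂]) := by
    rw [hsmat, hgmat, Matrix.fromBlocks_smul]
    simp only [Units.val_inv_eq_inv_val, Units.val_mk0, smul_zero]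
    congr 1
    rw [← Matrix.diagonal_smul]
    congr 1
    funext k
    rcases k with k | k
    · simp only [Pi.smul_apply, Sum.elim_inl, smul_eq_mul]
      field_simp
    · simp only [Pi.smul_apply, Sum.elim_inr, smul_eq_mul, mul_one]
  have hdet : s ∈ Cfsg.specialIsometryGroup F ⇑(minusQF n F (i₀ a₀) (i₀ b₀)) := by
    rw [mem_specialIsometryGroup, hsmat, Matrix.det_smul, hgmat,
      det_minus_simil n (i₀ a₀) (i₀ b₀) (i₀ u₁) (i₀ u₂) (ν * ν) (by rw [hN, pow_two]), minus_card]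
    simp only [Units.val_inv_eq_inv_val, Units.val_mk0]
    rw [pow_mul, ← mul_pow, ← pow_two ν, inv_pow, inv_mul_cancel₀ (pow_ne_zero 2 hν0), one_pow]
  rw [← hg, mem_N_iff h2 _ hQ' hn5 hneg g s hdet (Units.mk0 ν hν0)⁻¹ hsmat,
    sum_spinor n hn _ _ _ (minusQF_eq_sumQF n _ _) hQ' (Units.mk0 ν hν0) (i₀ u₁) (i₀ u₂) κ hN hκ
      hκ0 s hsblock, hκsq, Units.val_mk0, ← card_mod_four h2₀]
  by_cases hνs : IsSquare ν
  · have h3 : IsSquare (ν ^ n) := hνs.pow n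
    have h4 : ¬ IsSquare (-1 : F₀) := hνsq.1 hνs
    tauto
  · rw [isSquare_pow_iff_even hν0 hνs n]
    have h4 : IsSquare (-1 : F₀) := by
      by_contra h
      exact hνs (hνsq.2 h)
    tauto

theorem gf_count_minus
    (δ : ↥(Cfsg.Geo.quadSimilarityGroup ⇑(minusQF n F (i₀ a₀) (i₀ b₀))))
    (hδ1 : ¬ IsSquare (multF (minusQF n F (i₀ a₀) (i₀ b₀)) δ : F))
    (hδ2 : δ ∈ SS (minusQF n F (i₀ a₀) (i₀ b₀))
      (exists_ne_zero _ hQ' (minus_hn n (by omega : 2 ≤ n))) (n + 1)) :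
    ((Even n ∧ Fintype.card F₀ % 4 = 1) →
      Cfsg.splitClassCount ((SS (minusQF n F (i₀ a₀) (i₀ b₀))
        (exists_ne_zero _ hQ' (minus_hn n (by omega : 2 ≤ n))) (n + 1)).map (conjPOmega _))
        (Cfsg.Inn _) (Th ⇑(minusQF n F (i₀ a₀) (i₀ b₀))
          (fG _ σ (inv_minus n σ (sig_fix σ hι a₀) (sig_fix σ hι b₀)))) = 4) ∧
    (¬ (Even n ∧ Fintype.card F₀ % 4 = 1) →
      Cfsg.splitClassCount ((SS (minusQF n F (i₀ a₀) (i₀ b₀))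
        (exists_ne_zero _ hQ' (minus_hn n (by omega : 2 ≤ n))) (n + 1)).map (conjPOmega _))
        (Cfsg.Inn _) (Th ⇑(minusQF n F (i₀ a₀) (i₀ b₀))
          (fG _ σ (inv_minus n σ (sig_fix σ hι a₀) (sig_fix σ hι b₀)))) = 2) := by
  have hn5 := minus_hn n (by omega : 2 ≤ n)
  have h2₀ : (2 : F₀) ≠ 0 := fun h => h2 ((two_iff i₀).1 h)
  obtain ⟨μ₀, hμ₀⟩ := exists_nonsquare_unit h2₀
  obtain ⟨δ₀, u₁, u₂, hu, hδmat, hδm⟩ := minus_exists_simil' h2₀ n hab₀ μ₀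
  have hδS : δ₀ ∈ SS (minusQF n F₀ a₀ b₀) (exists_ne_zero _
      ((isRat_minus i₀ n a₀ b₀).nondeg hQ') hn5) (n + 1) := by
    rw [mem_SS_odd h2₀, hδmat, det_minus_simil n a₀ b₀ u₁ u₂ _ hu, hδm]
  have key := gf_count_generic _ hQ' hn5 (isRat_minus i₀ n a₀ b₀) (n + 1) (minus_card n) h2 hcard
    σ (inv_minus n σ (sig_fix σ hι a₀) (sig_fix σ hι b₀)) hι hneg δ hδ1 hδ2 δ₀
    (by rw [hδm]; exact hμ₀) hδS
  rw [mapSim_delta_mem_iff n hn σ hι h2σ h2 hcard a₀ b₀ hab₀ hQ' hneg μ₀ hμ₀ δ₀ u₁ u₂ hu hδmat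
    hδm] at key
  exact key

end

end Cfsg.Agent.Lib.Helper43.PO
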