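import Cfsg.Agent.Lib.Helper43.PO.GF1
import Cfsg.Agent.Lib.Helper43.PO.GF2
import Cfsg.Agent.Lib.Helper43.PO.GF6
import Cfsg.Agent.Lib.Helper44.PGOStd
import Cfsg.Agent.Lib.Helper45.OAutWrap

set_option autoImplicit false
set_option linter.unusedSectionVars false

/-!
Plus type: the row on involutory graph-field automorphisms.
-/

namespace Cfsg.Agent.Lib.Helper43.PO

open Matrix QuadraticMap Module Cfsg.Agent.Lib.Helper13.OOut Cfsg.Agent.Lib.Helper43.PA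
  Cfsg.Agent.Lib.Helper44

universe u v

variable {F : Type u} [Field F]

lemma Tr.O_negOneO {ι κ : Type} [Fintype ι] [DecidableEq ι] [Fintype κ] [DecidableEq κ]
    {Q : QuadraticForm F (ι → F)} {Q' : QuadraticForm F (κ → F)} (T : Tr Q Q') :
    T.O (negOneO Q') = negOneO Q := by
  apply isometryGroup_ext
  rw [T.O_val, T.gl_val, negOneO_coe, negOneO_coe, Matrix.mul_neg, Matrix.mul_one, Matrix.neg_mul,
    T.MN]

set_option maxHeartbeats 1600000 in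
theorem row_S2717_gen [Fintype F] {p f : ℕ} [Fact p.Prime] (hF : Fintype.card F = p ^ f)
    (hf : 1 ≤ f) (n : ℕ) (hn : 4 ≤ n)
    (Qf : (Fin (n + 1) ⊕ Fin (n + 1) → F) → F) (hQf : Qf = ⇑(plusQF (n + 1) F))
    (x : MulAut (Cfsg.POmega F Qf)) (hx : GFgen Qf x) (hx2 : orderOf x = 2)
    (F₀ : Type v) [Field F₀] [Fintype F₀] (hF₀ : Fintype.card F₀ = p ^ (f / 2))
    (Qf₀ : F₀ → F₀ → ((Fin n ⊕ Fin n) ⊕ Fin 2 → F₀) → F₀)
    (hQf₀ : Qf₀ = fun a₀ b₀ => ⇑(minusQF n F₀ a₀ b₀)) :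
    Even f ∧
    (∀ y : MulAut (Cfsg.POmega F Qf), GFgen Qf y → orderOf y = 2 →
      Cfsg.IsConjUnder (idGen Qf (fun g => Cfsg.PreservesSingularClasses Qf
        (g : Matrix (Fin (n + 1) ⊕ Fin (n + 1)) (Fin (n + 1) ⊕ Fin (n + 1)) F))) x y) ∧
    (∃ a₀ b₀ : F₀,
      (∀ z₁ z₂ : F₀, z₁ ^ 2 + a₀ * z₁ * z₂ + b₀ * z₂ ^ 2 = 0 → z₁ = 0 ∧ z₂ = 0) ∧
      Nonempty (↥(idGen Qf (fun g => Cfsg.PreservesSingularClasses Qf
        (g : Matrix (Fin (n + 1) ⊕ Fin (n + 1)) (Fin (n + 1) ⊕ Fin (n + 1)) F)) ⊓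
          Subgroup.centralizer {x}) ≃*
        ↥(idGen (Qf₀ a₀ b₀) (fun g => Cfsg.PreservesSingularClassesMinus n a₀ b₀
        (g : Matrix ((Fin n ⊕ Fin n) ⊕ Fin 2) ((Fin n ⊕ Fin n) ⊕ Fin 2) F₀))))) ∧
    (p = 2 → Cfsg.splitClassCount (idGen Qf (fun g => Cfsg.PreservesSingularClasses Qf
        (g : Matrix (Fin (n + 1) ⊕ Fin (n + 1)) (Fin (n + 1) ⊕ Fin (n + 1)) F)))
      (Cfsg.Inn (Cfsg.POmega F Qf)) x = 1) ∧
    ((p ≠ 2 ∧ Odd (n + 1) ∧ p ^ (f / 2) % 4 = 1) →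
      Cfsg.splitClassCount (idGen Qf (fun g => Cfsg.PreservesSingularClasses Qf
        (g : Matrix (Fin (n + 1) ⊕ Fin (n + 1)) (Fin (n + 1) ⊕ Fin (n + 1)) F)))
      (Cfsg.Inn (Cfsg.POmega F Qf)) x = 4) ∧
    ((p ≠ 2 ∧ ¬ (Odd (n + 1) ∧ p ^ (f / 2) % 4 = 1)) →
      Cfsg.splitClassCount (idGen Qf (fun g => Cfsg.PreservesSingularClasses Qf
        (g : Matrix (Fin (n + 1) ⊕ Fin (n + 1)) (Fin (n + 1) ⊕ Fin (n + 1)) F)))
      (Cfsg.Inn (Cfsg.POmega F Qf)) x = 2) := by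
  subst hQf hQf₀
  have hQ := plusQF_nondeg (n + 1) F
  have hn5 := plus_hn n (by omega : 2 ≤ n)
  have htop := Cfsg.Agent.Lib.Helper45.OAut.gamma_top_plus (F := F) (m := n + 1) (by omega)
  rw [← plusQF_coe] at htop
  rw [inndiagPlus_eq (n + 1) (by omega) (exists_ne_zero _ hQ hn5)]
  have hDn := normal_SS_map (plusQF (n + 1) F) hQ hn5 (n + 1) htop
  obtain ⟨α, σ, v, hσ, hv, hvσ, ex⟩ := gf_reduce n hn x hx hx2
  have h2f : 2 ∣ f := hσ ▸ orderOf_dvd_of_card hF σ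
  obtain ⟨i₀, hι⟩ := exists_embedding hF hf σ F₀ (by rw [hF₀, hσ])
  obtain ⟨ζ₀, hζ, T, hT⟩ := exists_twist n (by omega) σ hσ hι v hv hvσ
  have hab₀ : Aniso (1 : F₀) ζ₀ := aniso_of_irr hζ
  have hQ' := T.nondeg hQ
  have hn5' := minus_hn n (by omega : 2 ≤ n)
  have hcard : Fintype.card F = Fintype.card F₀ ^ 2 := by
    rw [hF, hF₀, ← pow_mul, Nat.div_mul_cancel h2f]
  have hLam := T.Lam_field σ (inv_minus n σ (sig_fix σ hι 1) (sig_fix σ hι ζ₀)) _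
    (pr_mem_of_inv _ σ (inv_plus _ σ) (ofO (plusQF (n + 1) F) (reflElt (plusQF (n + 1) F) v))) hT
  have hD := T.map_SS hQ hn5 hQ' hn5' (n + 1)
  rw [← hLam] at ex
  have hcount : Cfsg.splitClassCount ((SS (plusQF (n + 1) F) (exists_ne_zero _ hQ hn5)
      (n + 1)).map (conjPOmega ⇑(plusQF (n + 1) F))) (Cfsg.Inn _) x =
      Cfsg.splitClassCount ((SS (minusQF n F (i₀ 1) (i₀ ζ₀)) (exists_ne_zero _ hQ' hn5')
      (n + 1)).map (conjPOmega _)) (Cfsg.Inn _) (Th ⇑(minusQF n F (i₀ 1) (i₀ ζ₀))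
          (fG _ σ (inv_minus n σ (sig_fix σ hι 1) (sig_fix σ hι ζ₀)))) := by
    rw [← splitClassCount_conj _ _ α x, ex]
    exact splitClassCount_equiv T.Lam _ _ _ _ hD (inn_map_congr T.Psi) _
  have hodd_of : p ≠ 2 → Odd p := fun h => (Fact.out : p.Prime).odd_of_ne_two h
  have hcounts : p ≠ 2 →
    ((Even n ∧ Fintype.card F₀ % 4 = 1) →
      Cfsg.splitClassCount ((SS (plusQF (n + 1) F) (exists_ne_zero _ hQ hn5)
      (n + 1)).map (conjPOmega ⇑(plusQF (n + 1) F))) (Cfsg.Inn _) x = 4) ∧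
    (¬ (Even n ∧ Fintype.card F₀ % 4 = 1) →
      Cfsg.splitClassCount ((SS (plusQF (n + 1) F) (exists_ne_zero _ hQ hn5)
      (n + 1)).map (conjPOmega ⇑(plusQF (n + 1) F))) (Cfsg.Inn _) x = 2) := by
    intro hp
    have hoddF : Odd (Fintype.card F) := by rw [hF]; exact (hodd_of hp).pow
    have hoddF₀ : Odd (Fintype.card F₀) := by rw [hF₀]; exact (hodd_of hp).pow
    have h2 : (2 : F) ≠ 0 := two_ne_zero_of_odd_card hoddF
    have hneg : negOneO (minusQF n F (i₀ 1) (i₀ ζ₀)) ∈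
        Cfsg.Omega F ⇑(minusQF n F (i₀ 1) (i₀ ζ₀)) := by
      rw [← T.O_mem_Omega_iff, T.O_negOneO, plus_negOneO_mem_iff hoddF (n + 1) (by omega)]
      rintro ⟨-, h⟩
      rw [hcard] at h
      obtain ⟨k, hk⟩ := hoddF₀
      rw [hk] at h
      have e : (2 * k + 1) ^ 2 = 4 * (k * k + k) + 1 := by ring
      omega
    obtain ⟨μ, hμ⟩ := exists_nonsquare_unit h2
    obtain ⟨δP, hδP1, hδP2⟩ := plus_exists_simil' (F := F) (n + 1) (by omega) μ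
    have hδPS : δP ∈ SS (plusQF (n + 1) F) (exists_ne_zero _ hQ hn5) (n + 1) := by
      rw [mem_SS_odd h2, hδP1, det_diag_plus, hδP2]
    have e1 : T.Sim (T.Sim.symm δP) = δP := T.Sim.apply_symm_apply δP
    rw [hcount]
    refine gf_count_minus n (by omega) σ hι hσ h2 hcard 1 ζ₀ hab₀ hQ' hneg (T.Sim.symm δP) ?_ ?_
    · rw [← T.multF_Sim (exists_ne_zero _ hQ hn5), e1, hδP2]
      exact hμ
    · rw [← T.Sim_mem_SS_iff hQ hn5 hQ' hn5', e1]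
      exact hδPS
  have hpar : Odd (n + 1) ↔ Even n := by
    rw [Nat.odd_add_one, Nat.not_odd_iff_even]
  refine ⟨even_iff_two_dvd.2 h2f, fun y hy hy2 => gf_conj n hn htop x y hx hx2 hy hy2,
    ⟨1, ζ₀, hab₀, ?_⟩, ?_, ?_, ?_⟩
  · rw [inndiagMinus_eq n (by omega) hab₀ (exists_ne_zero _
      ((isRat_minus i₀ n 1 ζ₀).nondeg hQ') hn5')]
    obtain ⟨E1⟩ := centralizer_conj_equiv ((SS (plusQF (n + 1) F) (exists_ne_zero _ hQ hn5)
      (n + 1)).map (conjPOmega ⇑(plusQF (n + 1) F))) α x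
    rw [ex] at E1
    obtain ⟨E2⟩ := centralizer_equiv T.Lam _ _ hD (Th ⇑(minusQF n F (i₀ 1) (i₀ ζ₀))
          (fG _ σ (inv_minus n σ (sig_fix σ hι 1) (sig_fix σ hι ζ₀))))
    obtain ⟨E3⟩ := cent_equiv _ hQ' hn5' σ (inv_minus n σ (sig_fix σ hι 1) (sig_fix σ hι ζ₀)) hι
      (isRat_minus i₀ n 1 ζ₀) (SS _ (exists_ne_zero _ hQ' hn5') (n + 1)) _
      (scal_mem_SS _ hQ' hn5' (minus_card n))
      (fun g₀ => (mapSim_mem_SS_iff (isRat_minus i₀ n 1 ζ₀) hQ' hn5' (n + 1) g₀).symm)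
    exact ⟨E1.trans (E2.symm.trans E3)⟩
  · intro hp
    have h2 : (2 : F) = 0 := by
      have h1 := FiniteField.cast_card_eq_zero F
      rw [hF, hp] at h1
      push_cast at h1
      exact pow_eq_zero_iff (by omega) |>.1 h1
    rw [SS_map_eq_inn _ h2, splitClassCount_eq_relIndex _ _ le_rfl, Subgroup.relIndex_eq_one]
    exact le_sup_left
  · rintro ⟨hp, ho, hq⟩
    exact (hcounts hp).1 ⟨hpar.1 ho, by rw [hF₀]; exact hq⟩
  · rintro ⟨hp, hno⟩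
    apply (hcounts hp).2
    rintro ⟨he, hq⟩
    exact hno ⟨hpar.2 he, by rw [← hF₀]; exact hq⟩

end Cfsg.Agent.Lib.Helper43.PO
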