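import Cfsg.Agent.Lib.Helper43.PO.Cent
import Cfsg.Agent.Lib.Helper44.OmegaUnified
import Cfsg.Agent.Lib.Helper44.SimilQuot
import Cfsg.Agent.Lib.Helper44.SplitCount
import Cfsg.Agent.Lib.Helper45.FiniteFieldEmb

set_option autoImplicit false
set_option linter.unusedSectionVars false

/-!
Base change of reflections and of the spinor norm criterion; squares in extensions.
-/

namespace Cfsg.Agent.Lib.Helper43.PO

open Matrix QuadraticMap Cfsg.Agent.Lib.Helper13.OOut Cfsg.Agent.Lib.Helper43.PA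
  Cfsg.Agent.Lib.Helper44

universe u v

variable {F : Type u} [Field F] {ι : Type} [Fintype ι] [DecidableEq ι]
variable {F₀ : Type v} [Field F₀] {i₀ : F₀ →+* F}

section base

variable {Q : QuadraticForm F (ι → F)} {Q₀ : QuadraticForm F₀ (ι → F₀)} (hr : IsRat i₀ Q Q₀)

include hr

lemma reflectionMatrix_map (v : ι → F₀) :
    (Cfsg.reflectionMatrix ⇑Q₀ v).map i₀ = Cfsg.reflectionMatrix ⇑Q (up i₀ v) := by
  ext i j
  unfold Cfsg.reflectionMatrix Cfsg.polarVec
  simp only [Matrix.map_apply, Matrix.sub_apply, Matrix.smul_apply, Matrix.vecMulVec_apply,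
    smul_eq_mul, map_sub, map_mul, map_inv₀]
  rw [← up_single i₀ j, hr.polar, hr v]
  congr 1
  by_cases h : i = j
  · subst h; simp
  · simp [h]

lemma mapO_prod (s₀ : ↥(Cfsg.isometryGroup F₀ ⇑Q₀)) (vs : List (ι → F₀))
    (hs : ((s₀ : GL ι F₀) : Matrix ι ι F₀) = (vs.map (fun v => Cfsg.reflectionMatrix ⇑Q₀ v)).prod) :
    ((mapO hr s₀ : GL ι F) : Matrix ι ι F) =
      ((vs.map (up i₀)).map (fun v => Cfsg.reflectionMatrix ⇑Q v)).prod := by
  show (s₀.1.1).map i₀ = _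
  rw [hs]
  have := map_list_prod (i₀.mapMatrix (m := ι)) (vs.map (fun v => Cfsg.reflectionMatrix ⇑Q₀ v))
  rw [RingHom.mapMatrix_apply] at this
  rw [this, List.map_map, List.map_map]
  congr 1
  apply List.map_congr_left
  intro v _
  exact reflectionMatrix_map hr v

theorem mapO_mem_Omega_iff [Fintype F] (hQ : (polarBilin Q).Nondegenerate)
    (h : Fintype.card F ≠ 2 ∨ Fintype.card ι ≠ 4) (s₀ : ↥(Cfsg.isometryGroup F₀ ⇑Q₀))
    (vs : List (ι → F₀)) (hvs : ∀ v ∈ vs, Q₀ v ≠ 0)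
    (hs : ((s₀ : GL ι F₀) : Matrix ι ι F₀) = (vs.map (fun v => Cfsg.reflectionMatrix ⇑Q₀ v)).prod) :
    mapO hr s₀ ∈ Cfsg.Omega F ⇑Q ↔
      (Even vs.length ∧ IsSquare (i₀ (vs.map (fun v => Q₀ v)).prod)) := by
  rw [mem_Omega_iff_of_prod Q hQ h (mapO hr s₀) (vs.map (up i₀)) ?_ (mapO_prod hr s₀ vs hs),
    List.length_map, List.map_map, map_list_prod, List.map_map]
  · have e : ((fun v => Q v) ∘ up i₀ : (ι → F₀) → F) = (⇑i₀ ∘ fun v => Q₀ v) := by
      funext v
      exact hr v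
    rw [e]
  · intro v hv
    obtain ⟨w, hw, rfl⟩ := List.mem_map.1 hv
    rw [hr]
    exact fun h0 => hvs w hw (i₀.injective (by rw [h0, map_zero]))

lemma mapSim_ofO (s₀ : ↥(Cfsg.isometryGroup F₀ ⇑Q₀)) :
    mapSim hr (ofO Q₀ s₀) = ofO Q (mapO hr s₀) := rfl

end base

lemma map_scG (ν : F₀ˣ) :
    Matrix.GeneralLinearGroup.map i₀ (scG ν : GL ι F₀) = scG (Units.map i₀.toMonoidHom ν) := by
  apply Units.ext
  show (scG ν : GL ι F₀).1.map i₀ = _
  rw [scG_coe', scG_coe']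
  ext i j
  by_cases h : i = j
  · subst h; simp
  · simp [h]

/-! ### squares -/

theorem isSquare_of_odd {σ : F ≃+* F} (hι : ∀ x, σ x = x ↔ ∃ y, i₀ y = x)
    (hodd : Odd (orderOf σ)) (y : F₀) (h : IsSquare (i₀ y)) : IsSquare y := by
  obtain ⟨z, hz⟩ := h
  have h1 : σ z * σ z = z * z := by
    rw [← map_mul, ← hz]
    exact (hι _).2 ⟨y, rfl⟩
  have h2 : σ z = z := by
    rcases mul_self_eq_mul_self_iff.1 h1 with h | h
    · exact h
    · have hp : ∀ k : ℕ, (σ ^ k) z = (-1) ^ k * z := by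
        intro k
        induction k with
        | zero => simp
        | succ k ih =>
          rw [pow_succ', RingAut.mul_apply, ih, map_mul, map_pow, map_neg, map_one, h]
          ring
      have := hp (orderOf σ)
      rw [pow_orderOf_eq_one, hodd.neg_one_pow] at this
      rw [h]
      have e : (1 : F ≃+* F) z = z := rfl
      rw [e] at this
      linear_combination -this
  obtain ⟨z₀, rfl⟩ := (hι _).1 h2
  exact ⟨z₀, i₀.injective (by rw [hz, map_mul])⟩

theorem isSquare_of_two [Fintype F] [Fintype F₀] (hcard : Fintype.card F = Fintype.card F₀ ^ 2)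
    (y : F₀) : IsSquare (i₀ y) := by
  by_cases hy : IsSquare y
  · exact hy.map i₀
  · obtain ⟨r, hr⟩ := Cfsg.Agent.Lib.Helper45.exists_root_quadratic hcard i₀ 0 (-y) (by
      intro z hz
      apply hy
      exact ⟨z, by linear_combination -hz⟩)
    exact ⟨r, by rw [map_zero, map_neg] at hr; linear_combination -hr⟩

/-! ### group lemma -/

lemma relIndex_sup_of_two {X : Type*} [Group X] {K H C : Subgroup X}
    (hCH : C ≤ H) (h2 : K.relIndex H = 2) :
    ((∃ c ∈ C, c ∉ K) → (K ⊔ C).relIndex H = 1) ∧ (C ≤ K → (K ⊔ C).relIndex H = 2) := by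
  constructor
  · rintro ⟨c, hc, hcK⟩
    rw [Subgroup.relIndex_eq_one]
    intro h hh
    by_cases hK : h ∈ K
    · exact Subgroup.mem_sup_left hK
    · have h3 : h * c ∈ K := (mul_mem_iff_of_relIndex_two h2 hh (hCH hc)).2 (by tauto)
      have e : h = (h * c) * c⁻¹ := by group
      rw [e]
      exact mul_mem (Subgroup.mem_sup_left h3) (Subgroup.mem_sup_right (inv_mem hc))
  · intro h
    rw [sup_eq_left.2 h, h2]

section

variable [Fintype F] (Q : QuadraticForm F (ι → F)) (hQ : (polarBilin Q).Nondegenerate)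
  (hn : 5 ≤ Fintype.card ι)

include hQ hn

lemma conj_eq_of_scalar {g g' : ↥(Cfsg.Geo.quadSimilarityGroup ⇑Q)} (v : Fˣ)
    (h : g.1 = scG v * g'.1) : conjPOmega ⇑Q g = conjPOmega ⇑Q g' := by
  have e : g = scalSimil Q v * g' := by
    apply Subtype.ext
    rw [Subgroup.coe_mul, scalSimil_val, h]
  have h1 : conjPOmega ⇑Q (scalSimil Q v) = 1 :=
    (mem_ker_conjPOmega_iff' Q hQ hn _).2 ⟨v, scalSimil_coe Q v⟩
  rw [e, map_mul, h1, one_mul]

/-- in odd dimension, an element of `SO` inducing an inner automorphism lies in `Ω`. -/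
theorem mem_Omega_of_conj_mem_inn (h2 : (2 : F) ≠ 0) (hodd : Odd (Fintype.card ι))
    (s : ↥(Cfsg.isometryGroup F ⇑Q)) (hs : ((s : GL ι F) : Matrix ι ι F).det = 1)
    (h : conjPOmega ⇑Q (ofO Q s) ∈ Cfsg.Inn (Cfsg.POmega F ⇑Q)) : s ∈ Cfsg.Omega F ⇑Q := by
  have hex := exists_ne_zero Q hQ hn
  rw [inn_eq'] at h
  obtain ⟨y, hy, hys⟩ := h
  obtain ⟨t, ht, hty⟩ := mem_Oms.1 hy
  have hk : (ofO Q s) * y⁻¹ ∈ (conjPOmega ⇑Q).ker := by
    rw [MonoidHom.mem_ker, map_mul, map_inv, hys, mul_inv_cancel]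
  obtain ⟨μ, hμ⟩ := (mem_ker_conjPOmega_iff' Q hQ hn _).1 hk
  have e1 : ((ofO Q s * y⁻¹ : ↥(Cfsg.Geo.quadSimilarityGroup ⇑Q)) : GL ι F) = ((s * t⁻¹ :
      ↥(Cfsg.isometryGroup F ⇑Q)) : GL ι F) := by
    simp only [Subgroup.coe_mul, InvMemClass.coe_inv, ofO_coe, hty]
  rw [e1] at hμ
  have hdt : ((t : GL ι F) : Matrix ι ι F).det = 1 :=
    mem_specialIsometryGroup.1 (Omega_le_specialIsometryGroup _ ht)
  have hdet : (((s * t⁻¹ : ↥(Cfsg.isometryGroup F ⇑Q)) : GL ι F) : Matrix ι ι F).det = 1 := by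
    have h3 : (((s * t⁻¹ : ↥(Cfsg.isometryGroup F ⇑Q)) : GL ι F) : Matrix ι ι F) *
        ((t : GL ι F) : Matrix ι ι F) = ((s : GL ι F) : Matrix ι ι F) := by
      rw [← Units.val_mul, ← Subgroup.coe_mul, inv_mul_cancel_right]
    have h4 := congrArg Matrix.det h3
    rw [Matrix.det_mul, hdt, mul_one, hs] at h4
    exact h4
  rcases scalar_isometry_eq hex (s * t⁻¹).2 hμ with rfl | rfl
  · have : s * t⁻¹ = 1 := by
      apply isometryGroup_ext
      rw [hμ]; simp
    rw [mul_inv_eq_one] at this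
    rw [this]; exact ht
  · exfalso
    rw [hμ, Matrix.det_smul, Matrix.det_one, mul_one, hodd.neg_one_pow] at hdet
    apply h2
    linear_combination -hdet

end

end Cfsg.Agent.Lib.Helper43.PO
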