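import Cfsg.Agent.Lib.Helper43.PO.Odd
import Cfsg.Agent.Lib.Helper43.PO.Spin
import Cfsg.Agent.Lib.Helper43.PA.Split

set_option autoImplicit false
set_option linter.unusedSectionVars false

/-!
Odd-dimensional orthogonal groups: centraliser and class splitting of a field automorphism.
-/

namespace Cfsg.Agent.Lib.Helper43.PO

open Matrix QuadraticMap Cfsg.Agent.Lib.Helper13.OOut Cfsg.Agent.Lib.Helper43.PA
  Cfsg.Agent.Lib.Helper44

universe u v

lemma card_odd_index (m : ℕ) : Fintype.card (Unit ⊕ (Fin m ⊕ Fin m)) = 2 * m + 1 := by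
  simp; ring

lemma negOneO_val {K : Type*} [Field K] {ι : Type} [Fintype ι] [DecidableEq ι]
    (Q : QuadraticForm K (ι → K)) : (negOneO Q : GL ι K) = scG (-1) := by
  apply Units.ext
  rw [negOneO_coe, scG_coe']
  simp

/-- a similarity in odd dimension is a scalar times a product of an even number of reflections. -/
theorem odd_decomp {K : Type*} [Field K] [Fintype K] (h2 : (2 : K) ≠ 0) {m : ℕ} (hm : 3 ≤ m)
    (g₀ : ↥(Cfsg.Geo.quadSimilarityGroup ⇑(oddQF m K))) :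
    ∃ (ν : Kˣ) (s : ↥(Cfsg.isometryGroup K ⇑(oddQF m K))) (vs : List (Unit ⊕ (Fin m ⊕ Fin m) → K)),
      (∀ v ∈ vs, oddQF m K v ≠ 0) ∧
      ((s : GL (Unit ⊕ (Fin m ⊕ Fin m)) K) : Matrix _ _ K) = (vs.map (fun v => Cfsg.reflectionMatrix ⇑(oddQF m K) v)).prod ∧
      Even vs.length ∧ g₀.1 = scG ν * s.1 := by
  have hQ := oddQF_nondeg m K h2
  have hc := card_odd_index m
  have hn : 5 ≤ Fintype.card (Unit ⊕ (Fin m ⊕ Fin m)) := by omega
  have hex := exists_ne_zero (oddQF m K) hQ hn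
  have h4 : Fintype.card K ≠ 2 ∨ Fintype.card (Unit ⊕ (Fin m ⊕ Fin m)) ≠ 4 := Or.inr (by omega)
  obtain ⟨μ, hμ⟩ : multHom (oddQF m K) hex g₀ ∈ (powMonoidHom 2 : Kˣ →* Kˣ).range := by
    rw [← range_multHom_odd m h2 hex]; exact ⟨g₀, rfl⟩
  rw [powMonoidHom_apply, multHom_apply] at hμ
  have hs₁ : scG μ⁻¹ * g₀.1 ∈ Cfsg.isometryGroup K ⇑(oddQF m K) := by
    rw [mem_isometryGroup]
    intro v
    rw [Units.val_mul, ← mulVec_mulVec, scG_mulVec, QuadraticMap.map_smul, multF_spec, ← hμ,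
      smul_eq_mul, ← mul_assoc]
    have : ((μ⁻¹ : Kˣ) : K) * ((μ⁻¹ : Kˣ) : K) * ((μ ^ 2 : Kˣ) : K) = 1 := by
      rw [← Units.val_mul, ← Units.val_mul]
      have : μ⁻¹ * μ⁻¹ * μ ^ 2 = 1 := by group
      rw [this, Units.val_one]
    rw [this, one_mul]
  obtain ⟨l, hl, hs⟩ := exists_list_reflectionMatrix (oddQF m K) hQ h4 ⟨_, hs₁⟩
  by_cases he : Even l.length
  · exact ⟨μ, ⟨_, hs₁⟩, l, hl, hs, he, by
      show g₀.1 = scG μ * (scG μ⁻¹ * g₀.1)
      rw [← mul_assoc, ← map_mul, mul_inv_cancel, map_one, one_mul]⟩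
  · obtain ⟨l', hl', hs'⟩ := exists_list_reflectionMatrix (oddQF m K) hQ h4 (negOneO _)
    have ho : ¬ Even l'.length := by
      intro he'
      have h5 := det_of_prod (oddQF m K) (negOneO _) l' hl' hs'
      rw [negOneO_coe, Matrix.det_neg, Matrix.det_one, mul_one, hc, he'.neg_one_pow,
        Odd.neg_one_pow (⟨m, rfl⟩ : Odd (2 * m + 1))] at h5
      apply h2
      linear_combination -h5
    refine ⟨-μ, negOneO _ * ⟨_, hs₁⟩, l' ++ l, ?_, ?_, ?_, ?_⟩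
    · intro v hv
      rcases List.mem_append.1 hv with h | h
      · exact hl' v h
      · exact hl v h
    · rw [List.map_append, List.prod_append, ← hs, ← hs']
      rfl
    · rw [List.length_append]
      rw [Nat.not_even_iff_odd] at he ho
      exact ho.add_odd he
    · show g₀.1 = scG (-μ) * ((negOneO (oddQF m K) : GL _ K) * (scG μ⁻¹ * g₀.1))
      rw [negOneO_val, ← mul_assoc, ← mul_assoc, ← map_mul, ← map_mul]
      have : -μ * -1 * μ⁻¹ = 1 := by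
        rw [neg_mul_neg, mul_one, mul_inv_cancel]
      rw [this, map_one, one_mul]

variable {F : Type u} [Field F] [Fintype F] {F₀ : Type v} [Field F₀] [Fintype F₀]

theorem relIndex_inn_odd (h2 : (2 : F) ≠ 0) {m : ℕ} (hm : 3 ≤ m) :
    (Cfsg.Inn (Cfsg.POmega F ⇑(oddQF m F))).relIndex (conjPOmega ⇑(oddQF m F)).range = 2 := by
  have hQ := oddQF_nondeg m F h2
  have hn : 5 ≤ Fintype.card (Unit ⊕ (Fin m ⊕ Fin m)) := by rw [card_odd_index]; omega
  have h1 := card_pgoAut_odd m h2 hm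
  have h3 := card_Inn (oddQF m F) hQ hn
  have hle : Cfsg.Inn (Cfsg.POmega F ⇑(oddQF m F)) ≤ (conjPOmega ⇑(oddQF m F)).range := by
    rw [← pgoAut_eq]; exact inn_le_pgoAut _
  have h4 := Subgroup.relIndex_mul_relIndex ⊥ _ _ bot_le hle
  rw [Subgroup.relIndex_bot_left, Subgroup.relIndex_bot_left] at h4
  rw [← oddQF_coe, pgoAut_eq] at h1
  rw [h1, h3, mul_comm] at h4
  have hpos : 0 < Nat.card (Cfsg.POmega F ⇑(oddQF m F)) := Nat.card_pos
  exact Nat.eq_of_mul_eq_mul_right hpos h4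

section

variable (h2 : (2 : F) ≠ 0) {m : ℕ} (hm : 3 ≤ m) (σ : F ≃+* F) {i₀ : F₀ →+* F}
  (hι : ∀ x, σ x = x ↔ ∃ y, i₀ y = x)

include h2 hm hι

theorem cent_odd_iff (d : MulAut (Cfsg.POmega F ⇑(oddQF m F))) :
    d ∈ (conjPOmega ⇑(oddQF m F)).range ⊓
      Subgroup.centralizer {Th ⇑(oddQF m F) (fG _ σ (inv_odd m σ))} ↔
      ∃ g₀, conjPOmega ⇑(oddQF m F) (mapSim (isRat_odd i₀ m) g₀) = d := by
  have hQ := oddQF_nondeg m F h2
  have hn : 5 ≤ Fintype.card (Unit ⊕ (Fin m ⊕ Fin m)) := by rw [card_odd_index]; omega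
  rw [MonoidHom.range_eq_map, mem_cent_iff_exists (oddQF m F) hQ hn σ (inv_odd m σ) hι
    (isRat_odd i₀ m) ⊤ ⊤ (fun _ => trivial) (fun _ => Iff.rfl)]
  simp

theorem cent_odd_equiv :
    Nonempty (↥((conjPOmega ⇑(oddQF m F)).range ⊓
      Subgroup.centralizer {Th ⇑(oddQF m F) (fG _ σ (inv_odd m σ))}) ≃*
      ↥(conjPOmega ⇑(oddQF m F₀)).range) := by
  have hQ := oddQF_nondeg m F h2
  have hn : 5 ≤ Fintype.card (Unit ⊕ (Fin m ⊕ Fin m)) := by rw [card_odd_index]; omega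
  rw [MonoidHom.range_eq_map, MonoidHom.range_eq_map]
  exact cent_equiv (oddQF m F) hQ hn σ (inv_odd m σ) hι
    (isRat_odd i₀ m) ⊤ ⊤ (fun _ => trivial) (fun _ => Iff.rfl)

theorem cent_odd_le_inn (hcard : Fintype.card F = Fintype.card F₀ ^ 2) :
    Subgroup.centralizer {Th ⇑(oddQF m F) (fG _ σ (inv_odd m σ))} ⊓
      (conjPOmega ⇑(oddQF m F)).range ≤ Cfsg.Inn (Cfsg.POmega F ⇑(oddQF m F)) := by
  have hQ := oddQF_nondeg m F h2
  have hn : 5 ≤ Fintype.card (Unit ⊕ (Fin m ⊕ Fin m)) := by rw [card_odd_index]; omega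
  have h2₀ : (2 : F₀) ≠ 0 := by
    intro h
    apply h2
    have := congrArg i₀ h
    rwa [map_ofNat, map_zero] at this
  intro d hd
  rw [inf_comm, cent_odd_iff h2 hm σ hι] at hd
  obtain ⟨g₀, rfl⟩ := hd
  obtain ⟨ν, s, vs, hvs, hs, he, hg⟩ := odd_decomp h2₀ hm g₀
  have e : conjPOmega ⇑(oddQF m F) (mapSim (isRat_odd i₀ m) g₀) =
      conjPOmega ⇑(oddQF m F) (ofO _ (mapO (isRat_odd i₀ m) s)) := by
    apply conj_eq_of_scalar _ hQ hn (Units.map i₀.toMonoidHom ν)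
    rw [mapSim_val, hg, map_mul, map_scG]
    rfl
  rw [e, inn_eq']
  refine ⟨_, ofO_mem_Oms.2 ?_, rfl⟩
  rw [mapO_mem_Omega_iff (isRat_odd i₀ m) hQ (Or.inr (by omega)) s vs hvs hs]
  exact ⟨he, isSquare_of_two hcard _⟩

theorem exists_cent_odd_not_inn (hodd : Odd (orderOf σ)) :
    ∃ d ∈ Subgroup.centralizer {Th ⇑(oddQF m F) (fG _ σ (inv_odd m σ))} ⊓
      (conjPOmega ⇑(oddQF m F)).range, d ∉ Cfsg.Inn (Cfsg.POmega F ⇑(oddQF m F)) := by
  have hQ := oddQF_nondeg m F h2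
  have hc := card_odd_index m
  have hn : 5 ≤ Fintype.card (Unit ⊕ (Fin m ⊕ Fin m)) := by omega
  have h2₀ : (2 : F₀) ≠ 0 := by
    intro h
    apply h2
    have := congrArg i₀ h
    rwa [map_ofNat, map_zero] at this
  obtain ⟨η, hη⟩ := FiniteField.exists_nonsquare (F := F₀) (by
    intro h
    have : CharP F₀ 2 := by rw [← h]; exact ringChar.charP F₀
    exact h2₀ (CharTwo.two_eq_zero))
  let i₁ : Fin m := ⟨0, by omega⟩
  let a : Unit ⊕ (Fin m ⊕ Fin m) → F₀ := Pi.single (Sum.inl ()) 1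
  let b : Unit ⊕ (Fin m ⊕ Fin m) → F₀ :=
    Pi.single (Sum.inr (Sum.inl i₁)) 1 + Pi.single (Sum.inr (Sum.inr i₁)) η
  have ha : oddQF m F₀ a = 1 := by
    rw [oddQF_apply]; simp [a]
  have hb : oddQF m F₀ b = η := by
    rw [oddQF_apply]
    simp [b, Pi.single_apply]
  have hη0 : η ≠ 0 := by
    rintro rfl
    exact hη ⟨0, by simp⟩
  let s : ↥(Cfsg.isometryGroup F₀ ⇑(oddQF m F₀)) := reflElt _ a * reflElt _ b
  have hs : ((s : GL (Unit ⊕ (Fin m ⊕ Fin m)) F₀) : Matrix _ _ F₀) =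
      ([a, b].map (fun v => Cfsg.reflectionMatrix ⇑(oddQF m F₀) v)).prod := by
    simp [s, reflElt_coe]
  have hvs : ∀ v ∈ [a, b], oddQF m F₀ v ≠ 0 := by
    intro v hv
    simp only [List.mem_cons, List.not_mem_nil, or_false] at hv
    rcases hv with rfl | rfl
    · rw [ha]; exact one_ne_zero
    · rw [hb]; exact hη0
  refine ⟨conjPOmega ⇑(oddQF m F) (mapSim (isRat_odd i₀ m) (ofO _ s)), ?_, ?_⟩
  · rw [inf_comm, cent_odd_iff h2 hm σ hι]
    exact ⟨_, rfl⟩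
  · intro hmem
    rw [mapSim_ofO] at hmem
    have hdet : (((mapO (isRat_odd i₀ m) s : ↥(Cfsg.isometryGroup F ⇑(oddQF m F))) :
        GL (Unit ⊕ (Fin m ⊕ Fin m)) F) : Matrix (Unit ⊕ (Fin m ⊕ Fin m)) (Unit ⊕ (Fin m ⊕ Fin m)) F).det
        = 1 := by
      rw [det_of_prod (oddQF m F) _ _ ?_ (mapO_prod (isRat_odd i₀ m) s [a, b] hs)]
      · simp
      · intro v hv
        obtain ⟨w, hw, rfl⟩ := List.mem_map.1 hv
        rw [isRat_odd i₀ m w]
        exact fun h0 => hvs w hw (i₀.injective (by rw [h0, map_zero]))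
    have h3 := mem_Omega_of_conj_mem_inn _ hQ hn h2 (by rw [hc]; exact ⟨m, rfl⟩) _ hdet hmem
    rw [mapO_mem_Omega_iff (isRat_odd i₀ m) hQ (Or.inr (by omega)) s [a, b] hvs hs] at h3
    apply hη
    apply isSquare_of_odd hι hodd
    simpa [ha, hb] using h3.2

end

theorem row_S2714 {p f : ℕ} [Fact p.Prime] (hF : Fintype.card F = p ^ f) (hf : 1 ≤ f)
    (hodd : Odd (Fintype.card F)) {m : ℕ} (hm : 3 ≤ m)
    (x : MulAut (Cfsg.POmega F (Cfsg.quadFormOdd m F)))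
    (hx : Cfsg.IsFieldAutClassPOmega (Cfsg.quadFormOdd m F) x) {r : ℕ}
    (hxr : orderOf x = r) (hF₀ : Fintype.card F₀ = p ^ (f / r)) :
    r ∣ f ∧ Nonempty (↥(Cfsg.inndiagPOmegaOdd m F ⊓ Subgroup.centralizer {x}) ≃*
      ↥(Cfsg.inndiagPOmegaOdd m F₀)) ∧
    (Odd r → Cfsg.splitClassCount (Cfsg.inndiagPOmegaOdd m F)
      (Cfsg.Inn (Cfsg.POmega F (Cfsg.quadFormOdd m F))) x = 1) ∧
    (r = 2 → Cfsg.splitClassCount (Cfsg.inndiagPOmegaOdd m F)
      (Cfsg.Inn (Cfsg.POmega F (Cfsg.quadFormOdd m F))) x = 2) := by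
  have h2 : (2 : F) ≠ 0 := two_ne_zero_of_odd_card hodd
  have hQ := oddQF_nondeg m F h2
  have hn : 5 ≤ Fintype.card (Unit ⊕ (Fin m ⊕ Fin m)) := by rw [card_odd_index]; omega
  have htop := Cfsg.Agent.Lib.Helper45.OAut.gamma_top_odd hodd hm
  rw [inndiagOdd_eq, inndiagOdd_eq]
  revert x
  rw [← oddQF_coe] at htop ⊢
  rw [← oddQF_coe]
  intro x hx hxr
  have hD := normal_pgoAut (oddQF m F) hQ hn htop
  obtain ⟨α, φ, σ, hσ, hstd, e⟩ := hx
  rw [(isFieldAut_iff _ σ (inv_odd m σ) φ).1 hstd] at e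
  have hord : orderOf σ = r := by
    rw [← orderOf_Th_fG _ hQ hn σ (inv_odd m σ), ← e, orderOf_conj', hxr]
  have hrf : r ∣ f := hord ▸ orderOf_dvd_of_card hF σ
  obtain ⟨i₀, hι⟩ := exists_embedding hF hf σ F₀ (by rw [hF₀, hord])
  have hle : Cfsg.Inn (Cfsg.POmega F ⇑(oddQF m F)) ≤ (conjPOmega ⇑(oddQF m F)).range := by
    rw [← pgoAut_eq]; exact inn_le_pgoAut _
  have hrel := relIndex_sup_of_two (K := Cfsg.Inn (Cfsg.POmega F ⇑(oddQF m F)))
    (H := (conjPOmega ⇑(oddQF m F)).range)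
    (C := Subgroup.centralizer {Th ⇑(oddQF m F) (fG _ σ (inv_odd m σ))} ⊓
      (conjPOmega ⇑(oddQF m F)).range) inf_le_right (relIndex_inn_odd h2 hm)
  refine ⟨hrf, ?_, ?_, ?_⟩
  · obtain ⟨E1⟩ := centralizer_conj_equiv (conjPOmega ⇑(oddQF m F)).range α x
    rw [e] at E1
    obtain ⟨E2⟩ := cent_odd_equiv h2 hm σ hι
    exact ⟨E1.trans E2⟩
  · intro hr
    rw [← splitClassCount_conj _ _ α x, e, splitClassCount_eq_relIndex _ _ hle]
    exact hrel.1 (exists_cent_odd_not_inn h2 hm σ hι (hord ▸ hr))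
  · intro hr
    rw [← splitClassCount_conj _ _ α x, e, splitClassCount_eq_relIndex _ _ hle]
    apply hrel.2
    apply cent_odd_le_inn h2 hm σ hι
    rw [hF, hF₀, ← pow_mul, hr, Nat.div_mul_cancel (hr ▸ hrf)]

end Cfsg.Agent.Lib.Helper43.PO
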