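import Cfsg.Agent.Lib.Helper43.PO.MinusRow
import Cfsg.Agent.Lib.Helper43.PO.OddCent
import Cfsg.Agent.Lib.Helper44.InndiagMinus

set_option autoImplicit false
set_option linter.unusedSectionVars false

/-!
Minus type: centraliser and class splitting of a field automorphism.
-/

namespace Cfsg.Agent.Lib.Helper43.PO

open Matrix QuadraticMap Module Cfsg.Agent.Lib.Helper13.OOut Cfsg.Agent.Lib.Helper43.PA
  Cfsg.Agent.Lib.Helper44

universe u v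

variable {F : Type u} [Field F] {F₀ : Type v} [Field F₀] {i₀ : F₀ →+* F}

lemma exists_nonsquare_of_two_ne [Fintype F₀] (h2 : (2 : F₀) ≠ 0) : ∃ η : F₀, ¬ IsSquare η :=
  FiniteField.exists_nonsquare (F := F₀) (by
    intro h
    have : CharP F₀ 2 := by rw [← h]; exact ringChar.charP F₀
    exact h2 (CharTwo.two_eq_zero))

lemma isSquare_mul_of_not [Fintype F] {x y : F} (hx : ¬ IsSquare x) (hy : ¬ IsSquare y) :
    IsSquare (x * y) := by
  classical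
  have hx0 : x ≠ 0 := by rintro rfl; exact hx ⟨0, by simp⟩
  have hy0 : y ≠ 0 := by rintro rfl; exact hy ⟨0, by simp⟩
  rw [← quadraticChar_one_iff_isSquare (mul_ne_zero hx0 hy0), map_mul,
    quadraticChar_neg_one_iff_not_isSquare.2 hx, quadraticChar_neg_one_iff_not_isSquare.2 hy]
  norm_num

lemma exists_sq_decomp [Fintype F] [Fintype F₀] (h2 : (2 : F) ≠ 0) {σ : F ≃+* F}
    (hι : ∀ x, σ x = x ↔ ∃ y, i₀ y = x) (hodd : Odd (orderOf σ)) (μ : Fˣ) :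
    ∃ (μ₀ : F₀ˣ) (ν : Fˣ), μ = Units.map i₀.toMonoidHom μ₀ * (ν * ν) := by
  by_cases hμ : IsSquare (μ : F)
  · obtain ⟨z, hz⟩ := hμ
    have hz0 : z ≠ 0 := by
      rintro rfl
      exact μ.ne_zero (by rw [hz, mul_zero])
    exact ⟨1, Units.mk0 z hz0, Units.ext (by simp [hz])⟩
  · obtain ⟨η, hη⟩ := exists_nonsquare_of_two_ne (F₀ := F₀) (fun h => h2 ((two_iff i₀).1 h))
    have hη0 : η ≠ 0 := by rintro rfl; exact hη ⟨0, by simp⟩
    have hη' : ¬ IsSquare (i₀ η) := fun h => hη (isSquare_of_odd hι hodd η h)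
    obtain ⟨z, hz⟩ := isSquare_mul_of_not hμ hη'
    have hz0 : z ≠ 0 := by
      rintro rfl
      rw [mul_zero] at hz
      rcases mul_eq_zero.1 hz with h | h
      · exact μ.ne_zero h
      · exact hη0 ((map_eq_zero i₀).1 h)
    refine ⟨(Units.mk0 η hη0)⁻¹, Units.mk0 z hz0, Units.ext ?_⟩
    have h3 : i₀ η ≠ 0 := (map_ne_zero i₀).2 hη0
    simp only [Units.val_mul, Units.coe_map, Units.val_inv_eq_inv_val, Units.val_mk0,
      RingHom.toMonoidHom_eq_coe, MonoidHom.coe_coe, map_inv₀]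
    rw [← hz]
    field_simp

lemma Oms_le_SS [Fintype F] {ι : Type} [Fintype ι] [DecidableEq ι] (Q : QuadraticForm F (ι → F))
    (hex : ∃ v, Q v ≠ 0) (n : ℕ) : Oms Q ≤ SS Q hex n := by
  by_cases h2 : (2 : F) = 0
  · rw [SS_two h2]; exact le_sup_left
  · intro g hg
    obtain ⟨t, ht, hty⟩ := mem_Oms.1 hg
    have hd := mem_specialIsometryGroup.1 (Omega_le_specialIsometryGroup _ ht)
    rw [mem_SS_odd h2, ← hty, hd, multF_eq_one_of_isometry hex g (hty ▸ t.2)]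
    simp

lemma SO_le_SS [Fintype F] {ι : Type} [Fintype ι] [DecidableEq ι] (h2 : (2 : F) ≠ 0)
    (Q : QuadraticForm F (ι → F)) (hex : ∃ v, Q v ≠ 0) (n : ℕ) (s : ↥(Cfsg.isometryGroup F ⇑Q))
    (hs : s ∈ Cfsg.specialIsometryGroup F ⇑Q) : ofO Q s ∈ SS Q hex n := by
  have hm : multF Q (ofO Q s) = 1 := multF_eq_one_of_isometry hex (ofO Q s) s.2
  rw [mem_SS_odd h2, ofO_coe, mem_specialIsometryGroup.1 hs, hm]
  simp

section

variable [Fintype F] [Fintype F₀] (m : ℕ) (hm : 2 ≤ m) (σ : F ≃+* F)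
  (hι : ∀ x, σ x = x ↔ ∃ y, i₀ y = x) (a₀ b₀ : F₀) (hab' : Aniso (i₀ a₀) (i₀ b₀))

omit [Fintype F] [Fintype F₀] in
include hab' in
lemma aniso_desc : Aniso a₀ b₀ := by
  intro z₁ z₂ h
  have := hab' (i₀ z₁) (i₀ z₂) (by
    have := congrArg i₀ h
    simpa using this)
  exact ⟨(map_eq_zero i₀).1 this.1, (map_eq_zero i₀).1 this.2⟩

include hι in
omit [Fintype F] [Fintype F₀] in
lemma sig_fix (y : F₀) : σ (i₀ y) = i₀ y := (hι _).2 ⟨y, rfl⟩

include hm hι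

theorem minus_cent_iff (d : MulAut (Cfsg.POmega F ⇑(minusQF m F (i₀ a₀) (i₀ b₀)))) :
    d ∈ DM m hm hab' ⊓ Subgroup.centralizer {Th ⇑(minusQF m F (i₀ a₀) (i₀ b₀))
      (fG _ σ (inv_minus m σ (sig_fix σ hι a₀) (sig_fix σ hι b₀)))} ↔
    ∃ g₀ ∈ SS (minusQF m F₀ a₀ b₀) (exists_ne_zero _ (minusQF_nondeg m F₀ (aniso_desc a₀ b₀ hab'))
      (minus_hn m hm)) (m + 1),
      conjPOmega ⇑(minusQF m F (i₀ a₀) (i₀ b₀)) (mapSim (isRat_minus i₀ m a₀ b₀) g₀) = d :=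
  mem_cent_iff_exists _ (minusQF_nondeg m F hab') (minus_hn m hm) σ _ hι
    (isRat_minus i₀ m a₀ b₀) (SS _ (exists_ne_zero _ (minusQF_nondeg m F hab') (minus_hn m hm))
      (m + 1)) _ (scal_mem_SS _ (minusQF_nondeg m F hab') (minus_hn m hm) (minus_card m))
    (fun g₀ => (mapSim_mem_SS_iff (isRat_minus i₀ m a₀ b₀) (minusQF_nondeg m F hab')
      (minus_hn m hm) (m + 1) g₀).symm) d

theorem minus_cent_equiv :
    Nonempty (↥(DM m hm hab' ⊓ Subgroup.centralizer {Th ⇑(minusQF m F (i₀ a₀) (i₀ b₀))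
      (fG _ σ (inv_minus m σ (sig_fix σ hι a₀) (sig_fix σ hι b₀)))}) ≃*
      ↥(DM m hm (aniso_desc a₀ b₀ hab'))) :=
  cent_equiv _ (minusQF_nondeg m F hab') (minus_hn m hm) σ _ hι
    (isRat_minus i₀ m a₀ b₀) (SS _ (exists_ne_zero _ (minusQF_nondeg m F hab') (minus_hn m hm))
      (m + 1)) _ (scal_mem_SS _ (minusQF_nondeg m F hab') (minus_hn m hm) (minus_card m))
    (fun g₀ => (mapSim_mem_SS_iff (isRat_minus i₀ m a₀ b₀) (minusQF_nondeg m F hab')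
      (minus_hn m hm) (m + 1) g₀).symm)

/-- `SO(F) = Ω(F) SO(F₀)` in odd degree. -/
theorem minus_SO_cover (h2 : (2 : F) ≠ 0) (hodd : Odd (orderOf σ))
    (h' : ↥(Cfsg.isometryGroup F ⇑(minusQF m F (i₀ a₀) (i₀ b₀))))
    (hh : h' ∈ Cfsg.specialIsometryGroup F ⇑(minusQF m F (i₀ a₀) (i₀ b₀))) :
    ∃ e₀ ∈ SS (minusQF m F₀ a₀ b₀) (exists_ne_zero _ (minusQF_nondeg m F₀
      (aniso_desc a₀ b₀ hab')) (minus_hn m hm)) (m + 1),
      ofO _ h' * mapSim (isRat_minus i₀ m a₀ b₀) e₀ ∈ Oms (minusQF m F (i₀ a₀) (i₀ b₀)) := by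
  have hQ := minusQF_nondeg m F hab'
  have hn := minus_hn m hm
  have h2₀ : (2 : F₀) ≠ 0 := fun h => h2 ((two_iff i₀).1 h)
  by_cases hΩ : h' ∈ Cfsg.Omega F ⇑(minusQF m F (i₀ a₀) (i₀ b₀))
  · exact ⟨1, one_mem _, by rw [map_one, mul_one]; exact ofO_mem_Oms.2 hΩ⟩
  obtain ⟨η, hη⟩ := exists_nonsquare_of_two_ne h2₀
  have hη0 : η ≠ 0 := by rintro rfl; exact hη ⟨0, by simp⟩
  let i₁ : Fin m := ⟨0, by omega⟩
  let a : (Fin m ⊕ Fin m) ⊕ Fin 2 → F₀ := Pi.single (Sum.inr 0) 1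
  let b : (Fin m ⊕ Fin m) ⊕ Fin 2 → F₀ :=
    Pi.single (Sum.inl (Sum.inl i₁)) 1 + Pi.single (Sum.inl (Sum.inr i₁)) η
  have ha : minusQF m F₀ a₀ b₀ a = 1 := by
    rw [minusQF_apply]; simp [a]
  have hb : minusQF m F₀ a₀ b₀ b = η := by
    rw [minusQF_apply]
    simp [b, Pi.single_apply]
  let s : ↥(Cfsg.isometryGroup F₀ ⇑(minusQF m F₀ a₀ b₀)) := reflElt _ a * reflElt _ b
  have hs : ((s : GL ((Fin m ⊕ Fin m) ⊕ Fin 2) F₀) : Matrix _ _ F₀) =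
      ([a, b].map (fun v => Cfsg.reflectionMatrix ⇑(minusQF m F₀ a₀ b₀) v)).prod := by
    simp [s, reflElt_coe]
  have hvs : ∀ v ∈ [a, b], minusQF m F₀ a₀ b₀ v ≠ 0 := by
    intro v hv
    simp only [List.mem_cons, List.not_mem_nil, or_false] at hv
    rcases hv with rfl | rfl
    · rw [ha]; exact one_ne_zero
    · rw [hb]; exact hη0
  have hsdet : s ∈ Cfsg.specialIsometryGroup F₀ ⇑(minusQF m F₀ a₀ b₀) := by
    rw [mem_specialIsometryGroup, det_of_prod _ s [a, b] hvs hs]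
    simp
  have hsF : mapO (isRat_minus i₀ m a₀ b₀) s ∈
      Cfsg.specialIsometryGroup F ⇑(minusQF m F (i₀ a₀) (i₀ b₀)) := by
    rw [mem_specialIsometryGroup]
    have : (mapO (isRat_minus i₀ m a₀ b₀) s).1.1.det = i₀ (s.1.1.det) := by
      rw [RingHom.map_det]; rfl
    rw [this, mem_specialIsometryGroup.1 hsdet, map_one]
  have hsΩ : mapO (isRat_minus i₀ m a₀ b₀) s ∉ Cfsg.Omega F ⇑(minusQF m F (i₀ a₀) (i₀ b₀)) := by
    rw [mapO_mem_Omega_iff (isRat_minus i₀ m a₀ b₀) hQ (Or.inr (by omega)) s [a, b] hvs hs]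
    rintro ⟨-, h3⟩
    apply hη
    apply isSquare_of_odd hι hodd
    simpa [ha, hb] using h3
  refine ⟨ofO _ s, SO_le_SS h2₀ _ _ _ s hsdet, ?_⟩
  rw [mapSim_ofO, ← map_mul, ofO_mem_Oms]
  exact (mul_mem_iff_of_relIndex_two (index_Omega _ hQ (Or.inr (by omega)) (by omega)) hh hsF).2
    (by tauto)

theorem minus_count (hodd : Odd (orderOf σ)) :
    Cfsg.splitClassCount (DM m hm hab') (Cfsg.Inn _) (Th ⇑(minusQF m F (i₀ a₀) (i₀ b₀))
      (fG _ σ (inv_minus m σ (sig_fix σ hι a₀) (sig_fix σ hι b₀)))) = 1 := by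
  have hQ := minusQF_nondeg m F hab'
  have hn := minus_hn m hm
  have hex := exists_ne_zero _ hQ hn
  have hab₀ := aniso_desc a₀ b₀ hab'
  have hle : Cfsg.Inn (Cfsg.POmega F ⇑(minusQF m F (i₀ a₀) (i₀ b₀))) ≤ DM m hm hab' := by
    rw [inn_eq']
    exact Subgroup.map_mono (Oms_le_SS _ _ _)
  rw [splitClassCount_eq_relIndex _ _ hle, Subgroup.relIndex_eq_one]
  intro d hd
  by_cases h2 : (2 : F) = 0
  · apply Subgroup.mem_sup_left
    have : DM m hm hab' = Cfsg.Inn _ := SS_map_eq_inn _ h2 _ _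
    rwa [this] at hd
  have h2₀ : (2 : F₀) ≠ 0 := fun h => h2 ((two_iff i₀).1 h)
  obtain ⟨g, hg, rfl⟩ := hd
  obtain ⟨μ₀, ν, hμ⟩ := exists_sq_decomp h2 hι hodd (multF _ g)
  obtain ⟨δ₀, u₁, u₂, hu, hδmat, hδm⟩ := minus_exists_simil' h2₀ m hab₀ μ₀
  have hδS : δ₀ ∈ SS (minusQF m F₀ a₀ b₀) (exists_ne_zero _ (minusQF_nondeg m F₀ hab₀) hn)
      (m + 1) := by
    rw [mem_SS_odd h2₀, hδmat, det_minus_simil m a₀ b₀ u₁ u₂ _ hu, hδm]
  set hr := isRat_minus i₀ m a₀ b₀ with hhr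
  have hg₁S := (mapSim_mem_SS_iff hr hQ hn (m + 1) δ₀).2 hδS
  set k := scalSimil (minusQF m F (i₀ a₀) (i₀ b₀)) ν * mapSim hr δ₀ with hk
  have hkS : k ∈ SS _ hex (m + 1) := mul_mem (scal_mem_SS _ hQ hn (minus_card m) ν) hg₁S
  have hkm : multF _ k = multF _ g := by
    have h1 : multHom _ hex k = multHom _ hex (scalSimil _ ν) * multHom _ hex (mapSim hr δ₀) :=
      map_mul _ _ _
    rw [multHom_apply, multHom_apply, multHom_apply, multF_mapSim hr hex, hδm,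
      multF_unique hex (scalSimil _ ν) (ν * ν) (fun w => by
        rw [scalSimil_coe, Matrix.smul_mulVec, Matrix.one_mulVec, QuadraticMap.map_smul]
        simp)] at h1
    rw [h1, hμ, mul_comm]
  have hhS : g * k⁻¹ ∈ SS _ hex (m + 1) := mul_mem hg (inv_mem hkS)
  have hhm : multF _ (g * k⁻¹) = 1 := by
    have h1 : multHom _ hex (g * k⁻¹) = multHom _ hex g * (multHom _ hex k)⁻¹ := by
      rw [map_mul, map_inv]
    rw [multHom_apply, multHom_apply, multHom_apply, hkm, mul_inv_cancel] at h1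
    exact h1
  have hiso : (g * k⁻¹).1 ∈ Cfsg.isometryGroup F ⇑(minusQF m F (i₀ a₀) (i₀ b₀)) := by
    rw [mem_isometryGroup]
    intro v
    rw [multF_spec, hhm, Units.val_one, one_mul]
  have hSO : (⟨_, hiso⟩ : ↥(Cfsg.isometryGroup F ⇑(minusQF m F (i₀ a₀) (i₀ b₀)))) ∈
      Cfsg.specialIsometryGroup F ⇑(minusQF m F (i₀ a₀) (i₀ b₀)) := by
    rw [mem_specialIsometryGroup]
    rw [mem_SS_odd h2, hhm] at hhS
    simpa using hhS
  obtain ⟨e₀, he₀, hΩ⟩ := minus_SO_cover m hm σ hι a₀ b₀ hab' h2 hodd ⟨_, hiso⟩ hSO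
  have e1 : ofO _ (⟨_, hiso⟩ : ↥(Cfsg.isometryGroup F ⇑(minusQF m F (i₀ a₀) (i₀ b₀)))) = g * k⁻¹ :=
    rfl
  rw [e1] at hΩ
  have e2 : conjPOmega ⇑(minusQF m F (i₀ a₀) (i₀ b₀)) g =
      conjPOmega _ (g * k⁻¹ * mapSim hr e₀) * conjPOmega _ (mapSim hr (e₀⁻¹ * δ₀)) := by
    have h1 : conjPOmega ⇑(minusQF m F (i₀ a₀) (i₀ b₀)) (scalSimil _ ν) = 1 :=
      scal_mem_ker _ hQ hn ν
    have h3 : conjPOmega ⇑(minusQF m F (i₀ a₀) (i₀ b₀)) k = conjPOmega _ (mapSim hr δ₀) := by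
      rw [hk, map_mul, h1, one_mul]
    simp only [map_mul, map_inv, h3]
    group
  rw [e2]
  refine mul_mem (Subgroup.mem_sup_left ?_) (Subgroup.mem_sup_right ?_)
  · rw [inn_eq']
    exact ⟨_, hΩ, rfl⟩
  · rw [inf_comm]
    exact (minus_cent_iff m hm σ hι a₀ b₀ hab' _).2 ⟨_, mul_mem (inv_mem he₀) hδS, rfl⟩

end

end Cfsg.Agent.Lib.Helper43.PO
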