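import Cfsg.Agent.Lib.Helper43.PO.PlusRow

set_option autoImplicit false
set_option linter.unusedSectionVars false

/-!
Plus type: the coset of a field or graph-field automorphism of prime order (the row).
-/

namespace Cfsg.Agent.Lib.Helper43.PO

open Matrix QuadraticMap Module Cfsg.Agent.Lib.Helper13.OOut Cfsg.Agent.Lib.Helper43.PA
  Cfsg.Agent.Lib.Helper44

universe u v

variable {F : Type u} [Field F] {ι : Type} [Fintype ι] [DecidableEq ι]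

lemma Th_pow_eq_one_iff [Fintype F] (Q : QuadraticForm F (ι → F))
    (hQ : (polarBilin Q).Nondegenerate) (hn : 5 ≤ Fintype.card ι) (σ : F ≃+* F)
    (t₀ : GL ι F) (htσ : fieldGL σ t₀ = t₀) (hy₀ : pr t₀ σ ∈ Gam ⇑Q) (k : ℕ) :
    (Th ⇑Q ⟨pr t₀ σ, hy₀⟩) ^ k = 1 ↔ σ ^ k = 1 ∧ ∃ u : Fˣ, t₀ ^ k = scG u := by
  rw [← map_pow, Th_eq_one_iff Q hQ hn, Subgroup.coe_pow, pr_pow, pr_left, pr_right,
    nrmG_of_fixed htσ]

lemma conj_mul_Th_fG (Q : QuadraticForm F (ι → F)) (σ : F ≃+* F) (hinv : Inv Q σ)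
    (t₀ : ↥(Cfsg.Geo.quadSimilarityGroup ⇑Q)) :
    conjPOmega ⇑Q t₀ * Th ⇑Q (fG ⇑Q σ hinv) = Th ⇑Q ⟨pr t₀.1 σ, pr_mem_of_inv Q σ hinv t₀⟩ := by
  rw [← Th_inlG, MonoidHom.comp_apply, ← map_mul]
  congr 1
  exact Subtype.ext (inlG_mul_fG _ σ hinv t₀)

section

variable [Fintype F] (n : ℕ) (hn : 2 ≤ n) (σ : F ≃+* F)

local notation "Qp" => plusQF (n + 1) F

include hn

theorem plus_coset (hp : (orderOf σ).Prime) (t₀ : ↥(Cfsg.Geo.quadSimilarityGroup ⇑Qp))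
    (ht₀ : t₀ = 1 ∨ (orderOf σ = 2 ∧ ∃ v, Qp v ≠ 0 ∧ (∀ i, σ (v i) = v i) ∧
      t₀ = ofO Qp (reflElt Qp v)))
    (g : ↥(Cfsg.Geo.quadSimilarityGroup ⇑Qp))
    (hg : g ∈ SS Qp (exists_ne_zero Qp (plusQF_nondeg _ F) (plus_hn n hn)) (n + 1))
    (h : (conjPOmega ⇑Qp g * Th ⇑Qp ⟨pr t₀.1 σ, pr_mem_of_inv Qp σ (inv_plus _ σ) t₀⟩) ^
      (orderOf σ) = 1) :
    ∃ k ∈ SS Qp (exists_ne_zero Qp (plusQF_nondeg _ F) (plus_hn n hn)) (n + 1),
      conjPOmega ⇑Qp g * Th ⇑Qp ⟨pr t₀.1 σ, pr_mem_of_inv Qp σ (inv_plus _ σ) t₀⟩ =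
      conjPOmega ⇑Qp k * Th ⇑Qp ⟨pr t₀.1 σ, pr_mem_of_inv Qp σ (inv_plus _ σ) t₀⟩ *
        (conjPOmega ⇑Qp k)⁻¹ := by
  have hQ := plusQF_nondeg (n + 1) F
  have hn5 := plus_hn n hn
  have hsc := scal_mem_SS Qp hQ hn5 (plus_card (n + 1))
  have htwo : ∀ h t, h ∉ SS Qp (exists_ne_zero Qp hQ hn5) (n + 1) →
      t ∉ SS Qp (exists_ne_zero Qp hQ hn5) (n + 1) →
      h * t ∈ SS Qp (exists_ne_zero Qp hQ hn5) (n + 1) :=
    fun h t hh ht => mul_mem_SS Qp hQ hn5 (plus_card (n + 1)) hh ht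
  rcases ht₀ with rfl | ⟨h2, v, hv, hvσ, rfl⟩
  · obtain ⟨v, hv, hvσ⟩ := exists_fixed_plus (F := F) (n + 1) (by omega) σ
    refine coset_generic Qp hQ hn5 σ _ hsc htwo 1 (ofO Qp (reflElt Qp v)) _ (nrmG_one σ _)
      (refl_not_mem_SS (n := n + 1) Qp hQ hn5 v hv) (fieldGL_reflElt Qp σ (inv_plus _ σ) v hvσ)
      (by simp) ?_ g hg h
    intro g' hg' Q₁ Q₂ h1 h2
    have e1 : g'.1 * (1 : ↥(Cfsg.Geo.quadSimilarityGroup ⇑Qp)).1 = g'.1 := mul_one _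
    rw [e1] at h1
    have t1 := plus_hypT_of_mem n hn σ hp g' Q₁ h1 hg'
    have t2 := plus_hypT_of_mem n hn σ hp 1 Q₂ h2 (one_mem _)
    exact simRat_of_types σ (plus_card (n + 1)) Q₁ Q₂ h1.inv h2.inv (h1.nondeg hQ) (h2.nondeg hQ)
      (by simp [t1, t2])
  · have htS := refl_not_mem_SS (n := n + 1) Qp hQ hn5 v hv
    have htσ : fieldGL σ (ofO Qp (reflElt Qp v)).1 = (ofO Qp (reflElt Qp v)).1 :=
      fieldGL_reflElt Qp σ (inv_plus _ σ) v hvσ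
    have hN : nrmG σ (ofO Qp (reflElt Qp v)).1 (orderOf σ) = 1 := by
      rw [nrmG_of_fixed htσ, h2, pow_two]
      exact congrArg Subtype.val (reflElt_mul_self Qp v)
    refine coset_generic Qp hQ hn5 σ _ hsc htwo (ofO Qp (reflElt Qp v)) (ofO Qp (reflElt Qp v)) _ hN
      htS htσ rfl ?_ g hg h
    intro g' hg' Q₁ Q₂ h1 h3
    have t1 : ¬ HypT σ n Q₁ := by
      intro ht
      have := plus_mem_of_hypT n hn σ (g' * ofO Qp (reflElt Qp v)) Q₁ h1 ht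
      exact htS ((Subgroup.mul_mem_cancel_left _ hg').1 this)
    have t2 : ¬ HypT σ n Q₂ := fun ht => htS (plus_mem_of_hypT n hn σ _ Q₂ h3 ht)
    exact simRat_of_types σ (plus_card (n + 1)) Q₁ Q₂ h1.inv h3.inv (h1.nondeg hQ) (h3.nondeg hQ)
      (by simp [t1, t2])

end

/-- graph-field automorphisms, for a general form. -/
def GFgen (Qf : (ι → F) → F) (β : MulAut (Cfsg.POmega F Qf)) : Prop :=
  ∃ (α γ φ : MulAut (Cfsg.POmega F Qf)) (σ : F ≃+* F) (v : ι → F) (r : GL ι F),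
    σ ≠ RingEquiv.refl F ∧ Qf v ≠ 0 ∧ (∀ i, σ (v i) = v i) ∧
    (r : Matrix ι ι F) = Cfsg.reflectionMatrix Qf v ∧
    Cfsg.IsInducedBySemilinearPOmega Qf r (RingEquiv.refl F) γ ∧
    Cfsg.IsFieldAutPOmegaOf Qf σ φ ∧ α * β * α⁻¹ = γ * φ

lemma GFgen_iff (m : ℕ) (β : MulAut (Cfsg.POmega F (Cfsg.quadFormPlus m F))) :
    Cfsg.IsGraphFieldAutClassPOmegaPlus m β ↔ GFgen (Cfsg.quadFormPlus m F) β := Iff.rfl

theorem row_S2736 [Fintype F] {m : ℕ} (hm : 5 ≤ m)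
    (x δ : MulAut (Cfsg.POmega F (Cfsg.quadFormPlus m F)))
    (hx : Cfsg.IsFieldAutClassPOmega (Cfsg.quadFormPlus m F) x ∨
      Cfsg.IsGraphFieldAutClassPOmegaPlus m x) {r : ℕ} (hr : r.Prime) (hxr : orderOf x = r)
    (hδ : δ ∈ Cfsg.inndiagPOmegaPlus m F) :
    orderOf (δ * x) = r ↔ Cfsg.IsConjUnder (Cfsg.inndiagPOmegaPlus m F) x (δ * x) := by
  obtain ⟨n, rfl⟩ : ∃ n, m = n + 1 := ⟨m - 1, by omega⟩
  have hQ := plusQF_nondeg (n + 1) F
  have hn5 := plus_hn n (by omega)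
  have htop := Cfsg.Agent.Lib.Helper45.OAut.gamma_top_plus (F := F) hm
  rw [inndiagPlus_def] at hδ ⊢
  rw [GFgen_iff] at hx
  revert x δ
  rw [← plusQF_coe] at htop ⊢
  intro x δ hx hxr hδ
  rw [inndiagPlus_eq (n + 1) (by omega) (exists_ne_zero _ hQ hn5)] at hδ ⊢
  constructor
  · intro hy
    have hD := normal_SS_map (plusQF (n + 1) F) hQ hn5 (n + 1) htop
    have hy' : (δ * x) ^ r = 1 := hy ▸ pow_orderOf_eq_one _
    rcases hx with ⟨α, φ, σ, hσ, hstd, e⟩ | ⟨α, γ, φ, σ, v, rr, hσ, hv, hvσ, hrr, hγ, hstd, e⟩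
    · rw [(isFieldAut_iff _ σ (inv_plus _ σ) φ).1 hstd] at e
      have hord : orderOf σ = r := by
        rw [← orderOf_Th_fG _ hQ hn5 σ (inv_plus _ σ), ← e, orderOf_conj', hxr]
      refine conj_transport _ e hδ ?_ hy'
      rintro _ ⟨g, hg, rfl⟩ hgr
      rw [← hord] at hgr
      obtain ⟨k, hk, hh⟩ := plus_coset n (by omega) σ (hord ▸ hr) 1 (Or.inl rfl) g hg hgr
      exact ⟨_, ⟨k, hk, rfl⟩, hh⟩
    · rw [(isFieldAut_iff _ σ (inv_plus _ σ) φ).1 hstd] at e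
      have hrr' : rr = (ofO (plusQF (n + 1) F) (reflElt (plusQF (n + 1) F) v)).1 :=
        Units.ext (hrr.trans (reflElt_coe _ v).symm)
      rw [hrr'] at hγ
      rw [(isInduced_iff _ _ γ).1 hγ, conj_mul_Th_fG] at e
      have htσ : fieldGL σ (ofO (plusQF (n + 1) F) (reflElt (plusQF (n + 1) F) v)).1 =
          (ofO (plusQF (n + 1) F) (reflElt (plusQF (n + 1) F) v)).1 :=
        fieldGL_reflElt (plusQF (n + 1) F) σ (inv_plus _ σ) v hvσ
      have htS := refl_not_mem_SS (n := n + 1) (plusQF (n + 1) F) hQ hn5 v hv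
      have hx0 : orderOf (Th ⇑(plusQF (n + 1) F) ⟨pr (ofO (plusQF (n + 1) F)
          (reflElt (plusQF (n + 1) F) v)).1 σ, pr_mem_of_inv _ σ (inv_plus _ σ) _⟩) = r := by
        rw [← e, orderOf_conj', hxr]
      have h1 := (Th_pow_eq_one_iff _ hQ hn5 σ _ htσ (pr_mem_of_inv _ σ (inv_plus _ σ) _) r).1
        (hx0 ▸ pow_orderOf_eq_one _)
      have hord : orderOf σ = r := by
        rcases (Nat.dvd_prime hr).1 (orderOf_dvd_of_pow_eq_one h1.1) with h | h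
        · exact absurd (orderOf_eq_one_iff.1 h) hσ
        · exact h
      have hr2 : r = 2 := by
        rcases hr.eq_two_or_odd' with h | ⟨k, hk⟩
        · exact h
        · exfalso
          obtain ⟨u, hu⟩ := h1.2
          have hsq : (ofO (plusQF (n + 1) F) (reflElt (plusQF (n + 1) F) v)).1 ^ 2 = 1 := by
            rw [pow_two]
            exact congrArg Subtype.val (reflElt_mul_self (plusQF (n + 1) F) v)
          rw [hk, pow_succ, pow_mul, hsq, one_pow, one_mul] at hu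
          apply htS
          have : ofO (plusQF (n + 1) F) (reflElt (plusQF (n + 1) F) v) =
              scalSimil (plusQF (n + 1) F) u := Subtype.ext (by rw [scalSimil_val, hu])
          rw [this]
          exact scal_mem_SS _ hQ hn5 (plus_card (n + 1)) u
      refine conj_transport _ e hδ ?_ hy'
      rintro _ ⟨g, hg, rfl⟩ hgr
      rw [← hord] at hgr
      obtain ⟨k, hk, hh⟩ := plus_coset n (by omega) σ (hord ▸ hr) _
        (Or.inr ⟨hord.trans hr2, v, hv, hvσ, rfl⟩) g hg hgr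
      exact ⟨_, ⟨k, hk, rfl⟩, hh⟩
  · rintro ⟨h, -, e⟩
    rw [e, orderOf_conj', hxr]

end Cfsg.Agent.Lib.Helper43.PO
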