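import Cfsg.Agent.Lib.Helper43.PO.Trans
import Cfsg.Agent.Lib.Helper43.PO.PlusRow2

set_option autoImplicit false
set_option linter.unusedSectionVars false

/-!
Minus type: reduction of a field automorphism to a standard one, and the coset theorem.
-/

namespace Cfsg.Agent.Lib.Helper43.PO

open Matrix QuadraticMap Module Cfsg.Agent.Lib.Helper13.OOut Cfsg.Agent.Lib.Helper43.PA
  Cfsg.Agent.Lib.Helper44

universe u v

variable {F : Type u} [Field F]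

/-- anisotropy of the binary part. -/
def Aniso (a b : F) : Prop := ∀ z₁ z₂ : F, z₁ ^ 2 + a * z₁ * z₂ + b * z₂ ^ 2 = 0 → z₁ = 0 ∧ z₂ = 0

lemma map_congr_eq {G H : Type*} [Group G] [Group H] (ψ Ψ : G ≃* H) (D : Subgroup (MulAut G))
    (D' : Subgroup (MulAut H)) [hD' : D'.Normal] (h : D.map (MulAut.congr Ψ).toMonoidHom = D') :
    D.map (MulAut.congr ψ).toMonoidHom = D' := by
  have key : ∀ β : MulAut G, MulAut.congr ψ β =
      (Ψ.symm.trans ψ : MulAut H) * MulAut.congr Ψ β * (Ψ.symm.trans ψ : MulAut H)⁻¹ := by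
    intro β
    ext z
    simp [MulAut.congr, MulAut.inv_def]
  subst h
  ext y
  constructor
  · rintro ⟨β, hβ, rfl⟩
    show MulAut.congr ψ β ∈ _
    rw [key]
    exact hD'.conj_mem _ ⟨β, hβ, rfl⟩ _
  · intro hy
    have h1 := hD'.conj_mem y hy (Ψ.symm.trans ψ : MulAut H)⁻¹
    obtain ⟨β, hβ, e⟩ := h1
    refine ⟨β, hβ, ?_⟩
    show MulAut.congr ψ β = y
    have e' : MulAut.congr Ψ β = (Ψ.symm.trans ψ : MulAut H)⁻¹ * y * (Ψ.symm.trans ψ : MulAut H)⁻¹⁻¹ := e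
    rw [key, e']
    group

lemma inv_minus (m : ℕ) (σ : F ≃+* F) {a b : F} (ha : σ a = a) (hb : σ b = b) :
    Inv (minusQF m F a b) σ := by
  intro v
  simp [minusQF_apply, map_sum, ha, hb]

lemma exists_fixed_minus (m : ℕ) (σ : F ≃+* F) (a b : F) :
    ∃ v : (Fin m ⊕ Fin m) ⊕ Fin 2 → F, minusQF m F a b v ≠ 0 ∧ ∀ i, σ (v i) = v i := by
  refine ⟨Pi.single (Sum.inr 0) 1, ?_, fun i => ?_⟩
  · rw [minusQF_apply]
    simp
  · by_cases h : i = Sum.inr 0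
    · subst h; simp
    · simp [Pi.single_eq_of_ne h]

lemma minus_hn (m : ℕ) (hm : 2 ≤ m) : 5 ≤ Fintype.card ((Fin m ⊕ Fin m) ⊕ Fin 2) := by
  rw [minus_card]; omega

/-- field automorphisms of the minus type groups, in a form suited to substitution. -/
def FMgen {ι : Type} [Fintype ι] [DecidableEq ι] (Qf : (ι → F) → F) (Qf' : F → F → (ι → F) → F)
    (β : MulAut (Cfsg.POmega F Qf)) : Prop :=
  ∃ (a' b' : F) (ψ : Cfsg.POmega F Qf ≃* Cfsg.POmega F (Qf' a' b')) (σ : F ≃+* F),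
    (∀ z₁ z₂ : F, z₁ ^ 2 + a' * z₁ * z₂ + b' * z₂ ^ 2 = 0 → z₁ = 0 ∧ z₂ = 0) ∧
    σ ≠ RingEquiv.refl F ∧ σ a' = a' ∧ σ b' = b' ∧
    Cfsg.IsFieldAutPOmegaOf (Qf' a' b') σ ((ψ.symm.trans β).trans ψ)

lemma FMgen_iff (m : ℕ) {a b : F} (β : MulAut (Cfsg.POmega F (Cfsg.quadFormMinus m F a b))) :
    Cfsg.IsFieldAutClassPOmegaMinus m β ↔
      FMgen (Cfsg.quadFormMinus m F a b) (Cfsg.quadFormMinus m F) β := Iff.rfl

section

variable [Fintype F] (m : ℕ) (hm : 2 ≤ m)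

/-- the algebraic inner-diagonal group. -/
noncomputable def DM (hm : 2 ≤ m) {a b : F} (hab : Aniso a b) :
    Subgroup (MulAut (Cfsg.POmega F ⇑(minusQF m F a b))) :=
  (SS (minusQF m F a b) (exists_ne_zero _ (minusQF_nondeg m F hab) (minus_hn m hm)) (m + 1)).map
    (conjPOmega ⇑(minusQF m F a b))

include hm

theorem not_hypT_minus {a b : F} (hab : Aniso a b) (σ : F ≃+* F) (g : GL _ F)
    (Q₁ : QuadraticForm F _) (h1 : RatForm (minusQF m F a b) σ g Q₁) : ¬ HypT σ m Q₁ := by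
  intro h
  obtain ⟨h₀, ν, -, h3⟩ := h1.ex
  exact not_plus_minus hab ((hyp_sim_iff h₀ ν h3 (m + 1) (by omega)).1 h.up)

theorem minus_coset {a b : F} (hab : Aniso a b) (σ : F ≃+* F) (ha : σ a = a) (hb : σ b = b)
    (d : MulAut (Cfsg.POmega F ⇑(minusQF m F a b))) (hd : d ∈ DM m hm hab)
    (h : (d * Th ⇑(minusQF m F a b) (fG _ σ (inv_minus m σ ha hb))) ^ (orderOf σ) = 1) :
    ∃ k ∈ DM m hm hab, d * Th ⇑(minusQF m F a b) (fG _ σ (inv_minus m σ ha hb)) =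
      k * Th ⇑(minusQF m F a b) (fG _ σ (inv_minus m σ ha hb)) * k⁻¹ := by
  have hQ := minusQF_nondeg m F hab
  have hn5 := minus_hn m hm
  obtain ⟨g, hg, rfl⟩ := hd
  obtain ⟨v, hv, hvσ⟩ := exists_fixed_minus m σ a b
  obtain ⟨k, hk, e⟩ := coset_generic (minusQF m F a b) hQ hn5 σ _
    (scal_mem_SS _ hQ hn5 (minus_card m))
    (fun h t hh ht => mul_mem_SS _ hQ hn5 (minus_card m) hh ht) 1
    (ofO _ (reflElt (minusQF m F a b) v)) (fG _ σ (inv_minus m σ ha hb)).2 (nrmG_one σ _)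
    (refl_not_mem_SS (n := m + 1) _ hQ hn5 v hv)
    (fieldGL_reflElt _ σ (inv_minus m σ ha hb) v hvσ) (by simp) (by
      intro g' _ Q₁ Q₂ h1 h2
      exact simRat_of_types σ (minus_card m) Q₁ Q₂ h1.inv h2.inv (h1.nondeg hQ) (h2.nondeg hQ)
        (by simp [not_hypT_minus m hm hab σ _ Q₁ h1, not_hypT_minus m hm hab σ _ Q₂ h2]))
    g hg h
  exact ⟨_, ⟨k, hk, rfl⟩, e⟩

end

theorem minus_reduce [Fintype F] {m : ℕ} (hm : 3 ≤ m) {a b : F} (hab : Aniso a b)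
    (x : MulAut (Cfsg.POmega F ⇑(minusQF m F a b)))
    (hx : FMgen ⇑(minusQF m F a b) (fun a' b' => ⇑(minusQF m F a' b')) x) :
    ∃ (a' b' : F) (hab' : Aniso a' b') (σ : F ≃+* F) (ha : σ a' = a') (hb : σ b' = b')
      (Λ : MulAut (Cfsg.POmega F ⇑(minusQF m F a b)) ≃*
        MulAut (Cfsg.POmega F ⇑(minusQF m F a' b'))),
      σ ≠ 1 ∧ (DM m (by omega) hab).map Λ.toMonoidHom = DM m (by omega) hab' ∧
      (Cfsg.Inn _).map Λ.toMonoidHom = Cfsg.Inn _ ∧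
      Λ x = Th ⇑(minusQF m F a' b') (fG _ σ (inv_minus m σ ha hb)) := by
  obtain ⟨a', b', ψ, σ, hab', hσ, ha, hb, hstd⟩ := hx
  refine ⟨a', b', hab', σ, ha, hb, MulAut.congr ψ, hσ, ?_, inn_map_congr ψ, ?_⟩
  · obtain ⟨M, N, h1, h2, h3⟩ := minus_unique hab' hab m
    let T : Tr (minusQF m F a' b') (minusQF m F a b) := ⟨M, N, h1, h2, 1, fun w => by simp [h3]⟩
    have htop := Cfsg.Agent.Lib.Helper45.OAut.gamma_top_minus (F := F) hm a' b' hab'
    rw [← minusQF_coe] at htop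
    have hD' : (DM m (by omega) hab').Normal :=
      normal_SS_map _ (minusQF_nondeg m F hab') (minus_hn m (by omega)) (m + 1) htop
    exact map_congr_eq ψ T.Psi _ _ (T.map_SS (minusQF_nondeg m F hab') (minus_hn m (by omega))
      (minusQF_nondeg m F hab) (minus_hn m (by omega)) (m + 1))
  · exact (isFieldAut_iff _ σ (inv_minus m σ ha hb) _).1 hstd

theorem row_S2737_gen [Fintype F] {m : ℕ} (hm : 3 ≤ m) (a b : F) (hab : Aniso a b)
    (Qf : ((Fin m ⊕ Fin m) ⊕ Fin 2 → F) → F) (hQf : Qf = ⇑(minusQF m F a b))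
    (Qf' : F → F → ((Fin m ⊕ Fin m) ⊕ Fin 2 → F) → F)
    (hQf' : Qf' = fun a' b' => ⇑(minusQF m F a' b'))
    (x δ : MulAut (Cfsg.POmega F Qf)) (hx : FMgen Qf Qf' x) {r : ℕ} (hxr : orderOf x = r)
    (hδ : δ ∈ idGen Qf (fun g => Cfsg.PreservesSingularClassesMinus m a b
      (g : Matrix ((Fin m ⊕ Fin m) ⊕ Fin 2) ((Fin m ⊕ Fin m) ⊕ Fin 2) F))) :
    orderOf (δ * x) = r ↔ Cfsg.IsConjUnder (idGen Qf (fun g =>
      Cfsg.PreservesSingularClassesMinus m a b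
      (g : Matrix ((Fin m ⊕ Fin m) ⊕ Fin 2) ((Fin m ⊕ Fin m) ⊕ Fin 2) F))) x (δ * x) := by
  subst hQf hQf'
  rw [inndiagMinus_eq m (by omega) hab (exists_ne_zero _ (minusQF_nondeg m F hab)
    (minus_hn m (by omega)))] at hδ ⊢
  constructor
  · intro hy
    obtain ⟨a', b', hab', σ, ha, hb, Λ, hσ, hD, -, hΛx⟩ := minus_reduce hm hab x hx
    change Cfsg.IsConjUnder (DM m (by omega) hab) x (δ * x)
    rw [← isConjUnder_map_iff Λ _ _ hD, map_mul, hΛx]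
    have hord : orderOf σ = r := by
      rw [← orderOf_Th_fG _ (minusQF_nondeg m F hab') (minus_hn m (by omega)) σ
        (inv_minus m σ ha hb), ← hΛx, MulEquiv.orderOf_eq, hxr]
    have hΛδ : Λ δ ∈ DM m (by omega) hab' := by
      rw [← hD]
      exact ⟨δ, hδ, rfl⟩
    apply minus_coset m (by omega) hab' σ ha hb (Λ δ) hΛδ
    rw [← hΛx, ← map_mul, ← map_pow, hord, ← hy, pow_orderOf_eq_one, map_one]
  · rintro ⟨h, -, e⟩
    rw [e, orderOf_conj', hxr]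

end Cfsg.Agent.Lib.Helper43.PO
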