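import Cfsg.Agent.Lib.Helper43.PO.Coset
import Cfsg.Agent.Lib.Helper13.OOutD
import Cfsg.Agent.Lib.Helper45.OAutWrap
import Cfsg.Agent.S2618

set_option autoImplicit false
set_option linter.unusedSectionVars false

/-!
Odd-dimensional orthogonal groups: the coset of a field automorphism.
-/

namespace Cfsg.Agent.Lib.Helper43.PO

open Matrix QuadraticMap Cfsg.Agent.Lib.Helper13.OOut Cfsg.Agent.Lib.Helper43.PA
  Cfsg.Agent.Lib.Helper44

universe u

/-- every nondegenerate form of odd dimension over a finite field is similar to the standard one. -/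
theorem odd_std {K : Type*} [Field K] [Finite K] (m : ℕ)
    (P : QuadraticForm K (Unit ⊕ (Fin m ⊕ Fin m) → K)) (hP : (polarBilin P).Nondegenerate) :
    ∃ (k : GL (Unit ⊕ (Fin m ⊕ Fin m)) K) (l : Kˣ), ∀ w, P (k.1 *ᵥ w) = l * oddQF m K w := by
  obtain ⟨b, hb0, hb1, hb2, hb3, hb4⟩ := Cfsg.Agent.S2618.result (m := m) (by simp; ring) P hP
  let d : Kˣ := Units.mk0 _ hb0
  let wt : Unit ⊕ (Fin m ⊕ Fin m) → Kˣ := Sum.elim (fun _ => 1) (Sum.elim (fun _ => d) (fun _ => 1))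
  obtain ⟨k, hk⟩ := exists_GL_of_basis (b.unitsSMul wt)
  refine ⟨k, d, eq_of_basis P (oddQF m K) k d ?_ ?_⟩
  · intro i
    rw [hk, Module.Basis.unitsSMul_apply, Units.smul_def, QuadraticMap.map_smul, oddQF_apply]
    rcases i with _ | i | i
    · simp [wt, d]
    · simp [wt, (hb2 i).1]
    · simp [wt, (hb2 i).2]
  · intro i j
    rw [hk, hk, Module.Basis.unitsSMul_apply, Module.Basis.unitsSMul_apply, Units.smul_def,
      Units.smul_def, polar_smul_left, polar_smul_right]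
    rcases i with _ | i | i
    · rw [oddQF_polar_single_unit]
      rcases j with _ | j | j
      · rw [polar_self]
        simp [wt, d]
        ring
      · simp [wt, (hb1 j).1]
      · simp [wt, (hb1 j).2]
    · rw [oddQF_polar_single_inl]
      rcases j with _ | j | j
      · rw [polar_comm]
        simp [wt, (hb1 i).1]
      · simp [wt, (hb4 i j).1]
      · rw [hb3]
        by_cases h : i = j
        · subst h; simp [wt]
        · have h' : (Sum.inr (Sum.inr i) : Unit ⊕ (Fin m ⊕ Fin m)) ≠ Sum.inr (Sum.inr j) := by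
            simpa using h
          simp [wt, h]
    · rw [oddQF_polar_single_inr]
      rcases j with _ | j | j
      · rw [polar_comm]
        simp [wt, (hb1 i).2]
      · rw [polar_comm, hb3]
        by_cases h : j = i
        · subst h; simp [wt]
        · have h' : (Sum.inr (Sum.inl i) : Unit ⊕ (Fin m ⊕ Fin m)) ≠ Sum.inr (Sum.inl j) := by
            simpa using (Ne.symm h)
          simp [wt, h]
      · simp [wt, (hb4 i j).2]

variable {F : Type u} [Field F]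

lemma isRat_odd {F₀ : Type*} [Field F₀] (i₀ : F₀ →+* F) (m : ℕ) :
    IsRat i₀ (oddQF m F) (oddQF m F₀) := by
  intro w
  simp [oddQF_apply, up, map_sum]

lemma inv_odd (m : ℕ) (σ : F ≃+* F) : Inv (oddQF m F) σ := by
  intro v
  rw [oddQF_coe]
  exact quadFormOdd_sigma m σ v

lemma fixK_iff' (σ : F ≃+* F) (x : F) : σ x = x ↔ ∃ y, (fixK σ).subtype y = x := by
  constructor
  · intro h
    exact ⟨⟨x, mem_fixK.2 h⟩, rfl⟩
  · rintro ⟨y, rfl⟩
    exact mem_fixK.1 y.2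

theorem simRat_odd [Finite F] (m : ℕ) (σ : F ≃+* F)
    (Q₁ : QuadraticForm F (Unit ⊕ (Fin m ⊕ Fin m) → F)) (h1 : Inv Q₁ σ)
    (hnd : (polarBilin Q₁).Nondegenerate) : SimRat σ Q₁ (oddQF m F) := by
  obtain ⟨P₁, hP₁⟩ := exists_desc (fixK_iff' σ) Q₁ h1
  obtain ⟨k, l, hkl⟩ := odd_std m P₁ (hP₁.nondeg hnd)
  exact simRat_of_rat (fixK_iff' σ) hP₁ (isRat_odd _ m) k l hkl

variable [Fintype F]

lemma inndiagOdd_eq (m : ℕ) :
    Cfsg.inndiagPOmegaOdd m F = (conjPOmega (Cfsg.quadFormOdd m F)).range :=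
  pgoAut_eq _

theorem normal_pgoAut {ι : Type} [Fintype ι] [DecidableEq ι] (Q : QuadraticForm F (ι → F))
    (hQ : (polarBilin Q).Nondegenerate) (hn : 5 ≤ Fintype.card ι)
    (htop : Cfsg.gammaPOmega F ⇑Q = ⊤) : ((conjPOmega ⇑Q).range).Normal := by
  have hs := Th_surjective Q hQ hn htop
  have e : (conjPOmega ⇑Q).range = (lam ⇑Q).ker.map (Th ⇑Q) := by
    rw [← pgoAut_eq, pgoAut_eq_map]
  rw [e]
  exact Subgroup.Normal.map inferInstance _ hs

/-- the field coset, odd dimension. -/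
theorem field_coset_odd (h2 : (2 : F) ≠ 0) {m : ℕ} (hm : 3 ≤ m) (σ : F ≃+* F)
    (g : ↥(Cfsg.Geo.quadSimilarityGroup ⇑(oddQF m F)))
    (h : (conjPOmega ⇑(oddQF m F) g * Th ⇑(oddQF m F) (fG _ σ (inv_odd m σ))) ^ (orderOf σ) = 1) :
    ∃ h : ↥(Cfsg.Geo.quadSimilarityGroup ⇑(oddQF m F)),
      conjPOmega ⇑(oddQF m F) g * Th ⇑(oddQF m F) (fG _ σ (inv_odd m σ)) =
        conjPOmega ⇑(oddQF m F) h * Th ⇑(oddQF m F) (fG _ σ (inv_odd m σ)) *
          (conjPOmega ⇑(oddQF m F) h)⁻¹ := by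
  have hQ := oddQF_nondeg m F h2
  have hn : 5 ≤ Fintype.card (Unit ⊕ (Fin m ⊕ Fin m)) := by simp; omega
  have hex := exists_ne_zero (oddQF m F) hQ hn
  have hy : pr g.1 σ ∈ Gam ⇑(oddQF m F) := by
    rw [← inlG_mul_fG _ σ (inv_odd m σ) g]
    exact Subtype.property _
  have e : conjPOmega ⇑(oddQF m F) g * Th ⇑(oddQF m F) (fG _ σ (inv_odd m σ)) =
      Th ⇑(oddQF m F) ⟨pr g.1 σ, hy⟩ := by
    rw [← Th_inlG, MonoidHom.comp_apply, ← map_mul]
    congr 1
    exact Subtype.ext (inlG_mul_fG _ σ (inv_odd m σ) g)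
  rw [e] at h ⊢
  obtain ⟨v, hv⟩ := exists_norm_one _ hQ hn g.1 σ hy h
  have hy2 := pr_mem_of_simil (scG_mem (oddQF m F) v) hy
  obtain ⟨Q₁, hQ₁⟩ := exists_ratForm _ hex σ _ hy2 hv
  obtain ⟨k, -, hk⟩ := Th_conj_of_simRat (oddQF m F) hy2 (fG _ σ (inv_odd m σ)).2 hQ₁
    (ratForm_one (inv_odd m σ)) (simRat_odd m σ Q₁ hQ₁.inv (hQ₁.nondeg hQ))
  exact ⟨k, by rw [← Th_scG_mul _ hQ hn v, hk]; rfl⟩

theorem row_S2735 (hodd : Odd (Fintype.card F)) {m : ℕ} (hm : 3 ≤ m)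
    (x δ : MulAut (Cfsg.POmega F (Cfsg.quadFormOdd m F)))
    (hx : Cfsg.IsFieldAutClassPOmega (Cfsg.quadFormOdd m F) x) {r : ℕ}
    (hxr : orderOf x = r) (hδ : δ ∈ Cfsg.inndiagPOmegaOdd m F) :
    orderOf (δ * x) = r ↔ Cfsg.IsConjUnder (Cfsg.inndiagPOmegaOdd m F) x (δ * x) := by
  have h2 : (2 : F) ≠ 0 := two_ne_zero_of_odd_card hodd
  have hQ := oddQF_nondeg m F h2
  have hn : 5 ≤ Fintype.card (Unit ⊕ (Fin m ⊕ Fin m)) := by simp; omega
  have htop := Cfsg.Agent.Lib.Helper45.OAut.gamma_top_odd hodd hm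
  rw [inndiagOdd_eq] at hδ ⊢
  revert x δ
  rw [← oddQF_coe] at htop ⊢
  intro x δ hx hxr hδ
  constructor
  · intro hy
    have hD := normal_pgoAut (oddQF m F) hQ hn htop
    have hy' : (δ * x) ^ r = 1 := hy ▸ pow_orderOf_eq_one _
    obtain ⟨α, φ, σ, hσ, hstd, e⟩ := hx
    rw [(isFieldAut_iff _ σ (inv_odd m σ) φ).1 hstd] at e
    have hord : orderOf σ = r := by
      rw [← orderOf_Th_fG _ hQ hn σ (inv_odd m σ), ← e, orderOf_conj', hxr]
    refine conj_transport _ e hδ ?_ hy'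
    rintro _ ⟨g, rfl⟩ hg
    rw [← hord] at hg
    obtain ⟨h, hh⟩ := field_coset_odd h2 hm σ g hg
    exact ⟨_, ⟨h, rfl⟩, hh⟩
  · rintro ⟨h, -, e⟩
    rw [e, orderOf_conj', hxr]

end Cfsg.Agent.Lib.Helper43.PO
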