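import Cfsg.Agent.Lib.Helper43.PO.Types

set_option autoImplicit false
set_option linter.unusedSectionVars false

/-!
Plus type: the coset of a field or graph-field automorphism of prime order.
-/

namespace Cfsg.Agent.Lib.Helper43.PO

open Matrix QuadraticMap Module Cfsg.Agent.Lib.Helper13.OOut Cfsg.Agent.Lib.Helper43.PA
  Cfsg.Agent.Lib.Helper44

universe u v

variable {F : Type u} [Field F] {ι : Type} [Fintype ι] [DecidableEq ι]

lemma map_eq_fieldGL (σ : F ≃+* F) (g : GL ι F) :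
    Matrix.GeneralLinearGroup.map (σ : F →+* F) g = fieldGL σ g := Units.ext rfl

lemma Inv.isRat {Q : (ι → F) → F} {σ : F ≃+* F} (h : Inv Q σ) : IsRat (σ : F →+* F) Q Q := h

lemma nrmG_of_fixed {σ : F ≃+* F} {t : GL ι F} (h : fieldGL σ t = t) (k : ℕ) :
    nrmG σ t k = t ^ k := by
  induction k with
  | zero => rfl
  | succ k ih => rw [nrmG_succ, ih, map_pow, h, pow_succ']

section

variable [Fintype F] (Q : QuadraticForm F (ι → F)) (hQ : (polarBilin Q).Nondegenerate)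
  (hn : 5 ≤ Fintype.card ι) {n : ℕ} (hι : Fintype.card ι = 2 * n) (σ : F ≃+* F) (hinv : Inv Q σ)

include hQ hn hinv

lemma fieldGL_mem_SS_iff (h h' : ↥(Cfsg.Geo.quadSimilarityGroup ⇑Q)) (e : h'.1 = fieldGL σ h.1) :
    h' ∈ SS Q (exists_ne_zero Q hQ hn) n ↔ h ∈ SS Q (exists_ne_zero Q hQ hn) n := by
  have := mapSim_mem_SS_iff hinv.isRat hQ hn n h
  have e2 : mapSim hinv.isRat h = h' := Subtype.ext (by rw [mapSim_val, map_eq_fieldGL, e])
  rw [e2] at this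
  exact this

lemma fieldGL_mem_simil (h : ↥(Cfsg.Geo.quadSimilarityGroup ⇑Q)) :
    fieldGL σ h.1 ∈ Cfsg.Geo.quadSimilarityGroup ⇑Q := by
  rw [← map_eq_fieldGL]
  exact (mapSim hinv.isRat h).2

include hι

theorem lang_mem_SS (h g : ↥(Cfsg.Geo.quadSimilarityGroup ⇑Q))
    (e : g.1 = h.1 * (fieldGL σ h.1)⁻¹) : g ∈ SS Q (exists_ne_zero Q hQ hn) n := by
  set h' : ↥(Cfsg.Geo.quadSimilarityGroup ⇑Q) := ⟨fieldGL σ h.1, fieldGL_mem_simil Q hQ hn σ hinv h⟩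
  have hiff := fieldGL_mem_SS_iff (n := n) Q hQ hn σ hinv h h' rfl
  have eg : g = h * h'⁻¹ := Subtype.ext e
  rw [eg]
  by_cases hh : h ∈ SS Q (exists_ne_zero Q hQ hn) n
  · exact mul_mem hh (inv_mem (hiff.2 hh))
  · exact mul_mem_SS Q hQ hn hι hh (fun h1 => hh (hiff.1 (by simpa using h1)))

theorem lang_not_mem_SS (h g t : ↥(Cfsg.Geo.quadSimilarityGroup ⇑Q))
    (ht : t ∉ SS Q (exists_ne_zero Q hQ hn) n)
    (e : g.1 = h.1 * t.1 * (fieldGL σ h.1)⁻¹) : g ∉ SS Q (exists_ne_zero Q hQ hn) n := by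
  set h' : ↥(Cfsg.Geo.quadSimilarityGroup ⇑Q) := ⟨fieldGL σ h.1, fieldGL_mem_simil Q hQ hn σ hinv h⟩
  have hiff := fieldGL_mem_SS_iff (n := n) Q hQ hn σ hinv h h' rfl
  have eg : g = h * t * h'⁻¹ := Subtype.ext e
  intro hg
  rw [eg] at hg
  by_cases hh : h ∈ SS Q (exists_ne_zero Q hQ hn) n
  · apply ht
    have h1 := mul_mem (mul_mem (inv_mem hh) hg) (hiff.2 hh)
    have e1 : h⁻¹ * (h * t * h'⁻¹) * h' = t := by group
    rwa [e1] at h1
  · have h1 : t * h'⁻¹ ∈ SS Q (exists_ne_zero Q hQ hn) n :=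
      mul_mem_SS Q hQ hn hι ht (fun h1 => hh (hiff.1 (by simpa using h1)))
    apply hh
    have h3 := mul_mem hg (inv_mem h1)
    have e1 : h * t * h'⁻¹ * (t * h'⁻¹)⁻¹ = h := by group
    rwa [e1] at h3

end

/-! ### fixed reflections -/

section

variable (Q : QuadraticForm F (ι → F)) (σ : F ≃+* F) (hinv : Inv Q σ)

include hinv

lemma fieldGL_reflElt (v : ι → F) (hv : ∀ i, σ (v i) = v i) :
    fieldGL σ (reflElt Q v).1 = (reflElt Q v).1 := by
  apply Units.ext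
  rw [fieldGL_coe, reflElt_coe]
  have := reflectionMatrix_map hinv.isRat v
  have e : up (σ : F →+* F) v = v := funext hv
  rw [e] at this
  exact this

lemma pr_mem_of_inv (t : ↥(Cfsg.Geo.quadSimilarityGroup ⇑Q)) : pr t.1 σ ∈ Gam ⇑Q := by
  have := pr_mem_of_simil t.2 (fG ⇑Q σ hinv).2
  rwa [mul_one] at this

end

lemma inv_plus (m : ℕ) (σ : F ≃+* F) : Inv (plusQF m F) σ := by
  intro v
  simp [plusQF_apply, map_sum]

lemma exists_fixed_plus (m : ℕ) (hm : 1 ≤ m) (σ : F ≃+* F) :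
    ∃ v : Fin m ⊕ Fin m → F, plusQF m F v ≠ 0 ∧ ∀ i, σ (v i) = v i := by
  obtain ⟨w, hw⟩ := plus_hex (F := fixK σ) m hm
  refine ⟨up (fixK σ).subtype w, ?_, fun i => mem_fixK.1 (w i).2⟩
  rw [isRat_plus (fixK σ).subtype m w]
  intro h
  exact hw (Subtype.ext h)

/-! ### the classification hypotheses for the plus type -/

section

variable [Fintype F] (n : ℕ) (hn : 2 ≤ n) (σ : F ≃+* F)

local notation "Qp" => plusQF (n + 1) F

lemma plus_hn (hn : 2 ≤ n) : 5 ≤ Fintype.card (Fin (n + 1) ⊕ Fin (n + 1)) := by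
  rw [plus_card]; omega

include hn

/-- hyperbolic descent implies class preserving. -/
theorem plus_mem_of_hypT (g : ↥(Cfsg.Geo.quadSimilarityGroup ⇑Qp)) (Q₁ : QuadraticForm F _)
    (h1 : RatForm Qp σ g.1 Q₁) (h2 : HypT σ n Q₁) :
    g ∈ SS Qp (exists_ne_zero Qp (plusQF_nondeg _ F) (plus_hn n hn)) (n + 1) := by
  have hs := simRat_of_types σ (plus_card (n + 1)) Q₁ Qp h1.inv (inv_plus _ σ)
    (h1.nondeg (plusQF_nondeg _ F)) (plusQF_nondeg _ F) (by simp [h2, hypT_plus])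
  obtain ⟨h, hh, e⟩ := conj_of_ratForm h1 (ratForm_one (inv_plus _ σ)) hs
  exact lang_mem_SS Qp (plusQF_nondeg _ F) (plus_hn n hn) (plus_card _) σ (inv_plus _ σ) ⟨h, hh⟩ g
    (by rw [e, mul_one])

theorem plus_hypT_of_mem (hp : (orderOf σ).Prime)
    (g : ↥(Cfsg.Geo.quadSimilarityGroup ⇑Qp)) (Q₁ : QuadraticForm F _)
    (h1 : RatForm Qp σ g.1 Q₁)
    (hg : g ∈ SS Qp (exists_ne_zero Qp (plusQF_nondeg _ F) (plus_hn n hn)) (n + 1)) :
    HypT σ n Q₁ := by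
  have hQ := plusQF_nondeg (n + 1) F
  rcases hp.eq_two_or_odd' with h2 | hodd
  · by_contra hne
    obtain ⟨v, hv, hvσ⟩ := exists_fixed_plus (F := F) (n + 1) (by omega) σ
    set t := ofO Qp (reflElt Qp v) with ht
    have htS := refl_not_mem_SS (n := n + 1) Qp hQ (plus_hn n hn) v hv
    have htσ : fieldGL σ t.1 = t.1 := fieldGL_reflElt Qp σ (inv_plus _ σ) v hvσ
    have hN : nrmG σ t.1 (orderOf σ) = 1 := by
      rw [nrmG_of_fixed htσ, h2, pow_two]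
      exact congrArg Subtype.val (reflElt_mul_self Qp v)
    obtain ⟨Q₂, hQ₂⟩ := exists_ratForm Qp (exists_ne_zero Qp hQ (plus_hn n hn)) σ t.1
      (pr_mem_of_inv Qp σ (inv_plus _ σ) t) hN
    have hne2 : ¬ HypT σ n Q₂ := fun h => htS (plus_mem_of_hypT n hn σ t Q₂ hQ₂ h)
    have hs := simRat_of_types σ (plus_card (n + 1)) Q₁ Q₂ h1.inv hQ₂.inv
      (h1.nondeg hQ) (hQ₂.nondeg hQ) (by simp [hne, hne2])
    obtain ⟨h, hh, e⟩ := conj_of_ratForm h1 hQ₂ hs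
    exact lang_not_mem_SS Qp hQ (plus_hn n hn) (plus_card _) σ (inv_plus _ σ) ⟨h, hh⟩ g t htS e hg
  · obtain ⟨h₀, ν, -, h3⟩ := h1.ex
    exact hypT_of_odd hodd (plus_card (n + 1)) Q₁ h1.inv (h1.nondeg hQ)
      ((hyp_sim_iff h₀ ν h3 (n + 1) (by omega)).2 (IsoM.refl _))

end

end Cfsg.Agent.Lib.Helper43.PO
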