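import Cfsg.Agent.Lib.Helper43.PO.Spin
import Cfsg.Agent.Lib.Helper44.MinusSplit
import Cfsg.Agent.Lib.Helper44.CenterOmega

set_option autoImplicit false
set_option linter.unusedSectionVars false

/-!
The subgroup of the similarity group of an even dimensional form that induces the
inner-diagonal automorphisms, in algebraic terms: `det = mult ^ n` in odd characteristic,
scalars times `Ω` in characteristic two.
-/

namespace Cfsg.Agent.Lib.Helper43.PO

open Matrix QuadraticMap Cfsg.Agent.Lib.Helper13.OOut Cfsg.Agent.Lib.Helper43.PA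
  Cfsg.Agent.Lib.Helper44

universe u v

variable {F : Type u} [Field F] {ι : Type} [Fintype ι] [DecidableEq ι]

/-- the algebraic description. -/
noncomputable def SS (Q : QuadraticForm F (ι → F)) (hex : ∃ v, Q v ≠ 0) (n : ℕ) :
    Subgroup ↥(Cfsg.Geo.quadSimilarityGroup ⇑Q) :=
  open Classical in if (2 : F) = 0 then Oms Q ⊔ (conjPOmega ⇑Q).ker else (detMult Q hex n).ker

lemma SS_two (h2 : (2 : F) = 0) (Q : QuadraticForm F (ι → F)) (hex : ∃ v, Q v ≠ 0) (n : ℕ) :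
    SS Q hex n = Oms Q ⊔ (conjPOmega ⇑Q).ker := if_pos h2

lemma SS_odd (h2 : (2 : F) ≠ 0) (Q : QuadraticForm F (ι → F)) (hex : ∃ v, Q v ≠ 0) (n : ℕ) :
    SS Q hex n = (detMult Q hex n).ker := if_neg h2

lemma mem_SS_odd (h2 : (2 : F) ≠ 0) (Q : QuadraticForm F (ι → F)) (hex : ∃ v, Q v ≠ 0) (n : ℕ)
    (g : ↥(Cfsg.Geo.quadSimilarityGroup ⇑Q)) :
    g ∈ SS Q hex n ↔ ((g : GL ι F) : Matrix ι ι F).det = (multF Q g : F) ^ n := by
  rw [SS_odd h2, MonoidHom.mem_ker, detMult_eq_one_iff]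

/-! ### characteristic two -/

lemma decomp_two [Fintype F] (h2 : (2 : F) = 0) (Q : QuadraticForm F (ι → F))
    (g : ↥(Cfsg.Geo.quadSimilarityGroup ⇑Q)) :
    ∃ (ν : Fˣ) (h : ↥(Cfsg.isometryGroup F ⇑Q)), g.1 = scG ν * h.1 := by
  have : CharP F 2 := CharTwo.of_one_ne_zero_of_two_eq_zero one_ne_zero h2
  obtain ⟨ν, hν⟩ := FiniteField.isSquare_of_char_two (ringChar.eq F 2) (multF Q g : F)
  have hν0 : ν ≠ 0 := by
    rintro rfl
    rw [mul_zero] at hν
    exact (multF Q g).ne_zero hν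
  refine ⟨Units.mk0 ν hν0, ⟨scG (Units.mk0 ν hν0)⁻¹ * g.1, ?_⟩, ?_⟩
  · rw [mem_isometryGroup]
    intro v
    rw [Units.val_mul, ← mulVec_mulVec, scG_mulVec, QuadraticMap.map_smul, multF_spec, hν]
    simp only [Units.val_inv_eq_inv_val, Units.val_mk0, smul_eq_mul]
    field_simp
  · rw [← mul_assoc, ← map_mul, mul_inv_cancel, map_one, one_mul]

section

variable [Fintype F] (Q : QuadraticForm F (ι → F)) (hQ : (polarBilin Q).Nondegenerate)
  (hn : 5 ≤ Fintype.card ι)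

include hQ hn

lemma scal_mem_ker (v : Fˣ) : scalSimil Q v ∈ (conjPOmega ⇑Q).ker :=
  (mem_ker_conjPOmega_iff' Q hQ hn _).2 ⟨v, scalSimil_coe Q v⟩

lemma mem_ZOm_iff (h2 : (2 : F) = 0) (g : ↥(Cfsg.Geo.quadSimilarityGroup ⇑Q)) (ν : Fˣ)
    (h : ↥(Cfsg.isometryGroup F ⇑Q)) (e : g.1 = scG ν * h.1) :
    g ∈ Oms Q ⊔ (conjPOmega ⇑Q).ker ↔ h ∈ Cfsg.Omega F ⇑Q := by
  have hex := exists_ne_zero Q hQ hn
  have eg : g = ofO Q h * scalSimil Q ν := by
    apply Subtype.ext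
    rw [Subgroup.coe_mul, scalSimil_val, ofO_coe, e, scG_comm]
  constructor
  · intro hg
    rw [← SetLike.mem_coe, Subgroup.mul_normal] at hg
    obtain ⟨y, hy, z, hz, e2⟩ := Set.mem_mul.1 hg
    obtain ⟨t, ht, hty⟩ := mem_Oms.1 hy
    obtain ⟨μ, hμ⟩ := (mem_ker_conjPOmega_iff' Q hQ hn _).1 hz
    have e3 : ((h * t⁻¹ : ↥(Cfsg.isometryGroup F ⇑Q)) : GL ι F).1 =
        ((ν⁻¹ : Fˣ) * μ : F) • (1 : Matrix ι ι F) := by
      have e4 : g.1 = t.1 * z.1 := by rw [← e2, Subgroup.coe_mul, hty]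
      have e5 : h.1 = scG ν⁻¹ * (t.1 * z.1) := by
        rw [← e4, e, ← mul_assoc, ← map_mul, inv_mul_cancel, map_one, one_mul]
      have e6 : h.1 * t.1⁻¹ = scG ν⁻¹ * z.1 := by
        have hz' : t.1 * z.1 = z.1 * t.1 := by
          apply Units.ext
          rw [Units.val_mul, Units.val_mul, hμ]
          simp
        rw [e5, hz', ← mul_assoc, mul_inv_cancel_right]
      rw [Subgroup.coe_mul, InvMemClass.coe_inv, e6, Units.val_mul, scG_coe', hμ]
      simp [mul_smul, smul_comm μ]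
    have h1 : ((ν⁻¹ : Fˣ) * μ : F) = 1 := by
      rcases scalar_isometry_eq hex (h * t⁻¹).2 e3 with h' | h'
      · exact h'
      · rw [h']
        linear_combination -h2
    rw [h1, one_smul] at e3
    have : h * t⁻¹ = 1 := by
      apply isometryGroup_ext
      rw [e3]; simp
    rw [mul_inv_eq_one] at this
    rw [this]; exact ht
  · intro hh
    rw [eg]
    exact mul_mem (Subgroup.mem_sup_left (ofO_mem_Oms.2 hh))
      (Subgroup.mem_sup_right (scal_mem_ker Q hQ hn ν))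

/-- scalars -/
lemma scal_mem_SS {n : ℕ} (hι : Fintype.card ι = 2 * n) (v : Fˣ) :
    scalSimil Q v ∈ SS Q (exists_ne_zero Q hQ hn) n := by
  by_cases h2 : (2 : F) = 0
  · rw [SS_two h2]
    exact Subgroup.mem_sup_right (scal_mem_ker Q hQ hn v)
  · rw [mem_SS_odd h2, scalSimil_coe, Matrix.det_smul, Matrix.det_one, mul_one, hι,
      multF_unique (exists_ne_zero Q hQ hn) (scalSimil Q v) (v * v) (fun w => by
        rw [scalSimil_coe, Matrix.smul_mulVec, Matrix.one_mulVec, QuadraticMap.map_smul]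
        simp)]
    push_cast
    ring

lemma ker_le_SS {n : ℕ} (hι : Fintype.card ι = 2 * n) :
    (conjPOmega ⇑Q).ker ≤ SS Q (exists_ne_zero Q hQ hn) n := by
  have hne : Nonempty ι := by
    rw [← Fintype.card_pos_iff]; omega
  intro g hg
  obtain ⟨μ, hμ⟩ := (mem_ker_conjPOmega_iff' Q hQ hn _).1 hg
  obtain ⟨u, hu⟩ := exists_scG_of_smul hμ
  have : g = scalSimil Q u := Subtype.ext (by rw [scalSimil_val, hu])
  rw [this]
  exact scal_mem_SS Q hQ hn hι u

/-- index two -/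
lemma mul_mem_SS {n : ℕ} (hι : Fintype.card ι = 2 * n)
    {h t : ↥(Cfsg.Geo.quadSimilarityGroup ⇑Q)} (hh : h ∉ SS Q (exists_ne_zero Q hQ hn) n)
    (ht : t ∉ SS Q (exists_ne_zero Q hQ hn) n) : h * t ∈ SS Q (exists_ne_zero Q hQ hn) n := by
  by_cases h2 : (2 : F) = 0
  · rw [SS_two h2] at hh ht ⊢
    obtain ⟨ν, h', e⟩ := decomp_two h2 Q h
    obtain ⟨ν', t', e'⟩ := decomp_two h2 Q t
    rw [mem_ZOm_iff Q hQ hn h2 h ν h' e] at hh
    rw [mem_ZOm_iff Q hQ hn h2 t ν' t' e'] at ht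
    rw [mem_ZOm_iff Q hQ hn h2 (h * t) (ν * ν') (h' * t') (by
      rw [Subgroup.coe_mul, Subgroup.coe_mul, e, e', map_mul, mul_assoc, mul_assoc,
        ← mul_assoc h'.1, ← scG_comm, mul_assoc])]
    exact (Subgroup.mul_mem_iff_of_index_two
      (index_Omega_char_two h2 Q hQ (Or.inr (by omega)) (by omega))).2 (by tauto)
  · rw [SS_odd h2, MonoidHom.mem_ker] at hh ht ⊢
    have h1 := (detMult_eq_or hQ (exists_ne_zero Q hQ hn) n hι h).resolve_left hh
    have h3 := (detMult_eq_or hQ (exists_ne_zero Q hQ hn) n hι t).resolve_left ht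
    rw [map_mul, h1, h3]
    simp

/-- reflections -/
lemma refl_not_mem_SS {n : ℕ} (v : ι → F) (hv : Q v ≠ 0) :
    ofO Q (reflElt Q v) ∉ SS Q (exists_ne_zero Q hQ hn) n := by
  have hl : ((reflElt Q v : GL ι F) : Matrix ι ι F) =
      ([v].map (fun v => Cfsg.reflectionMatrix ⇑Q v)).prod := by
    rw [reflElt_coe]; simp
  have hvs : ∀ w ∈ [v], Q w ≠ 0 := by
    intro w hw
    rw [List.mem_singleton] at hw
    rw [hw]; exact hv
  by_cases h2 : (2 : F) = 0
  · have : CharP F 2 := CharTwo.of_one_ne_zero_of_two_eq_zero one_ne_zero h2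
    rw [SS_two h2, mem_ZOm_iff Q hQ hn h2 _ 1 (reflElt Q v) (by rw [map_one, one_mul]; rfl),
      mem_Omega_iff_of_prod_char_two Q hQ (Or.inr (by omega)) _ [v] hvs hl]
    simp
  · have hm : multF Q (ofO Q (reflElt Q v)) = 1 :=
      multF_eq_one_of_isometry (exists_ne_zero Q hQ hn) (ofO Q (reflElt Q v)) (reflElt Q v).2
    rw [mem_SS_odd h2, ofO_coe, det_of_prod Q _ [v] hvs hl, hm]
    simp only [List.length_cons, List.length_nil, zero_add, pow_one, Units.val_one, one_pow]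
    intro h
    apply h2
    linear_combination -h

end

end Cfsg.Agent.Lib.Helper43.PO
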