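import Cfsg.Agent.Lib.Helper43.PO.SS

set_option autoImplicit false
set_option linter.unusedSectionVars false

/-!
Base change for `SS`, and the comparison with the geometric definition.
-/

namespace Cfsg.Agent.Lib.Helper43.PO

open Matrix QuadraticMap Module Cfsg.Agent.Lib.Helper13.OOut Cfsg.Agent.Lib.Helper43.PA
  Cfsg.Agent.Lib.Helper44

universe u v

variable {F : Type u} [Field F] {ι : Type} [Fintype ι] [DecidableEq ι]
variable {F₀ : Type v} [Field F₀] {i₀ : F₀ →+* F}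

lemma two_iff (i₀ : F₀ →+* F) : (2 : F₀) = 0 ↔ (2 : F) = 0 := by
  rw [← map_ofNat i₀ 2, map_eq_zero]

section base

variable {Q : QuadraticForm F (ι → F)} {Q₀ : QuadraticForm F₀ (ι → F₀)} (hr : IsRat i₀ Q Q₀)

include hr

lemma multF_mapSim (hex : ∃ v, Q v ≠ 0) (g₀ : ↥(Cfsg.Geo.quadSimilarityGroup ⇑Q₀)) :
    multF Q (mapSim hr g₀) = Units.map i₀.toMonoidHom (multF Q₀ g₀) := by
  apply multF_unique hex
  have e : Q.comp (Matrix.mulVecLin (Matrix.GeneralLinearGroup.map i₀ g₀.1).1) =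
      ((Units.map i₀.toMonoidHom (multF Q₀ g₀) : Fˣ) : F) • Q := by
    apply quad_ext_rat i₀
    intro w
    show Q ((g₀.1.1.map i₀) *ᵥ up i₀ w) = i₀ (multF Q₀ g₀) * Q (up i₀ w)
    rw [← up_mulVec, hr, multF_spec, hr, map_mul]
  intro v
  exact congrArg (fun q : QuadraticForm F (ι → F) => q v) e

theorem mapSim_mem_SS_iff [Fintype F] [Fintype F₀] (hQ : (polarBilin Q).Nondegenerate)
    (hn : 5 ≤ Fintype.card ι) (n : ℕ) (g₀ : ↥(Cfsg.Geo.quadSimilarityGroup ⇑Q₀)) :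
    mapSim hr g₀ ∈ SS Q (exists_ne_zero Q hQ hn) n ↔
      g₀ ∈ SS Q₀ (exists_ne_zero Q₀ (hr.nondeg hQ) hn) n := by
  have hQ₀ := hr.nondeg hQ
  by_cases h2 : (2 : F) = 0
  · have h2' : (2 : F₀) = 0 := (two_iff i₀).2 h2
    have : CharP F 2 := CharTwo.of_one_ne_zero_of_two_eq_zero one_ne_zero h2
    have : CharP F₀ 2 := CharTwo.of_one_ne_zero_of_two_eq_zero one_ne_zero h2'
    obtain ⟨ν, h, e⟩ := decomp_two h2' Q₀ g₀
    obtain ⟨l, hl, hgl⟩ := exists_list_reflectionMatrix Q₀ hQ₀ (Or.inr (by omega)) h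
    rw [SS_two h2, SS_two h2', mem_ZOm_iff Q₀ hQ₀ hn h2' g₀ ν h e,
      mem_ZOm_iff Q hQ hn h2 (mapSim hr g₀) (Units.map i₀.toMonoidHom ν) (mapO hr h) (by
        rw [mapSim_val, e, map_mul, map_scG, mapO_val]),
      mapO_mem_Omega_iff hr hQ (Or.inr (by omega)) h l hl hgl,
      mem_Omega_iff_of_prod_char_two Q₀ hQ₀ (Or.inr (by omega)) h l hl hgl]
    constructor
    · intro h; exact h.1
    · intro h; exact ⟨h, FiniteField.isSquare_of_char_two (ringChar.eq F 2) _⟩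
  · have h2' : (2 : F₀) ≠ 0 := fun h => h2 ((two_iff i₀).1 h)
    rw [mem_SS_odd h2, mem_SS_odd h2', multF_mapSim hr (exists_ne_zero Q hQ hn)]
    have hdet : ((mapSim hr g₀ : GL ι F) : Matrix ι ι F).det = i₀ (g₀.1.1.det) := by
      rw [RingHom.map_det]; rfl
    rw [hdet]
    have e2 : ((Units.map i₀.toMonoidHom (multF Q₀ g₀) : Fˣ) : F) = i₀ (multF Q₀ g₀ : F₀) := rfl
    rw [e2, ← map_pow]
    exact i₀.injective.eq_iff

end base

/-! ### the geometric definition -/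

/-- the subgroup generated by the automorphisms induced by the similarities satisfying `P`. -/
def idGen (Qf : (ι → F) → F) (P : GL ι F → Prop) : Subgroup (MulAut (Cfsg.POmega F Qf)) :=
  Cfsg.autSubgroupOf (fun β : Cfsg.POmega F Qf ≃* Cfsg.POmega F Qf =>
      ∃ g : GL ι F, g ∈ Cfsg.Geo.quadSimilarityGroup Qf ∧ P g ∧
        Cfsg.IsInducedBySemilinearPOmega Qf g (RingEquiv.refl F) β)

theorem autSubgroupOf_eq_map_S (Qf : (ι → F) → F)
    (S : Subgroup ↥(Cfsg.Geo.quadSimilarityGroup Qf))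
    (P : GL ι F → Prop) (hP : ∀ g : ↥(Cfsg.Geo.quadSimilarityGroup Qf), P (g : GL ι F) ↔ g ∈ S) :
    idGen Qf P = S.map (conjPOmega Qf) := by
  unfold idGen
  have h1 := autSubgroupOf_eq_map Qf (fun g => g ∈ Cfsg.Geo.quadSimilarityGroup Qf ∧ P g)
    (fun g hg => hg.1)
  have h2 : {g : ↥(Cfsg.Geo.quadSimilarityGroup Qf) |
      (g : GL ι F) ∈ Cfsg.Geo.quadSimilarityGroup Qf ∧ P (g : GL ι F)} = (S : Set _) := by
    ext g
    simp only [Set.mem_ofPred_eq, SetLike.mem_coe, ← hP g]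
    exact ⟨fun h => h.2, fun h => ⟨g.2, h⟩⟩
  rw [h2, Subgroup.closure_eq] at h1
  rw [← h1]
  congr 1
  funext β
  simp only [and_assoc]

theorem preserves_iff_even [Finite F] {Q : QuadraticForm F (ι → F)}
    (hQ : (polarBilin Q).Nondegenerate) {m : ℕ} (hm : Fintype.card ι = 2 * m) (hT : T3 Q m)
    {U₀ : Submodule F (ι → F)} (hU₀ : MS Q m U₀) (g : ↥(Cfsg.Geo.quadSimilarityGroup ⇑Q)) :
    Cfsg.PreservesSingularClasses ⇑Q ((g : GL ι F) : Matrix ι ι F) ↔
      Even (m - finrank F ↥(U₀ ⊓ U₀.map (Matrix.toLin' ((g : GL ι F) : Matrix ι ι F)))) := by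
  constructor
  · intro h
    have := h U₀ (isMax_of_MS hQ hm hU₀)
    rw [Cfsg.SameParityClass, Cfsg.imageSubmodule, hU₀.1] at this
    exact this
  · intro h U hU
    rw [isMax_iff_MS hQ hm hU₀] at hU
    rw [Cfsg.SameParityClass, Cfsg.imageSubmodule, hU.1]
    exact (parity_transfer hT g hU hU₀).2 h

theorem preserves_iff_two [Fintype F] (h2 : (2 : F) = 0) {Q : QuadraticForm F (ι → F)}
    (hQ : (polarBilin Q).Nondegenerate) (hn : 5 ≤ Fintype.card ι) {m : ℕ}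
    (hm : Fintype.card ι = 2 * m) (hT : T3 Q m)
    {U₀ : Submodule F (ι → F)} (hU₀ : MS Q m U₀) (g : ↥(Cfsg.Geo.quadSimilarityGroup ⇑Q)) :
    Cfsg.PreservesSingularClasses ⇑Q ((g : GL ι F) : Matrix ι ι F) ↔
      g ∈ Oms Q ⊔ (conjPOmega ⇑Q).ker := by
  have : CharP F 2 := CharTwo.of_one_ne_zero_of_two_eq_zero one_ne_zero h2
  obtain ⟨ν, h, e⟩ := decomp_two h2 Q g
  obtain ⟨l, hl, hgl⟩ := exists_list_reflectionMatrix Q hQ (Or.inr (by omega)) h
  rw [preserves_iff_even hQ hm hT hU₀, mem_ZOm_iff Q hQ hn h2 g ν h e,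
    mem_Omega_iff_of_prod_char_two Q hQ (Or.inr (by omega)) h l hl hgl]
  have e1 : Matrix.toLin' ((g : GL ι F) : Matrix ι ι F) =
      (ν : F) • Matrix.mulVecLin ((h : GL ι F) : Matrix ι ι F) := by
    rw [e, Units.val_mul, scG_coe', Matrix.toLin'_apply']
    apply LinearMap.ext
    intro x
    simp
  rw [e1, Submodule.map_smul _ _ _ ν.ne_zero]
  have h3 := even_finrank_inf_map_of_prod Q hQ hU₀.2 (by rw [hU₀.1, hm]) h l hl hgl
  have h4 : finrank F ↥(U₀ ⊓ U₀.map (Matrix.mulVecLin ((h : GL ι F) : Matrix ι ι F))) ≤ m := by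
    conv_rhs => rw [← hU₀.1]
    exact Submodule.finrank_mono inf_le_left
  rw [hU₀.1] at h3
  rw [Nat.even_iff] at h3
  rw [Nat.even_iff, Nat.even_iff]
  omega

/-- forms isometric to the hyperbolic form. -/
theorem hyp_data {K : Type u} [Field K] (Q : QuadraticForm K (ι → K)) (m : ℕ) (hm1 : 1 ≤ m)
    (Te : (ι → K) ≃ₗ[K] (Fin m ⊕ Fin m → K)) (hT : ∀ v, plusQF m K (Te v) = Q v) :
    (polarBilin Q).Nondegenerate ∧ T3 Q m ∧ ∃ U₀, MS Q m U₀ := by
  have hpol : ∀ x y, polar (plusQF m K) (Te x) (Te y) = polar Q x y := by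
    intro x y
    simp only [polar, ← map_add, hT]
  have hQ : (polarBilin Q).Nondegenerate := by
    apply nondeg_of_sep
    intro x hx
    apply Te.injective
    rw [map_zero]
    apply (plusQF_nondeg m K).1
    intro w
    obtain ⟨y, rfl⟩ := Te.surjective w
    rw [polarBilin_apply_apply, hpol]
    exact hx y
  have hMS : ∀ U : Submodule K (ι → K), MS Q m U →
      MS (plusQF m K) m (U.map (Te : (ι → K) →ₗ[K] (Fin m ⊕ Fin m → K))) := by
    intro U hU
    refine ⟨by rw [LinearEquiv.finrank_map_eq]; exact hU.1, ?_⟩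
    rintro _ ⟨u, hu, rfl⟩
    change plusQF m K (Te u) = 0
    rw [hT]; exact hU.2 u hu
  have hT3 : T3 Q m := by
    intro U W X hU hW hX
    have := plus_T3 (F := K) m hm1 _ _ _ (hMS U hU) (hMS W hW) (hMS X hX)
    rw [← Submodule.map_inf _ Te.injective, ← Submodule.map_inf _ Te.injective,
      ← Submodule.map_inf _ Te.injective, LinearEquiv.finrank_map_eq, LinearEquiv.finrank_map_eq,
      LinearEquiv.finrank_map_eq] at this
    exact this
  refine ⟨hQ, hT3, (U0 m K).map (Te.symm : (Fin m ⊕ Fin m → K) →ₗ[K] (ι → K)), ?_, ?_⟩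
  · rw [LinearEquiv.finrank_map_eq]; exact finrank_U0
  · rintro _ ⟨u, hu, rfl⟩
    change Q (Te.symm u) = 0
    rw [← hT, LinearEquiv.apply_symm_apply]
    exact U0_sing u hu

/-! ### plus type -/

theorem plus_preserves_iff_SS [Fintype F] (m : ℕ) (hm : 3 ≤ m)
    (hex : ∃ v, plusQF m F v ≠ 0)
    (g : ↥(Cfsg.Geo.quadSimilarityGroup ⇑(plusQF m F))) :
    Cfsg.PreservesSingularClasses ⇑(plusQF m F)
      ((g : GL (Fin m ⊕ Fin m) F) : Matrix (Fin m ⊕ Fin m) (Fin m ⊕ Fin m) F) ↔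
    g ∈ SS (plusQF m F) hex m := by
  by_cases h2 : (2 : F) = 0
  · rw [SS_two h2]
    exact preserves_iff_two h2 (plusQF_nondeg m F) (by rw [plus_card]; omega) (plus_card m)
      (plus_T3 m (by omega)) (plus_MS_U0 m) g
  · rw [mem_SS_odd h2]
    exact plus_preserves_iff h2 m (by omega) g

lemma inndiagPlus_def (m : ℕ) : Cfsg.inndiagPOmegaPlus m F = idGen (Cfsg.quadFormPlus m F)
    (fun g => Cfsg.PreservesSingularClasses (Cfsg.quadFormPlus m F)
      (g : Matrix (Fin m ⊕ Fin m) (Fin m ⊕ Fin m) F)) := rfl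

theorem inndiagPlus_eq [Fintype F] (m : ℕ) (hm : 3 ≤ m) (hex : ∃ v, plusQF m F v ≠ 0) :
    idGen ⇑(plusQF m F) (fun g => Cfsg.PreservesSingularClasses ⇑(plusQF m F)
      (g : Matrix (Fin m ⊕ Fin m) (Fin m ⊕ Fin m) F)) =
      (SS (plusQF m F) hex m).map (conjPOmega ⇑(plusQF m F)) :=
  autSubgroupOf_eq_map_S ⇑(plusQF m F) (SS (plusQF m F) hex m)
    (fun g => Cfsg.PreservesSingularClasses ⇑(plusQF m F)
      (g : Matrix (Fin m ⊕ Fin m) (Fin m ⊕ Fin m) F)) (fun g => plus_preserves_iff_SS m hm hex g)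

/-! ### minus type -/

lemma isRat_minus (i₀ : F₀ →+* F) (m : ℕ) (a b : F₀) :
    IsRat i₀ (minusQF m F (i₀ a) (i₀ b)) (minusQF m F₀ a b) := by
  intro w
  simp [minusQF_apply, up, map_sum]

lemma isRat_plus (i₀ : F₀ →+* F) (m : ℕ) : IsRat i₀ (plusQF m F) (plusQF m F₀) := by
  intro w
  simp [plusQF_apply, up, map_sum]

theorem minus_preserves_two_aux [Fintype F] (h2 : (2 : F) = 0) (m : ℕ) (hm : 2 ≤ m) {a b : F}
    (hab : ∀ z₁ z₂ : F, z₁ ^ 2 + a * z₁ * z₂ + b * z₂ ^ 2 = 0 → z₁ = 0 ∧ z₂ = 0)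
    (g : ↥(Cfsg.Geo.quadSimilarityGroup ⇑(minusQF m F a b)))
    (K : Type u) [Field K] [Algebra F K] (hK : finrank F K = 2) :
    Cfsg.PreservesSingularClasses (Cfsg.quadFormMinus m K (algebraMap F K a) (algebraMap F K b))
      (((g : GL ((Fin m ⊕ Fin m) ⊕ Fin 2) F) : Matrix ((Fin m ⊕ Fin m) ⊕ Fin 2) ((Fin m ⊕ Fin m) ⊕ Fin 2) F).map (algebraMap F K)) ↔
    g ∈ Oms (minusQF m F a b) ⊔ (conjPOmega ⇑(minusQF m F a b)).ker := by
  have : Module.Finite F K := Module.finite_of_finrank_pos (by omega)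
  have : Finite K := Module.finite_of_finite F
  have : Fintype K := Fintype.ofFinite K
  have : CharP F 2 := CharTwo.of_one_ne_zero_of_two_eq_zero one_ne_zero h2
  have h2K : (2 : K) = 0 := (two_iff (algebraMap F K)).1 h2
  have hcard : Fintype.card K = Fintype.card F ^ 2 := by
    rw [Module.card_eq_pow_finrank (K := F) (V := K), hK]
  obtain ⟨θ, hθ⟩ := Cfsg.Agent.Lib.Helper45.exists_root_quadratic hcard (algebraMap F K) a b (by
    intro z hz
    have := hab z 1 (by linear_combination hz)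
    exact one_ne_zero this.2)
  have ha : a ≠ 0 := by
    rintro rfl
    obtain ⟨s, hs⟩ := FiniteField.isSquare_of_char_two (ringChar.eq F 2) b
    have := hab s 1 (by rw [hs]; linear_combination (s * s) * h2)
    exact one_ne_zero this.2
  have hne : θ ≠ -(algebraMap F K a) - θ := by
    intro h
    have : algebraMap F K a = 0 := by linear_combination h - θ * h2K
    exact ha ((map_eq_zero _).1 this)
  let Te := (minusT m θ (-(algebraMap F K a) - θ)).linearEquivOfInjective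
    (minusT_injective m hne) (by
      rw [Module.finrank_fintype_fun_eq_card, Module.finrank_fintype_fun_eq_card, minus_card,
        plus_card])
  obtain ⟨hQK, hT3, U₀, hU₀⟩ := hyp_data (minusQF m K (algebraMap F K a) (algebraMap F K b)) (m + 1)
    (by omega) Te (by
    intro v
    rw [LinearMap.linearEquivOfInjective_apply]
    apply plusQF_minusT
    · ring
    · linear_combination -hθ)
  have hr := isRat_minus (algebraMap F K) m a b
  have hn : 5 ≤ Fintype.card ((Fin m ⊕ Fin m) ⊕ Fin 2) := by rw [minus_card]; omega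
  have key := preserves_iff_two h2K hQK hn (minus_card m) hT3 hU₀ (mapSim hr g)
  have k2 := mapSim_mem_SS_iff hr hQK hn (m + 1) g
  rw [SS_two h2, SS_two h2K] at k2
  rw [← minusQF_coe, ← k2, ← key]
  rfl

theorem minus_preserves_iff_SS [Fintype F] (m : ℕ) (hm : 2 ≤ m) {a b : F}
    (hab : ∀ z₁ z₂ : F, z₁ ^ 2 + a * z₁ * z₂ + b * z₂ ^ 2 = 0 → z₁ = 0 ∧ z₂ = 0)
    (hex : ∃ v, minusQF m F a b v ≠ 0)
    (g : ↥(Cfsg.Geo.quadSimilarityGroup ⇑(minusQF m F a b))) :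
    Cfsg.PreservesSingularClassesMinus m a b
      ((g : GL ((Fin m ⊕ Fin m) ⊕ Fin 2) F) : Matrix ((Fin m ⊕ Fin m) ⊕ Fin 2) ((Fin m ⊕ Fin m) ⊕ Fin 2) F) ↔
    g ∈ SS (minusQF m F a b) hex (m + 1) := by
  by_cases h2 : (2 : F) = 0
  · rw [SS_two h2]
    constructor
    · rintro ⟨K, _, _, hK, h⟩
      exact (minus_preserves_two_aux h2 m hm hab g K hK).1 h
    · intro h
      obtain ⟨K, _, _, hK⟩ := exists_quadratic_extension hab
      exact ⟨K, _, _, hK, (minus_preserves_two_aux h2 m hm hab g K hK).2 h⟩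
  · rw [mem_SS_odd h2]
    exact minus_preserves_iff h2 m hab g

lemma inndiagMinus_def (m : ℕ) (a b : F) :
    Cfsg.inndiagPOmegaMinus m F a b = idGen (Cfsg.quadFormMinus m F a b)
    (fun g => Cfsg.PreservesSingularClassesMinus m a b
      (g : Matrix ((Fin m ⊕ Fin m) ⊕ Fin 2) ((Fin m ⊕ Fin m) ⊕ Fin 2) F)) := rfl

theorem inndiagMinus_eq [Fintype F] (m : ℕ) (hm : 2 ≤ m) {a b : F}
    (hab : ∀ z₁ z₂ : F, z₁ ^ 2 + a * z₁ * z₂ + b * z₂ ^ 2 = 0 → z₁ = 0 ∧ z₂ = 0)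
    (hex : ∃ v, minusQF m F a b v ≠ 0) :
    idGen ⇑(minusQF m F a b) (fun g => Cfsg.PreservesSingularClassesMinus m a b
      (g : Matrix ((Fin m ⊕ Fin m) ⊕ Fin 2) ((Fin m ⊕ Fin m) ⊕ Fin 2) F)) =
      (SS (minusQF m F a b) hex (m + 1)).map (conjPOmega ⇑(minusQF m F a b)) :=
  autSubgroupOf_eq_map_S ⇑(minusQF m F a b) (SS (minusQF m F a b) hex (m + 1))
    (fun g => Cfsg.PreservesSingularClassesMinus m a b
      (g : Matrix ((Fin m ⊕ Fin m) ⊕ Fin 2) ((Fin m ⊕ Fin m) ⊕ Fin 2) F))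
    (fun g => minus_preserves_iff_SS m hm hab hex g)

end Cfsg.Agent.Lib.Helper43.PO
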