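import Cfsg.Agent.Lib.Helper43.PO.CosetS
import Cfsg.Agent.Lib.Helper5.OmegaSimple

set_option autoImplicit false
set_option linter.unusedSectionVars false

/-!
Transport of `PΩ`, its automorphisms and the subgroup `SS` along a similarity between two forms
(possibly on different index types).
-/

namespace Cfsg.Agent.Lib.Helper43.PO

open Matrix QuadraticMap Module Cfsg.Agent.Lib.Helper13.OOut Cfsg.Agent.Lib.Helper43.PA
  Cfsg.Agent.Lib.Helper44 Cfsg.Agent.Lib.Helper5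

universe u v

/-! ### transport along a group isomorphism -/

section equiv

variable {A B : Type*} [Group A] [Group B] (Λ : A ≃* B)

lemma isConjUnder_map_iff (D : Subgroup A) (D' : Subgroup B) (hD : D.map Λ.toMonoidHom = D')
    (y z : A) : Cfsg.IsConjUnder D' (Λ y) (Λ z) ↔ Cfsg.IsConjUnder D y z := by
  subst hD
  constructor
  · rintro ⟨_, ⟨h, hh, rfl⟩, e⟩
    refine ⟨h, hh, Λ.injective ?_⟩
    rw [e]
    simp
  · rintro ⟨h, hh, e⟩
    exact ⟨Λ h, ⟨h, hh, rfl⟩, by rw [e]; simp⟩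

theorem splitClassCount_equiv (H K : Subgroup A) (H' K' : Subgroup B)
    (hH : H.map Λ.toMonoidHom = H') (hK : K.map Λ.toMonoidHom = K') (x : A) :
    Cfsg.splitClassCount H' K' (Λ x) = Cfsg.splitClassCount H K x := by
  unfold Cfsg.splitClassCount
  symm
  refine Nat.card_congr (Quot.congr (Equiv.subtypeEquiv Λ.toEquiv (fun y => ?_)) ?_)
  · exact (isConjUnder_map_iff Λ H H' hH x y).symm
  · intro y z
    exact (isConjUnder_map_iff Λ K K' hK y.1 z.1).symm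

theorem centralizer_equiv (D : Subgroup A) (D' : Subgroup B) (hD : D.map Λ.toMonoidHom = D')
    (x : A) :
    Nonempty (↥(D ⊓ Subgroup.centralizer {x}) ≃* ↥(D' ⊓ Subgroup.centralizer {Λ x})) := by
  subst hD
  have h : (D ⊓ Subgroup.centralizer {x}).map Λ.toMonoidHom =
      D.map Λ.toMonoidHom ⊓ Subgroup.centralizer {Λ x} := by
    ext y
    constructor
    · rintro ⟨z, ⟨hz1, hz2⟩, rfl⟩
      refine ⟨⟨z, hz1, rfl⟩, ?_⟩
      have hz2' := Subgroup.mem_centralizer_singleton_iff.1 hz2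
      apply Subgroup.mem_centralizer_singleton_iff.2
      show Λ z * Λ x = Λ x * Λ z
      rw [← map_mul, ← map_mul, hz2']
    · rintro ⟨⟨z, hz, rfl⟩, hy2⟩
      have hy2' := Subgroup.mem_centralizer_singleton_iff.1 hy2
      refine ⟨z, ⟨hz, ?_⟩, rfl⟩
      apply Subgroup.mem_centralizer_singleton_iff.2
      apply Λ.injective
      rw [map_mul, map_mul]
      exact hy2'
  exact ⟨(Λ.subgroupMap _).trans (MulEquiv.subgroupCongr h)⟩

end equiv

lemma inn_map_congr {G H : Type*} [Group G] [Group H] (ψ : G ≃* H) :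
    (Cfsg.Inn G).map (MulAut.congr ψ).toMonoidHom = Cfsg.Inn H := by
  ext y
  constructor
  · rintro ⟨_, ⟨g, rfl⟩, rfl⟩
    refine ⟨ψ g, ?_⟩
    ext z
    simp [MulAut.congr]
  · rintro ⟨h, rfl⟩
    refine ⟨_, ⟨ψ.symm h, rfl⟩, ?_⟩
    ext z
    simp [MulAut.congr]

lemma mem_commutator_equiv {A B : Type*} [Group A] [Group B] (e : A ≃* B) (x : A) :
    e x ∈ commutator B ↔ x ∈ commutator A := by
  have h : (commutator A).map e.toMonoidHom = commutator B := by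
    rw [commutator_def, Subgroup.map_commutator, commutator_def,
      Subgroup.map_top_of_surjective _ e.surjective]
  rw [← h]
  exact Subgroup.mem_map_iff_mem e.injective

/-! ### similarities between forms -/

variable {F : Type u} [Field F] {ι κ : Type} [Fintype ι] [DecidableEq ι] [Fintype κ] [DecidableEq κ]

/-- a similarity between two forms, in matrix form. -/
structure Tr (Q : QuadraticForm F (ι → F)) (Q' : QuadraticForm F (κ → F)) where
  M : Matrix ι κ F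
  N : Matrix κ ι F
  MN : M * N = 1
  NM : N * M = 1
  l : Fˣ
  spec : ∀ w, Q (M *ᵥ w) = l * Q' w

namespace Tr

variable {Q : QuadraticForm F (ι → F)} {Q' : QuadraticForm F (κ → F)} (T : Tr Q Q')

/-- the inverse similarity. -/
def symm : Tr Q' Q where
  M := T.N
  N := T.M
  MN := T.NM
  NM := T.MN
  l := T.l⁻¹
  spec w := by
    have := T.spec (T.N *ᵥ w)
    rw [mulVec_mulVec, T.MN, one_mulVec] at this
    rw [this, ← mul_assoc, ← Units.val_mul, inv_mul_cancel, Units.val_one, one_mul]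

lemma conj_mul (A B : Matrix κ κ F) : T.M * A * T.N * (T.M * B * T.N) = T.M * (A * B) * T.N := by
  calc T.M * A * T.N * (T.M * B * T.N) = T.M * A * (T.N * T.M) * B * T.N := by
        simp only [Matrix.mul_assoc]
    _ = T.M * (A * B) * T.N := by rw [T.NM]; simp only [Matrix.mul_one, Matrix.mul_assoc]

lemma conj_conj (A : Matrix κ κ F) : T.N * (T.M * A * T.N) * T.M = A := by
  calc T.N * (T.M * A * T.N) * T.M = (T.N * T.M) * A * (T.N * T.M) := by
        simp only [Matrix.mul_assoc]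
    _ = A := by rw [T.NM]; simp

/-- conjugation of matrices. -/
def mat : Matrix κ κ F ≃* Matrix ι ι F where
  toFun A := T.M * A * T.N
  invFun B := T.N * B * T.M
  left_inv A := T.conj_conj A
  right_inv B := T.symm.conj_conj B
  map_mul' A B := (T.conj_mul A B).symm

/-- conjugation of invertible matrices. -/
def gl : GL κ F ≃* GL ι F := Units.mapEquiv T.mat

lemma gl_val (g : GL κ F) : (T.gl g).1 = T.M * g.1 * T.N := rfl

lemma symm_gl_gl (g : GL κ F) : T.symm.gl (T.gl g) = g := Units.ext (T.conj_conj g.1)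

lemma gl_symm_gl (g : GL ι F) : T.gl (T.symm.gl g) = g := Units.ext (T.symm.conj_conj g.1)

lemma gl_mulVec (g : GL κ F) (w : κ → F) : (T.gl g).1 *ᵥ (T.M *ᵥ w) = T.M *ᵥ (g.1 *ᵥ w) := by
  rw [gl_val, mulVec_mulVec, Matrix.mul_assoc, T.NM, Matrix.mul_one, mulVec_mulVec]

lemma M_N_mulVec (u : ι → F) : T.M *ᵥ (T.N *ᵥ u) = u := by
  rw [mulVec_mulVec, T.MN, one_mulVec]

lemma mult_gl {g : GL κ F} {c : F} (h : ∀ w, Q' (g.1 *ᵥ w) = c * Q' w) (u : ι → F) :
    Q ((T.gl g).1 *ᵥ u) = c * Q u := by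
  rw [← T.M_N_mulVec u, gl_mulVec, T.spec, T.spec, h]
  ring

lemma mem_iso {g : GL κ F} (h : g ∈ Cfsg.isometryGroup F ⇑Q') :
    T.gl g ∈ Cfsg.isometryGroup F ⇑Q := by
  rw [mem_isometryGroup] at h ⊢
  intro u
  rw [T.mult_gl (c := 1) (fun w => by rw [h, one_mul]), one_mul]

lemma mem_sim {g : GL κ F} (h : g ∈ Cfsg.Geo.quadSimilarityGroup ⇑Q') :
    T.gl g ∈ Cfsg.Geo.quadSimilarityGroup ⇑Q := by
  obtain ⟨c, hc⟩ := h
  exact ⟨c, T.mult_gl hc⟩

/-- transport of isometries. -/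
def O : ↥(Cfsg.isometryGroup F ⇑Q') ≃* ↥(Cfsg.isometryGroup F ⇑Q) where
  toFun g := ⟨T.gl g.1, T.mem_iso g.2⟩
  invFun g := ⟨T.symm.gl g.1, T.symm.mem_iso g.2⟩
  left_inv g := Subtype.ext (T.symm_gl_gl g.1)
  right_inv g := Subtype.ext (T.gl_symm_gl g.1)
  map_mul' a b := Subtype.ext (map_mul T.gl a.1 b.1)

/-- transport of similarities. -/
def Sim : ↥(Cfsg.Geo.quadSimilarityGroup ⇑Q') ≃* ↥(Cfsg.Geo.quadSimilarityGroup ⇑Q) where
  toFun g := ⟨T.gl g.1, T.mem_sim g.2⟩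
  invFun g := ⟨T.symm.gl g.1, T.symm.mem_sim g.2⟩
  left_inv g := Subtype.ext (T.symm_gl_gl g.1)
  right_inv g := Subtype.ext (T.gl_symm_gl g.1)
  map_mul' a b := Subtype.ext (map_mul T.gl a.1 b.1)

lemma O_val (g : ↥(Cfsg.isometryGroup F ⇑Q')) : (T.O g).1 = T.gl g.1 := rfl
lemma Sim_val (g : ↥(Cfsg.Geo.quadSimilarityGroup ⇑Q')) : (T.Sim g).1 = T.gl g.1 := rfl

lemma gl_scG (ν : Fˣ) : T.gl (scG ν) = scG ν := by
  apply Units.ext
  rw [gl_val, scG_coe', scG_coe', Matrix.mul_smul, Matrix.mul_one, Matrix.smul_mul, T.MN]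

lemma multF_Sim (hex : ∃ v, Q v ≠ 0) (g : ↥(Cfsg.Geo.quadSimilarityGroup ⇑Q')) :
    multF Q (T.Sim g) = multF Q' g :=
  multF_unique hex _ _ (T.mult_gl (multF_spec Q' g))

lemma O_mem_Omega_iff (h : ↥(Cfsg.isometryGroup F ⇑Q')) :
    T.O h ∈ Cfsg.Omega F ⇑Q ↔ h ∈ Cfsg.Omega F ⇑Q' := mem_commutator_equiv T.O h

/-- transport of `PΩ`. -/
noncomputable def Psi : Cfsg.POmega F ⇑Q' ≃* Cfsg.POmega F ⇑Q :=
  quotCenterEquiv (commutatorEquiv T.O)

lemma Psi_mk (s : ↥(Cfsg.Omega F ⇑Q')) :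
    T.Psi (QuotientGroup.mk s) = QuotientGroup.mk (commutatorEquiv T.O s) := rfl

/-- transport of automorphisms. -/
noncomputable def Lam : MulAut (Cfsg.POmega F ⇑Q') ≃* MulAut (Cfsg.POmega F ⇑Q) :=
  MulAut.congr T.Psi

lemma Lam_apply (β : MulAut (Cfsg.POmega F ⇑Q')) (x : Cfsg.POmega F ⇑Q') :
    T.Lam β (T.Psi x) = T.Psi (β x) := by
  simp [Lam, MulAut.congr]

theorem Lam_conj (g : ↥(Cfsg.Geo.quadSimilarityGroup ⇑Q')) :
    T.Lam (conjPOmega ⇑Q' g) = conjPOmega ⇑Q (T.Sim g) := by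
  ext x
  obtain ⟨y, rfl⟩ := T.Psi.surjective x
  rw [Lam_apply]
  induction y using QuotientGroup.induction_on with
  | H s =>
    obtain ⟨s', hs'⟩ := exists_conj_Omega ⇑Q' g s
    rw [conjPOmega_apply_mk ⇑Q' g s s' hs', Psi_mk, Psi_mk]
    symm
    apply conjPOmega_apply_mk
    show T.gl _ = T.gl _ * T.gl _ * (T.gl _)⁻¹
    rw [hs', map_mul, map_mul, map_inv]

theorem Sim_mem_SS_iff [Fintype F] (hQ : (polarBilin Q).Nondegenerate)
    (hn : 5 ≤ Fintype.card ι) (hQ' : (polarBilin Q').Nondegenerate)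
    (hn' : 5 ≤ Fintype.card κ) (n : ℕ) (g : ↥(Cfsg.Geo.quadSimilarityGroup ⇑Q')) :
    T.Sim g ∈ SS Q (exists_ne_zero Q hQ hn) n ↔ g ∈ SS Q' (exists_ne_zero Q' hQ' hn') n := by
  by_cases h2 : (2 : F) = 0
  · obtain ⟨ν, h, e⟩ := decomp_two h2 Q' g
    rw [SS_two h2, SS_two h2, mem_ZOm_iff Q' hQ' hn' h2 g ν h e,
      mem_ZOm_iff Q hQ hn h2 (T.Sim g) ν (T.O h) (by rw [Sim_val, e, map_mul, gl_scG, O_val]),
      O_mem_Omega_iff]
  · rw [mem_SS_odd h2, mem_SS_odd h2, T.multF_Sim (exists_ne_zero Q hQ hn), Sim_val, gl_val,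
      Matrix.det_conj_of_mul_eq_one T.MN T.NM]

theorem map_SS [Fintype F] (hQ : (polarBilin Q).Nondegenerate)
    (hn : 5 ≤ Fintype.card ι) (hQ' : (polarBilin Q').Nondegenerate)
    (hn' : 5 ≤ Fintype.card κ) (n : ℕ) :
    ((SS Q' (exists_ne_zero Q' hQ' hn') n).map (conjPOmega ⇑Q')).map T.Lam.toMonoidHom =
      (SS Q (exists_ne_zero Q hQ hn) n).map (conjPOmega ⇑Q) := by
  ext y
  constructor
  · rintro ⟨_, ⟨g, hg, rfl⟩, rfl⟩
    exact ⟨T.Sim g, (T.Sim_mem_SS_iff hQ hn hQ' hn' n g).2 hg, (T.Lam_conj g).symm⟩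
  · rintro ⟨g, hg, rfl⟩
    obtain ⟨g', rfl⟩ := T.Sim.surjective g
    exact ⟨_, ⟨g', (T.Sim_mem_SS_iff hQ hn hQ' hn' n g').1 hg, rfl⟩, T.Lam_conj g'⟩

end Tr

end Cfsg.Agent.Lib.Helper43.PO
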