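import Cfsg.Agent.Lib.Helper43.PO.CosetS
import Cfsg.Agent.Lib.Helper43.PO.Odd

set_option autoImplicit false
set_option linter.unusedSectionVars false

/-!
The type (hyperbolic or not) of the descent of an invariant form of even dimension.
-/

namespace Cfsg.Agent.Lib.Helper43.PO

open Matrix QuadraticMap Module Cfsg.Agent.Lib.Helper13.OOut Cfsg.Agent.Lib.Helper43.PA
  Cfsg.Agent.Lib.Helper44

universe u v

variable {F : Type u} [Field F] {ι κ : Type} [Fintype ι] [DecidableEq ι] [Fintype κ] [DecidableEq κ]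

lemma IsoM.smul {P : QuadraticForm F (ι → F)} {R : QuadraticForm F (κ → F)} (h : IsoM P R) (c : F) :
    IsoM (c • P) (c • R) := by
  obtain ⟨M, N, h1, h2, h3⟩ := h
  exact ⟨M, N, h1, h2, fun w => by
    show c • P (M *ᵥ w) = c • R w
    rw [h3]⟩

lemma isoM_plus_smul (n : ℕ) (hn : 1 ≤ n) (ν : Fˣ) : IsoM (plusQF n F) ((ν : F) • plusQF n F) := by
  obtain ⟨δ, -, hδ⟩ := plus_exists_simil' (F := F) n hn ν
  exact isoM_of_GL δ.1 (fun w => by
    rw [multF_spec, hδ]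
    rfl)

lemma isoM_of_sim {Q Q' : QuadraticForm F (ι → F)} (h₀ : GL ι F) (ν : Fˣ)
    (h : ∀ v, Q' v = ν * Q (h₀.1 *ᵥ v)) : IsoM ((ν : F) • Q) Q' :=
  isoM_of_GL h₀ (fun w => (h w).symm)

lemma hyp_sim_iff {Q Q' : QuadraticForm F (ι → F)} (h₀ : GL ι F) (ν : Fˣ)
    (h : ∀ v, Q' v = ν * Q (h₀.1 *ᵥ v)) (n : ℕ) (hn : 1 ≤ n) :
    IsoM Q' (plusQF n F) ↔ IsoM Q (plusQF n F) := by
  have h1 := isoM_of_sim h₀ ν h
  constructor
  · intro h2
    have h3 := ((h1.trans h2).smul ((ν⁻¹ : Fˣ) : F)).trans (isoM_plus_smul n hn ν⁻¹).symm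
    have e : ((ν⁻¹ : Fˣ) : F) • (ν : F) • Q = Q := by
      rw [smul_smul, ← Units.val_mul, inv_mul_cancel, Units.val_one, one_smul]
    rwa [e] at h3
  · intro h2
    exact h1.symm.trans ((h2.smul (ν : F)).trans (isoM_plus_smul n hn ν).symm)

/-- the descent is hyperbolic. -/
def HypT (σ : F ≃+* F) (n : ℕ) (Q₁ : QuadraticForm F (ι → F)) : Prop :=
  ∃ P₁ : QuadraticForm (fixK σ) (ι → fixK σ), IsRat (fixK σ).subtype Q₁ P₁ ∧
    IsoM P₁ (plusQF (n + 1) (fixK σ))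

lemma HypT.up {σ : F ≃+* F} {n : ℕ} {Q₁ : QuadraticForm F (ι → F)} (h : HypT σ n Q₁) :
    IsoM Q₁ (plusQF (n + 1) F) := by
  obtain ⟨P₁, h1, h2⟩ := h
  exact IsoM.map h1 (isRat_plus _ _) h2

lemma hypT_plus (σ : F ≃+* F) (n : ℕ) : HypT σ n (plusQF (n + 1) F) :=
  ⟨plusQF (n + 1) (fixK σ), isRat_plus _ _, IsoM.refl _⟩

theorem simRat_of_types [Finite F] (σ : F ≃+* F) {n : ℕ} (hι : Fintype.card ι = 2 * (n + 1))
    (Q₁ Q₂ : QuadraticForm F (ι → F)) (i1 : Inv Q₁ σ) (i2 : Inv Q₂ σ)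
    (n1 : (polarBilin Q₁).Nondegenerate) (n2 : (polarBilin Q₂).Nondegenerate)
    (h : HypT σ n Q₁ ↔ HypT σ n Q₂) : SimRat σ Q₁ Q₂ := by
  haveI : Fintype (fixK σ) := Fintype.ofFinite _
  have key : ∃ P₁ P₂ : QuadraticForm (fixK σ) (ι → fixK σ), IsRat (fixK σ).subtype Q₁ P₁ ∧
      IsRat (fixK σ).subtype Q₂ P₂ ∧ IsoM P₁ P₂ := by
    by_cases h1 : HypT σ n Q₁
    · obtain ⟨P₂, r2, e2⟩ := h.1 h1
      obtain ⟨P₁, r1, e1⟩ := h1
      exact ⟨P₁, P₂, r1, r2, e1.trans e2.symm⟩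
    · have h2 : ¬ HypT σ n Q₂ := fun h' => h1 (h.2 h')
      obtain ⟨P₁, r1⟩ := exists_desc (fixK_iff' σ) Q₁ i1
      obtain ⟨P₂, r2⟩ := exists_desc (fixK_iff' σ) Q₂ i2
      exact ⟨P₁, P₂, r1, r2, class_two hι P₁ P₂ (r1.nondeg n1) (r2.nondeg n2)
        (fun e => h1 ⟨P₁, r1, e⟩) (fun e => h2 ⟨P₂, r2, e⟩)⟩
  obtain ⟨P₁, P₂, r1, r2, e⟩ := key
  obtain ⟨k, hk⟩ := e.exists_GL
  exact simRat_of_rat (fixK_iff' σ) r1 r2 k 1 (fun w => by rw [hk]; simp)

/-- an irreducible quadratic stays irreducible in an extension of odd degree. -/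
lemma irr_of_odd {σ : F ≃+* F} (hodd : Odd (orderOf σ)) {ζ : F} (hζ : σ ζ = ζ)
    (h : ∀ t : F, σ t = t → t ^ 2 + t + ζ ≠ 0) : ∀ t : F, t ^ 2 + t + ζ ≠ 0 := by
  intro t ht
  have h1 : (σ t) ^ 2 + σ t + ζ = 0 := by
    have := congrArg σ ht
    rwa [map_add, map_add, map_pow, hζ, map_zero] at this
  have h2 : (σ t - t) * (σ t + t + 1) = 0 := by linear_combination h1 - ht
  have h3 : σ t = t := by
    rcases mul_eq_zero.1 h2 with h' | h'
    · exact sub_eq_zero.1 h'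
    · have h4 : σ t = -1 - t := by linear_combination h'
      have h5 : σ (σ t) = t := by
        rw [h4, map_sub, map_neg, map_one, h4]; ring
      obtain ⟨k, hk⟩ := hodd
      have h6 : ∀ j : ℕ, (σ ^ (2 * j)) t = t := by
        intro j
        induction j with
        | zero => simp
        | succ j ih =>
          have : 2 * (j + 1) = 2 * j + 1 + 1 := by ring
          rw [this, pow_succ, pow_succ, RingAut.mul_apply, RingAut.mul_apply, h5, ih]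
      have h7 : (σ ^ (2 * k + 1)) t = t := by
        rw [← hk, pow_orderOf_eq_one]; rfl
      rw [pow_succ', RingAut.mul_apply, h6] at h7
      exact h7
  exact h t h3 ht

/-- in odd degree, a form which is hyperbolic upstairs has hyperbolic descent. -/
theorem hypT_of_odd [Finite F] {σ : F ≃+* F} (hodd : Odd (orderOf σ)) {n : ℕ}
    (hι : Fintype.card ι = 2 * (n + 1)) (Q₁ : QuadraticForm F (ι → F)) (i1 : Inv Q₁ σ)
    (n1 : (polarBilin Q₁).Nondegenerate) (h : IsoM Q₁ (plusQF (n + 1) F)) : HypT σ n Q₁ := by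
  obtain ⟨P₁, r1⟩ := exists_desc (fixK_iff' σ) Q₁ i1
  rcases dich P₁ (r1.nondeg n1) hι with e | ⟨ζ, hζ, e⟩
  · exact ⟨P₁, r1, e⟩
  · exfalso
    have e2 := IsoM.map r1 (isRat_minus (fixK σ).subtype n 1 ζ) e
    rw [map_one] at e2
    have hirr : ∀ t : F, t ^ 2 + t + (fixK σ).subtype ζ ≠ 0 := by
      apply irr_of_odd hodd (mem_fixK.1 ζ.2)
      intro t ht h0
      apply hζ ⟨t, mem_fixK.2 ht⟩
      apply Subtype.ext
      exact h0
    exact not_plus_minus (aniso_of_irr hirr) (e2.symm.trans h)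

end Cfsg.Agent.Lib.Helper43.PO
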